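import Cfsg.Agent.Lib.E11.Defs

set_option autoImplicit false

namespace H30.E11

open Subgroup H69

variable {G Ω : Type} [Group G] [Finite G] [MulAction G Ω] [Finite Ω] {ρ : Ω → Subgroup G}

theorem AV_mod {X : Type} {p : ℕ} (hp : p.Prime) (S : Set X) (hS : S.Finite) (f : X → X)
    (hf : ∀ y ∈ S, f y ∈ S) (h2 : ∀ y ∈ S, f^[p] y = y) :
    {y | y ∈ S ∧ f y = y}.ncard % p = S.ncard % p := by
  classical
  haveI := Fact.mk hp
  haveI := hS.fintype
  let F : Function.End S := Set.MapsTo.restrict f S S hf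
  have e : F ^ p ^ 1 = 1 := by
    funext y
    apply Subtype.ext
    have : F ^ p = F^[p] := rfl
    rw [pow_one, this]
    exact (Set.MapsTo.coe_iterate_restrict (f := f) (s := S) hf y p).trans (h2 y y.2)
  have h := Equiv.Perm.card_fixedPoints_modEq e
  rw [← Nat.card_eq_fintype_card, ← Nat.card_eq_fintype_card, Nat.card_coe_set_eq,
    Nat.card_coe_set_eq, ← Set.ncard_image_of_injective _ Subtype.val_injective] at h
  refine Eq.trans (congrArg (fun A : Set X => A.ncard % p) (Set.ext fun y => ?_)) h.symm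
  exact ⟨fun k => ⟨⟨y, k.1⟩, Subtype.ext k.2, rfl⟩, fun ⟨z, k, e⟩ => e ▸ ⟨z.2, congrArg Subtype.val k⟩⟩

omit [Finite G] in
theorem AV_semi {s t : G} (hs : s * s = 1) (ht : t * t = 1) (i : ℕ) :
    s * (s * t) ^ i = ((s * t) ^ i)⁻¹ * s ∧ t * (s * t) ^ i = ((s * t) ^ i)⁻¹ * t := by
  have e : (s * t)⁻¹ = t * s := by
    rw [mul_inv_rev, inv_eq_of_mul_eq_one_right hs, inv_eq_of_mul_eq_one_right ht]
  have h1 : SemiconjBy s (s * t) (s * t)⁻¹ := by
    rw [SemiconjBy, e, ← mul_assoc, hs, mul_assoc, hs, one_mul, mul_one]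
  have h2 : SemiconjBy t (s * t) (s * t)⁻¹ := by rw [SemiconjBy, e, mul_assoc]
  rw [← inv_pow]
  exact ⟨(h1.pow_right i).eq, (h2.pow_right i).eq⟩

/-- the average number of fixed points on an orbit of `C` of the elements of `x C` is one -/
theorem av_fix {X : Type} (act : G → X → X) (a1 : ∀ y, act 1 y = y)
    (am : ∀ g h y, act (g * h) y = act g (act h y)) (C : Subgroup G) (x : G) (o : X)
    (hx : ∃ c ∈ C, act x o = act c o) (hn : x ∈ 𝐍(C))
    (h1 : ∀ c ∈ C, ∀ d ∈ C, ∀ e ∈ C, act (x * c) (act d o) = act d o →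
      act (x * c) (act e o) = act e o → act d o = act e o) :
    ∀ c ∈ C, ∃ d ∈ C, act (x * c) (act d o) = act d o := by
  letI : MulAction G X := { smul := act, one_smul := a1, mul_smul := am }
  obtain ⟨c0, hc0, e0⟩ := hx
  have ex : ∀ y : MulAction.orbit C o, ∃ d : C, ∃ c : C, (d : G) • o = y ∧ (x * c) • (y : X) = y := by
    rintro ⟨_, d, rfl⟩
    refine ⟨d, ⟨x⁻¹ * (d * c0⁻¹) * x * (d : G)⁻¹,
      mul_mem (conj_mem_of_mem_normalizer' hn (mul_mem d.2 (inv_mem hc0))) (inv_mem d.2)⟩, rfl, ?_⟩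
    show (x * (x⁻¹ * (d * c0⁻¹) * x * (d : G)⁻¹)) • (d : G) • o = (d : G) • o
    have e1 : x • o = c0 • o := e0
    rw [← mul_smul, show x * (x⁻¹ * (d * c0⁻¹) * x * (d : G)⁻¹) * d = d * c0⁻¹ * x by group, mul_smul,
      e1, ← mul_smul, inv_mul_cancel_right]
  choose d c hd hc using ex
  let ψ : MulAction.orbit C o × MulAction.stabilizer C o → C :=
    fun p => c p.1 * (d p.1 * p.2 * (d p.1)⁻¹)
  have fx : ∀ p, (x * ψ p) • (p.1 : X) = p.1 := fun p => by
    have e1 : ((p.2 : C) : G) • o = o := p.2.2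
    have e2 : ((d p.1 * p.2 * (d p.1)⁻¹ : C) : G) • (p.1 : X) = p.1 := by
      rw [← hd p.1, coe_mul, coe_mul, coe_inv, mul_smul, mul_smul, inv_smul_smul, e1]
    show (x * ((c p.1 : G) * (d p.1 * p.2 * (d p.1)⁻¹ : C))) • (p.1 : X) = p.1
    rw [← mul_assoc, mul_smul, e2, hc]
  have inj : Function.Injective ψ := by
    rintro ⟨y, s⟩ ⟨y', s'⟩ e
    have f1 := fx (y, s)
    have f2 := fx (y', s')
    rw [← e] at f2
    rw [← hd] at f1 f2
    obtain rfl : y = y' := Subtype.ext (by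
      rw [← hd y, ← hd y']; exact h1 _ (ψ (y, s)).2 _ (d y).2 _ (d y').2 f1 f2)
    simpa [ψ] using e
  haveI := Finite.of_equiv _ (MulAction.orbitProdStabilizerEquivGroup C o).symm
  intro c' hc'
  obtain ⟨p, hp⟩ := (Finite.injective_iff_surjective_of_equiv
    (MulAction.orbitProdStabilizerEquivGroup C o)).1 inj ⟨c', hc'⟩
  have f := fx p
  rw [hp, ← hd] at f
  exact ⟨d p.1, (d p.1).2, f⟩

/-- an involution has as many fixed points as the set has points, modulo 2 -/
theorem fix_par {X : Type} (S : Set X) (hS : S.Finite) (f : X → X) (hf : ∀ y ∈ S, f y ∈ S)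
    (h2 : ∀ y ∈ S, f (f y) = y) : {y | y ∈ S ∧ f y = y}.ncard % 2 = S.ncard % 2 :=
  AV_mod Nat.prime_two S hS f hf h2

/-- the same for an element of prime order -/
theorem fix_mod {p : ℕ} (hp : p.Prime) (S : Set Ω) (g : G) (hg : g ^ p = 1)
    (hf : ∀ y ∈ S, g • y ∈ S) : {y | y ∈ S ∧ g • y = y}.ncard % p = S.ncard % p :=
  AV_mod hp S (Set.toFinite S) (g • ·) hf fun y _ => by rw [smul_iterate_apply, hg, one_smul]

/-- a semiregular group -/
theorem semi_dvd {X : Type} (act : G → X → X) (a1 : ∀ y, act 1 y = y)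
    (am : ∀ g h y, act (g * h) y = act g (act h y)) (E : Subgroup G) (S : Set X) (hS : S.Finite)
    (hf : ∀ e ∈ E, ∀ y ∈ S, act e y ∈ S) (hr : ∀ e ∈ E, ∀ y ∈ S, act e y = y → e = 1) :
    Nat.card E ∣ S.ncard := by
  letI : MulAction G X := { smul := act, one_smul := a1, mul_smul := am }
  let T : SubMulAction E X := ⟨S, fun e {y} hy => hf e e.2 y hy⟩
  have e := MulAction.selfEquivOrbitsQuotientProd (G := E) (X := T) fun y =>
    eq_bot_iff.2 fun e he => Subtype.ext (hr e e.2 y y.2 (congrArg Subtype.val he))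
  have : S.ncard = Nat.card T := (Nat.card_coe_set_eq S).symm
  rw [this, Nat.card_congr e, Nat.card_prod]
  exact dvd_mul_left _ _

/-- orbit and stabiliser -/
theorem orb_card {X : Type} (act : G → X → X) (a1 : ∀ y, act 1 y = y)
    (am : ∀ g h y, act (g * h) y = act g (act h y)) (E F : Subgroup G) (o : X)
    (hF : ∀ e, e ∈ F ↔ e ∈ E ∧ act e o = o) :
    Nat.card E = {y | ∃ e ∈ E, act e o = y}.ncard * Nat.card F := by
  letI : MulAction G X := { smul := act, one_smul := a1, mul_smul := am }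
  have h1 : MulAction.stabilizer E o = F.subgroupOf E := by
    ext e
    rw [mem_subgroupOf, hF]
    exact ⟨fun h => ⟨e.2, h⟩, fun h => h.2⟩
  have h2 : MulAction.orbit E o = {y | ∃ e ∈ E, act e o = y} := by
    ext y
    exact ⟨fun ⟨e, h⟩ => ⟨e, e.2, h⟩, fun ⟨e, he, h⟩ => ⟨⟨e, he⟩, h⟩⟩
  rw [← h2, ← MulAction.index_stabilizer, ← (MulAction.stabilizer E o).index_mul_card, h1,
    Nat.card_congr (subgroupOfEquivOfLe fun e he => ((hF e).1 he).1).toEquiv]

/-- two involutions with a product of odd order are swapped by an involution -/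
theorem dih_odd {s t : G} (hs : s * s = 1) (ht : t * t = 1) (ho : Odd (orderOf (s * t))) :
    ∃ i : ℕ, ((s * t) ^ i * s) * s * ((s * t) ^ i * s)⁻¹ = t ∧
      ((s * t) ^ i * s) * ((s * t) ^ i * s) = 1 := by
  obtain ⟨i, hi⟩ := ho
  have e := AV_semi hs ht i
  have e1 : (s * t) ^ i * (s * t) ^ i * (s * t) = 1 := by
    rw [← pow_add, ← pow_succ, ← two_mul, ← hi, pow_orderOf_eq_one]
  have e2 : (s * t) ^ i * s * ((s * t) ^ i * s) = 1 := by
    rw [mul_assoc, ← mul_assoc s, e.1, mul_assoc, hs, mul_one, mul_inv_cancel]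
  refine ⟨i, ?_, e2⟩
  rw [inv_eq_of_mul_eq_one_right e2, mul_assoc _ s s, hs, mul_one, ← mul_assoc]
  apply mul_right_cancel (b := t)
  rw [ht, mul_assoc, e1]

/-- two involutions with a product of even order are centralised by an involution -/
theorem dih_even {s t : G} (hs : s * s = 1) (ht : t * t = 1) (he : Even (orderOf (s * t))) :
    ∃ i : ℕ, (s * t) ^ i ≠ 1 ∧ (s * t) ^ i * (s * t) ^ i = 1 ∧ (s * t) ^ i * s = s * (s * t) ^ i ∧
      (s * t) ^ i * t = t * (s * t) ^ i := by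
  obtain ⟨i, hi⟩ := he
  have h0 := orderOf_pos (s * t)
  have e := AV_semi hs ht i
  have e1 : (s * t) ^ i * (s * t) ^ i = 1 := by rw [← pow_add, ← hi, pow_orderOf_eq_one]
  rw [inv_eq_of_mul_eq_one_right e1] at e
  exact ⟨i, pow_ne_one_of_lt_orderOf (by omega) (by omega), e1, e.1.symm, e.2.symm⟩

end H30.E11
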