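import Cfsg.Agent.Lib.E11.Defs
import Cfsg.Agent.Lib.E11.AV

set_option autoImplicit false

namespace H30.E11

open Subgroup H69

variable {G Ω : Type} [Group G] [Finite G] [MulAction G Ω] [Finite Ω] {ρ : Ω → Subgroup G}

omit [Finite G] in
theorem bu_cj {T : Subgroup G} {a g : G} (h : g * a * g⁻¹ ∈ T) {k : G} (hk : k ∈ zpowers a) :
    g * k * g⁻¹ ∈ T := by
  obtain ⟨i, rfl⟩ := mem_zpowers_iff.1 hk
  rw [← conj_zpow]; exact zpow_mem h i

theorem bu_burn (A : Subgroup G) (a0 : G) (ha : a0 ∈ A) (h11 : orderOf a0 = 11)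
    (hn : ∀ c ∈ A, c ∈ 𝐍(zpowers a0) → c ∈ zpowers a0) :
    ∃ A0 : Subgroup G, A0 ≤ A ∧ A ≤ 𝐍(A0) ∧ ¬ 11 ∣ Nat.card A0 ∧
      (∀ c ∈ A, ∃ i : ℕ, ∃ d ∈ A0, c = a0 ^ i * d) ∧ Nat.card A = 11 * Nat.card A0 ∧
      ∀ c ∈ A, c ^ 11 ∈ A0 := by
  have : Fact (Nat.Prime 11) := ⟨by norm_num⟩
  have cT : Nat.card (zpowers a0) = 11 := by rw [Nat.card_zpowers, h11]
  have le : zpowers a0 ≤ A := zpowers_le.2 ha
  have e : A ⊓ 𝐍(zpowers a0) = zpowers a0 :=
    le_antisymm (fun c hc => hn c hc.1 hc.2) (le_inf le le_normalizer)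
  have hS : IsSylowIn 11 (zpowers a0) A := isSylowIn_of_normalizer le (by
    rw [e]; exact isSylowIn_self (IsPGroup.of_card (n := 1) (by rw [cT, pow_one])))
  obtain ⟨P, hPe⟩ := hS.exists_sylow_subgroupOf
  have mP : ∀ x : A, x ∈ (P : Subgroup A) ↔ (x : G) ∈ zpowers a0 := fun x => by
    rw [hPe, mem_subgroupOf]
  have hP : normalizer ((P : Subgroup A) : Set A) ≤ centralizer ((P : Subgroup A) : Set A) := by
    intro g hg x hx
    have h1 : (g : G) ∈ 𝐍(zpowers a0) := mem_normalizer_of_cj_le (by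
      rintro _ ⟨k, hk, rfl⟩
      exact (mP _).1 ((mem_normalizer_iff.1 hg ⟨k, le hk⟩).1 ((mP _).2 hk)))
    obtain ⟨i, hi⟩ := mem_zpowers_iff.1 (hn g g.2 h1)
    obtain ⟨j, hj⟩ := mem_zpowers_iff.1 ((mP x).1 hx)
    apply Subtype.ext
    rw [coe_mul, coe_mul, ← hi, ← hj, ← zpow_add, ← zpow_add, add_comm]
  have hc := MonoidHom.ker_transferSylow_isComplement' P hP
  generalize MonoidHom.transferSylow P hP = φ at hc
  have cP : Nat.card (P : Subgroup A) = 11 := by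
    rw [hPe, Nat.card_congr (subgroupOfEquivOfLe le).toEquiv, cT]
  have c0 : Nat.card (φ.ker.map A.subtype) = Nat.card φ.ker := card_map_of_injective A.subtype_injective
  refine ⟨φ.ker.map A.subtype, map_subtype_le _, le_normalizer_iff.2 ?_, ?_, fun c hc' => ?_, ?_,
    fun c hc' => ⟨⟨c, hc'⟩ ^ 11, ?_, by simp⟩⟩
  · rintro g hg _ ⟨k, hk, rfl⟩
    exact ⟨⟨g, hg⟩ * k * ⟨g, hg⟩⁻¹, (MonoidHom.normal_ker φ).conj_mem k hk _, rfl⟩
  · rw [c0, ← hc.index_eq_card]; exact P.not_dvd_index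
  · obtain ⟨⟨p, k⟩, h, -⟩ := hc.symm.existsUnique ⟨c, hc'⟩
    obtain ⟨i, hi⟩ := (Submonoid.mem_powers_iff _ _).1 (mem_powers_iff_mem_zpowers.2 ((mP p).1 p.2))
    exact ⟨i, (k : A), ⟨k, k.2, rfl⟩, by rw [hi]; exact (congrArg Subtype.val h).symm⟩
  · rw [c0, ← hc.card_mul_card, cP, mul_comm]
  · rw [SetLike.mem_coe, MonoidHom.mem_ker, map_pow]
    have := pow_card_eq_one' (x := φ ⟨c, hc'⟩)
    rwa [cP] at this

/-- the normal complement of a self-normalising subgroup of order 11 -/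
theorem em_burn (A : Subgroup G) (a0 : G) (ha : a0 ∈ A) (h11 : orderOf a0 = 11)
    (hn : ∀ c ∈ A, c ∈ 𝐍(zpowers a0) → c ∈ zpowers a0) :
    ∃ A0 : Subgroup G, A0 ≤ A ∧ A ≤ 𝐍(A0) ∧ ¬ 11 ∣ Nat.card A0 ∧
      ∀ c ∈ A, ∃ i : ℕ, ∃ d ∈ A0, c = a0 ^ i * d := by
  obtain ⟨A0, h1, h2, h3, h4, -⟩ := bu_burn A a0 ha h11 hn
  exact ⟨A0, h1, h2, h3, h4⟩

/-- a self-centralising subgroup of order 11 that is transitive on at least two involutions -/
theorem exb_grp {A : Subgroup G} {a0 t : G} (ha : a0 ∈ A) (h11 : orderOf a0 = 11)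
    (hc : ∀ c ∈ A, c * a0 = a0 * c → c ∈ zpowers a0)
    (hn : ∀ c ∈ A, c ∈ 𝐍(zpowers a0) → c * a0 * c⁻¹ = a0 ∨ c * a0 * c⁻¹ = a0⁻¹)
    (ht : t ∈ A) (h2 : t * t = 1) (h1 : t ≠ 1)
    (htr : ∀ t' ∈ A, t' * t' = 1 → t' ≠ 1 → ∃ c ∈ zpowers a0, c * t * c⁻¹ = t') :
    ∀ c ∈ A, c ^ 11 = 1 → c ∈ zpowers a0 := by
  have cT : Nat.card (zpowers a0) = 11 := by rw [Nat.card_zpowers, h11]
  have le : zpowers a0 ≤ A := zpowers_le.2 ha
  have p11 : ∀ x ∈ zpowers a0, x ^ 11 = 1 := fun x hx => by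
    rw [← cT]; exact congrArg Subtype.val (pow_card_eq_one' (x := (⟨x, hx⟩ : zpowers a0)))
  have e11 : ∀ x : G, x * x = 1 → x ^ 11 = x := fun x h => by
    rw [show x ^ 11 = (x * x) ^ 5 * x by rw [← sq, ← pow_mul, ← pow_succ], h, one_pow, one_mul]
  have i1 : ∀ x ∈ zpowers a0, x * x = 1 → x = 1 := fun x hx h => by rw [← e11 x h, p11 x hx]
  have a1 : a0 ≠ 1 := fun e => by rw [e, orderOf_one] at h11; omega
  have sqT : ∀ c ∈ A, c * a0 * c⁻¹ = a0⁻¹ → c * c ∈ zpowers a0 := fun c hc' e =>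
    hc _ (mul_mem hc' hc') (by
      calc c * c * a0 = c * (c * a0 * c⁻¹) * c := by group
        _ = c * a0⁻¹ * c := by rw [e]
        _ = (c * a0 * c⁻¹)⁻¹ * (c * c) := by group
        _ = a0 * (c * c) := by rw [e, inv_inv])
  by_cases hi : ∃ c ∈ A, c * a0 * c⁻¹ = a0⁻¹
  · obtain ⟨c, hcA, e⟩ := hi
    have inv : ∀ x ∈ zpowers a0, c * x * c⁻¹ = x⁻¹ := fun x hx => by
      obtain ⟨i, rfl⟩ := mem_zpowers_iff.1 hx
      rw [← conj_zpow, e, inv_zpow]
    have c2 : c * c = 1 := i1 _ (sqT c hcA e) (by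
      have := inv _ (sqT c hcA e)
      rw [show c * (c * c) * c⁻¹ = c * c by group] at this
      exact mul_eq_one_iff_eq_inv.2 this)
    have cn : c ∉ zpowers a0 := fun h => by
      rw [i1 c h c2, one_mul, inv_one, mul_one] at e
      exact a1 (i1 a0 (mem_zpowers _) (mul_eq_one_iff_eq_inv.2 e))
    obtain ⟨y, hy, ey⟩ := htr c hcA c2 fun h => cn (h ▸ one_mem _)
    have all : ∀ s ∈ A, s * s = 1 → s ≠ 1 → s * c⁻¹ ∈ zpowers a0 := fun s hs s2 s1 => by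
      obtain ⟨y', hy', ey'⟩ := htr s hs s2 s1
      have hx := mul_mem hy' (inv_mem hy)
      have : s * c⁻¹ = y' * y⁻¹ * (c * (y' * y⁻¹)⁻¹ * c⁻¹) := by
        rw [← ey']; nth_rewrite 2 [← ey]; group
      rw [this, inv _ (inv_mem hx)]
      exact mul_mem hx (inv_mem (inv_mem hx))
    have nor : ∀ g ∈ A, g * a0 * g⁻¹ ∈ zpowers a0 := fun g hg => by
      have cj : ∀ s ∈ A, s * s = 1 → s ≠ 1 → g * s * g⁻¹ * c⁻¹ ∈ zpowers a0 := fun s hs s2 s1 =>
        all _ (mul_mem (mul_mem hg hs) (inv_mem hg))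
          (by rw [conj_mul, s2, mul_one, mul_inv_cancel]) fun h => s1 (by
            rw [show s = g⁻¹ * (g * s * g⁻¹) * g by group, h]; group)
      have k1 := cj c hcA c2 fun h => cn (h ▸ one_mem _)
      have k2 := cj (a0 * c) (mul_mem ha hcA) (by
        rw [show a0 * c * (a0 * c) = a0 * (c * a0 * c⁻¹) * (c * c) by group, e, c2]; group)
        fun h => cn (by rw [eq_inv_of_mul_eq_one_right h]; exact inv_mem (mem_zpowers _))
      have := mul_mem k2 (inv_mem k1)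
      rwa [show g * (a0 * c) * g⁻¹ * c⁻¹ * (g * c * g⁻¹ * c⁻¹)⁻¹ = g * a0 * g⁻¹ by group] at this
    intro g hg g11
    rcases hn g hg (le_normalizer_iff.2 (fun g hg k hk => bu_cj (nor g hg) hk) hg) with h | h
    · exact hc g hg (mul_inv_eq_iff_eq_mul.1 h)
    · have := pow_mem (sqT g hg h) 6
      rwa [← sq, ← pow_mul, show 2 * 6 = 11 + 1 by rfl, pow_succ, g11, one_mul] at this
  exfalso
  obtain ⟨A0, A0le, -, n11, -, cA, pw⟩ := bu_burn A a0 ha h11 fun c hcA h =>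
    hc c hcA (mul_inv_eq_iff_eq_mul.1 ((hn c hcA h).resolve_right fun e => hi ⟨c, hcA, e⟩))
  have a1' : ∀ y : G, (1 : G) * y * 1⁻¹ = y := fun y => by group
  have am : ∀ g h y : G, g * h * y * (g * h)⁻¹ = g * (h * y * h⁻¹) * g⁻¹ := fun g h y => by group
  have o1 := orb_card (fun g y : G => g * y * g⁻¹) a1' am (zpowers a0) ⊥ t fun e => by
    refine ⟨fun h => by rw [mem_bot.1 h]; exact ⟨one_mem _, a1' t⟩, fun h => ?_⟩
    by_contra ne
    have : Fact (Nat.card (zpowers a0)).Prime := ⟨by rw [cT]; norm_num⟩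
    have z : zpowers e = zpowers a0 := by
      refine eq_of_le_of_card_ge (zpowers_le.2 h.1) ?_
      have : Fact (Nat.Prime 11) := ⟨by norm_num⟩
      rw [cT, Nat.card_zpowers, orderOf_eq_prime (p11 e h.1) ne]
    have c0 : zpowers e ≤ centralizer ({t} : Set G) :=
      zpowers_le.2 (mem_centralizer_singleton_iff.2 (mul_inv_eq_iff_eq_mul.1 h.2))
    exact h1 (i1 t (hc t ht (mem_centralizer_singleton_iff.1 (c0 (z ▸ mem_zpowers a0))).symm) h2)
  have o2 := orb_card (fun g y : G => g * y * g⁻¹) a1' am A (A ⊓ centralizer ({t} : Set G)) t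
    fun e => by rw [mem_inf, mem_centralizer_singleton_iff, mul_inv_eq_iff_eq_mul]
  have cjI : ∀ g ∈ A, ∀ s ∈ A, s * s = 1 → s ≠ 1 →
      g * s * g⁻¹ ∈ A ∧ g * s * g⁻¹ * (g * s * g⁻¹) = 1 ∧ g * s * g⁻¹ ≠ 1 := fun g hg s hs s2 s1 =>
    ⟨mul_mem (mul_mem hg hs) (inv_mem hg), by rw [conj_mul, s2, mul_one, mul_inv_cancel],
      fun h => s1 (by rw [show s = g⁻¹ * (g * s * g⁻¹) * g by group, h]; group)⟩
  have s1 : {y | ∃ e ∈ zpowers a0, e * t * e⁻¹ = y} = {y | y ∈ A ∧ y * y = 1 ∧ y ≠ 1} := by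
    ext y
    constructor
    · rintro ⟨e, he, rfl⟩; exact cjI e (le he) t ht h2 h1
    · rintro ⟨y1, y2, y3⟩; exact htr y y1 y2 y3
  have s2 : {y | ∃ e ∈ A, e * t * e⁻¹ = y} = {y | y ∈ A ∧ y * y = 1 ∧ y ≠ 1} := by
    ext y
    constructor
    · rintro ⟨e, he, rfl⟩; exact cjI e he t ht h2 h1
    · rintro ⟨y1, y2, y3⟩
      obtain ⟨e, he, h⟩ := htr y y1 y2 y3
      exact ⟨e, le he, h⟩
  rw [s1, cT, card_bot, mul_one] at o1
  rw [s2, ← o1, cA] at o2
  have cF : Nat.card A0 = Nat.card (A ⊓ centralizer ({t} : Set G) : Subgroup G) := by omega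
  have eF : A ⊓ centralizer ({t} : Set G) = A0 := by
    refine eq_of_le_of_card_ge (fun g hg => ?_) cF.le
    obtain ⟨m, hm⟩ := exists_pow_eq_self_of_coprime (x := g) (n := 11)
      ((Nat.Prime.coprime_iff_not_dvd (by norm_num)).2 fun h =>
        n11 (cF ▸ h.trans (orderOf_dvd_natCard _ hg)))
    exact hm ▸ pow_mem (pw g hg.1) m
  have cm : ∀ s ∈ A, s * s = 1 → s * t = t * s := fun s hs h => by
    have := pw s hs
    rw [e11 s h, ← eF] at this
    exact mem_centralizer_singleton_iff.1 this.2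
  have cm2 : ∀ s ∈ A, s * s = 1 → ∀ s' ∈ A, s' * s' = 1 → s * s' = s' * s := fun s hs h s' hs' h' => by
    by_cases e : s = 1
    · rw [e, one_mul, mul_one]
    obtain ⟨c, hc', rfl⟩ := htr s hs h e
    have := cm (c⁻¹ * s' * c) (mul_mem (mul_mem (inv_mem (le hc')) hs') (le hc')) (by
      rw [show c⁻¹ * s' * c * (c⁻¹ * s' * c) = c⁻¹ * (s' * s') * c by group, h']; group)
    calc c * t * c⁻¹ * s' = c * (t * (c⁻¹ * s' * c)) * c⁻¹ := by group
      _ = s' * (c * t * c⁻¹) := by rw [← this]; group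
  let V : Subgroup G :=
    { carrier := {y | y ∈ A ∧ y * y = 1}
      mul_mem' := fun {x y} hx hy => ⟨mul_mem hx.1 hy.1, by
        calc x * y * (x * y) = x * (y * x) * y := by group
          _ = x * x * (y * y) := by rw [← cm2 x hx.1 hx.2 y hy.1 hy.2]; group
          _ = 1 := by rw [hx.2, hy.2, mul_one]⟩
      one_mem' := ⟨one_mem _, mul_one 1⟩
      inv_mem' := fun {x} hx => ⟨inv_mem hx.1, by rw [← mul_inv_rev, hx.2, inv_one]⟩ }
  have cV : Nat.card V = 12 := by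
    have : (V : Set G) = insert 1 {y | y ∈ A ∧ y * y = 1 ∧ y ≠ 1} := by
      ext y
      constructor
      · exact fun hy => or_iff_not_imp_left.2 fun ne => ⟨hy.1, hy.2, ne⟩
      · rintro (rfl | hy)
        · exact V.one_mem
        · exact ⟨hy.1, hy.2.1⟩
    rw [← SetLike.coe_sort_coe, Nat.card_coe_set_eq, this,
      Set.ncard_insert_of_notMem (fun h => h.2.2 rfl), ← o1]
  have : Fact (Nat.Prime 3) := ⟨by norm_num⟩
  obtain ⟨x, hx⟩ := exists_prime_orderOf_dvd_card' (G := V) 3 (by rw [cV]; norm_num)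
  have := orderOf_dvd_of_pow_eq_one (x := x) (n := 2) (Subtype.ext (by rw [sq]; exact x.2.2))
  rw [hx] at this
  omega

end H30.E11
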