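import Cfsg.Agent.Lib.E11.Defs
import Cfsg.Agent.Lib.J1.Basic

set_option autoImplicit false
set_option linter.unusedSectionVars false

namespace H30.E11

open Subgroup H69

variable {G Ω : Type} [Group G] [Finite G] [MulAction G Ω] [Finite Ω] {ρ : Ω → Subgroup G}

theorem JTy.card {X : Type*} [Group X] (h : JTy X) : Nat.card X = 175560 := by
  obtain ⟨e⟩ := h
  rw [Nat.card_congr e.toEquiv]; exact H15.J1M.card_J1
theorem JTy.simple {X : Type*} [Group X] (h : JTy X) : IsSimpleGroup X := by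
  obtain ⟨e⟩ := h
  haveI := H15.J1M.isSimple_J1
  exact e.isSimpleGroup
theorem LTy.of_equiv {X Y : Type*} [Group X] [Group Y] (h : LTy X) (e : X ≃* Y) : LTy Y := by
  haveI := h.1
  exact ⟨e.symm.isSimpleGroup, by rw [← h.2]; exact Nat.card_congr e.symm.toEquiv⟩
theorem JTy.of_equiv {X Y : Type*} [Group X] [Group Y] (h : JTy X) (e : X ≃* Y) : JTy Y := by
  obtain ⟨f⟩ := h
  exact ⟨e.symm.trans f⟩
theorem LTy.cj {K : Subgroup G} (h : LTy K) (g : G) : LTy ↥(K ^ᶜ g) :=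
  h.of_equiv ((MulAut.conj g).subgroupMap K)
theorem JTy.cj {K : Subgroup G} (h : JTy K) (g : G) : JTy ↥(K ^ᶜ g) :=
  h.of_equiv ((MulAut.conj g).subgroupMap K)

theorem bas_simple {K : Subgroup G} (h : LTy K ∨ JTy K) : IsSimpleGroup K := h.elim (·.1) (·.simple)

theorem bas_card {K : Subgroup G} (h : LTy K ∨ JTy K) : Nat.card K = 660 ∨ Nat.card K = 175560 :=
  h.imp (·.2) (·.card)

/-- a subgroup of a line that is normalised by the line -/
theorem bas_norm {K N : Subgroup G} (h : LTy K ∨ JTy K) (hN : N ≤ K) (hn : K ≤ 𝐍(N)) :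
    N = ⊥ ∨ N = K := by
  haveI := bas_simple h
  haveI : (N.subgroupOf K).Normal := (normal_subgroupOf_iff_le_normalizer hN).2 hn
  rcases this.eq_bot_or_eq_top with e | e
  · left
    rw [subgroupOf_eq_bot] at e
    exact e.eq_bot_of_le hN
  · right
    rw [subgroupOf_eq_top] at e
    exact le_antisymm hN e

/-- a line has trivial centre -/
theorem line_center {K : Subgroup G} (h : LTy K ∨ JTy K) {x : G} (h1 : x ∈ K) (h2 : x ∈ 𝐂(K)) :
    x = 1 := by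
  rcases bas_norm h (N := K ⊓ 𝐂(K)) inf_le_left
    (le_normalizer_inf le_normalizer (le_normalizer_centralizer le_normalizer)) with e | e
  · have : x ∈ K ⊓ 𝐂(K) := ⟨h1, h2⟩
    rwa [e] at this
  · exfalso
    haveI := bas_simple h
    have hc : ∀ a b : K, a * b = b * a := fun a b => by
      have ha : (a : G) ∈ K ⊓ 𝐂(K) := by rw [e]; exact a.2
      exact Subtype.ext (ha.2 b b.2).symm
    letI : CommGroup K := { (inferInstance : Group K) with mul_comm := hc }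
    have hp : (Nat.card K).Prime := IsSimpleGroup.prime_card
    rcases bas_card h with e | e <;> rw [e] at hp <;> norm_num at hp

/-- a line contained in a line of the same or smaller order is equal to it -/
theorem line_eq_L {K K' : Subgroup G} (h : LTy K ∨ JTy K) (h' : LTy K') (hle : K ≤ K') : K = K' :=
  eq_of_le_of_card_ge hle (by rcases bas_card h with e | e <;> rw [e, h'.2] <;> norm_num)
theorem line_eq_J {K K' : Subgroup G} (h : JTy K) (h' : LTy K' ∨ JTy K') (hle : K ≤ K') :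
    K = K' :=
  eq_of_le_of_card_ge hle (by rcases bas_card h' with e | e <;> rw [e, h.card] <;> norm_num)

theorem Mu.mul {g g' : G} {a : Ω} {k k' : ℕ} (h : Mu ρ g a k) (h' : Mu ρ g' a k') :
    Mu ρ (g * g') a (k * k') := fun x hx => by
  have e : g * g' * x * (g * g')⁻¹ = g * (g' * x * g'⁻¹) * g⁻¹ := by group
  rw [e, h' x hx, ← conj_pow, h x hx, pow_mul]
theorem mu_one (a : Ω) : Mu ρ (1 : G) a 1 := fun x _ => by simp
theorem Mu.pow {g : G} {a : Ω} {k : ℕ} (h : Mu ρ g a k) (n : ℕ) : Mu ρ (g ^ n) a (k ^ n) := by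
  induction n with
  | zero => simpa using mu_one a
  | succ n ih => rw [pow_succ, pow_succ]; exact ih.mul h
theorem Mu.comm {g : G} {a : Ω} (h : Mu ρ g a 1) {x : G} (hx : x ∈ ρ a) : g * x = x * g := by
  have := h x hx
  rw [pow_one] at this
  exact mul_inv_eq_iff_eq_mul.1 this
theorem mu_one_iff {g : G} {a : Ω} : Mu ρ g a 1 ↔ g ∈ 𝐂(ρ a) :=
  ⟨fun h x hx => (h.comm hx).symm, fun h x hx => by
    rw [pow_one, ← h x hx, mul_inv_cancel_right]⟩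
theorem mu_of_cent {c : G} {a : Ω} {K : Subgroup G} (hc : c ∈ 𝐂(K)) (ha : ρ a ≤ K) :
    Mu ρ c a 1 := mu_one_iff.2 (centralizer_anti ha hc)
theorem cent_sup {c : G} {a b : Ω} (ha : Mu ρ c a 1) (hb : Mu ρ c b 1) : c ∈ 𝐂(ρ a ⊔ ρ b) := by
  rw [centralizer_sup]; exact ⟨mu_one_iff.1 ha, mu_one_iff.1 hb⟩

namespace Geo

theorem pow11 (hG : Geo ρ) {a : Ω} {x : G} (hx : x ∈ ρ a) : x ^ 11 = 1 := by
  have := pow_card_eq_one' (x := (⟨x, hx⟩ : ρ a))
  rw [hG.card] at this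
  exact congrArg Subtype.val this
theorem ord (hG : Geo ρ) {a : Ω} {x : G} (hx : x ∈ ρ a) (h1 : x ≠ 1) : orderOf x = 11 := by
  haveI : Fact (Nat.Prime 11) := ⟨by norm_num⟩
  exact orderOf_eq_prime (hG.pow11 hx) h1
theorem exne (hG : Geo ρ) (a : Ω) : ∃ x ∈ ρ a, x ≠ 1 := by
  by_contra h
  push Not at h
  have : ρ a = ⊥ := (eq_bot_iff_forall _).2 h
  have e := hG.card a
  rw [this, card_bot] at e
  norm_num at e
theorem zp (hG : Geo ρ) {a : Ω} {x : G} (hx : x ∈ ρ a) (h1 : x ≠ 1) : zpowers x = ρ a :=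
  eq_of_le_of_card_ge ((zpowers_le).2 hx) (by rw [Nat.card_zpowers, hG.ord hx h1, hG.card])
theorem gen1 (hG : Geo ρ) {a : Ω} {x y : G} (hx : x ∈ ρ a) (h1 : x ≠ 1) (hy : y ∈ ρ a) :
    ∃ i : ℕ, y = x ^ i := by
  rw [← hG.zp hx h1, ← mem_powers_iff_mem_zpowers] at hy
  obtain ⟨i, rfl⟩ := hy
  exact ⟨i, rfl⟩
theorem eq_of_mem (hG : Geo ρ) {a b : Ω} {x : G} (ha : x ∈ ρ a) (hb : x ∈ ρ b) (h1 : x ≠ 1) :
    a = b := hG.inj (by rw [← hG.zp ha h1, hG.zp hb h1])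
theorem cj_mem (hG : Geo ρ) {a : Ω} {x : G} (g : G) (hx : x ∈ ρ a) : g * x * g⁻¹ ∈ ρ (g • a) := by
  rw [← hG.cj]; exact H69.cj_mem g hx
theorem fix_iff (hG : Geo ρ) {g : G} {a : Ω} : g • a = a ↔ g ∈ 𝐍(ρ a) := by
  rw [← cj_eq_self_iff, hG.cj]; exact hG.inj.eq_iff.symm
theorem mu_mem (hG : Geo ρ) {a : Ω} {x : G} (hx : x ∈ ρ a) : Mu ρ x a 1 := by
  obtain ⟨z, hz, z1⟩ := hG.exne a
  intro y hy
  obtain ⟨i, rfl⟩ := hG.gen1 hz z1 hx
  obtain ⟨j, rfl⟩ := hG.gen1 hz z1 hy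
  group
theorem mu_fix (hG : Geo ρ) {g : G} {a : Ω} {k : ℕ} (h : Mu ρ g a k) : g • a = a := by
  obtain ⟨z, hz, z1⟩ := hG.exne a
  refine hG.eq_of_mem (hG.cj_mem g hz) (by rw [h z hz]; exact pow_mem hz k) fun e => z1 ?_
  simpa using e
theorem pow_mod (hG : Geo ρ) {a : Ω} {x : G} (hx : x ∈ ρ a) {k k' : ℕ} (hk : k % 11 = k' % 11) :
    x ^ k = x ^ k' := by
  rw [← Nat.div_add_mod k 11, ← Nat.div_add_mod k' 11, pow_add, pow_add, pow_mul, pow_mul,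
    hG.pow11 hx, hk, one_pow, one_pow]
theorem mu_mod (hG : Geo ρ) {g : G} {a : Ω} {k : ℕ} (h : Mu ρ g a k) (k' : ℕ)
    (hk : k % 11 = k' % 11) : Mu ρ g a k' := fun x hx => by rw [h x hx, hG.pow_mod hx hk]
theorem mu_uniq (hG : Geo ρ) {g : G} {a : Ω} {k k' : ℕ} (h : Mu ρ g a k) (h' : Mu ρ g a k') :
    k % 11 = k' % 11 := by
  obtain ⟨z, hz, z1⟩ := hG.exne a
  have e : z ^ k = z ^ k' := by rw [← h z hz, h' z hz]
  rw [pow_eq_pow_iff_modEq, hG.ord hz z1] at e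
  exact e
theorem mu_ne (hG : Geo ρ) {g : G} {a : Ω} {k : ℕ} (h : Mu ρ g a k) : k % 11 ≠ 0 := by
  obtain ⟨z, hz, z1⟩ := hG.exne a
  intro e
  have := h z hz
  rw [hG.pow_mod hz (k' := 0) e, pow_zero] at this
  exact z1 (by simpa using this)
theorem exMu (hG : Geo ρ) {g : G} {a : Ω} (h : g • a = a) :
    ∃ k, 0 < k ∧ k < 11 ∧ Mu ρ g a k := by
  obtain ⟨z, hz, z1⟩ := hG.exne a
  have h1 := hG.cj_mem g hz
  rw [h] at h1
  obtain ⟨k, hk⟩ := hG.gen1 hz z1 h1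
  have hm : Mu ρ g a k := fun y hy => by
    obtain ⟨j, rfl⟩ := hG.gen1 hz z1 hy
    rw [← conj_pow, hk, ← pow_mul, ← pow_mul, mul_comm]
  exact ⟨k % 11, Nat.pos_of_ne_zero (hG.mu_ne hm), Nat.mod_lt _ (by norm_num),
    hG.mu_mod hm _ (by simp)⟩
theorem mu_inv (hG : Geo ρ) {g : G} {a : Ω} {k : ℕ} (h : Mu ρ g a k) (k' : ℕ)
    (hk : k * k' % 11 = 1) : Mu ρ g⁻¹ a k' := fun x hx => by
  have e : g * x ^ k' * g⁻¹ = x := by
    rw [← conj_pow, h x hx, ← pow_mul, hG.pow_mod hx (k' := 1) hk, pow_one]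
  calc g⁻¹ * x * g⁻¹⁻¹ = g⁻¹ * (g * x ^ k' * g⁻¹) * g⁻¹⁻¹ := by rw [e]
    _ = x ^ k' := by group
theorem mu_cj (hG : Geo ρ) {g : G} {a : Ω} {k : ℕ} (h : Mu ρ g a k) (y : G) :
    Mu ρ (y * g * y⁻¹) (y • a) k := fun x hx => by
  rw [← hG.cj, mem_cj'] at hx
  obtain ⟨z, hz, rfl⟩ := hx
  rw [conj_pow, ← h z hz]; group
/-- an involution has the multiplier `1` or `10` -/
theorem mu_two (hG : Geo ρ) {g : G} {a : Ω} (h2 : g * g = 1) (h : g • a = a) :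
    Mu ρ g a 1 ∨ Mu ρ g a 10 := by
  obtain ⟨k, k0, k1, hk⟩ := hG.exMu h
  have e := hG.mu_uniq (hk.mul hk) (h2 ▸ mu_one a)
  interval_cases k <;> first | exact Or.inl hk | exact Or.inr hk | (norm_num at e)
/-- an element of a point that commutes with `g` of multiplier `≠ 1` is trivial -/
theorem eq_one (hG : Geo ρ) {g x : G} {a : Ω} {k : ℕ} (h : Mu ρ g a k) (hk : k % 11 ≠ 1)
    (hx : x ∈ ρ a) (hc : g * x = x * g) : x = 1 := by
  by_contra h1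
  have e := h x hx
  rw [hc, mul_inv_cancel_right] at e
  have : x ^ 1 = x ^ k := by rw [pow_one]; exact e
  rw [pow_eq_pow_iff_modEq, hG.ord hx h1] at this
  exact hk this.symm
/-- the coset `P g` is one `P`-class -/
theorem affine (hG : Geo ρ) {g p : G} {a : Ω} {k : ℕ} (h : Mu ρ g a k) (hk : k % 11 ≠ 1)
    (hp : p ∈ ρ a) : ∃ q ∈ ρ a, p * g = q * g * q⁻¹ := by
  obtain ⟨j, hj⟩ : ∃ j : ℕ, (j + j * 10 * k) % 11 = 1 % 11 := by
    have h0 := hG.mu_ne h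
    have key : ∀ r < 11, r ≠ 0 → r ≠ 1 → ∃ j < 11, (j + j * 10 * r) % 11 = 1 % 11 := by decide
    have := key _ (Nat.mod_lt k (show 0 < 11 by norm_num)) h0 hk
    obtain ⟨j, -, hj⟩ := this
    refine ⟨j, ?_⟩
    rw [← hj, Nat.add_mod, Nat.mul_mod, Nat.add_mod j (j * 10 * (k % 11)),
      Nat.mul_mod (j * 10) (k % 11), Nat.mod_mod]
  refine ⟨p ^ j, pow_mem hp j, ?_⟩
  have e1 : (p ^ j)⁻¹ = (p ^ j) ^ 10 := by
    rw [inv_eq_iff_mul_eq_one, ← pow_succ', hG.pow11 (pow_mem hp j)]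
  have e2 := h _ (pow_mem (pow_mem hp j) 10)
  have e3 : p ^ j * g * (p ^ j) ^ 10 = p ^ j * (g * (p ^ j) ^ 10 * g⁻¹) * g := by group
  rw [e1, e3, e2, ← pow_mul, ← pow_mul, ← pow_add, ← mul_assoc j, hG.pow_mod hp hj, pow_one]
theorem semi (hG : Geo ρ) {a b : Ω} {x : G} (hx : x ∈ ρ a) (hb : b ≠ a) (h : x • b = b) :
    x = 1 := by
  by_contra h1
  have hn : ρ a ≤ 𝐍(ρ b) := by rw [← hG.zp hx h1, zpowers_le]; exact hG.fix_iff.1 h
  have hK := hG.pair a b hb.symm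
  have hc := hG.card b
  rcases bas_norm hK (N := ρ b) le_sup_right (sup_le hn le_normalizer) with e | e
  · rw [e, card_bot] at hc; norm_num at hc
  · rcases bas_card hK with e' | e' <;> rw [← e, hc] at e' <;> norm_num at e'
theorem le_cj (hG : Geo ρ) {a : Ω} {K : Subgroup G} (g : G) : ρ (g • a) ≤ K ^ᶜ g ↔ ρ a ≤ K := by
  rw [← hG.cj, cj_le_cj_iff]
theorem le_norm (hG : Geo ρ) {a : Ω} {K : Subgroup G} {g : G} (hg : g ∈ 𝐍(K)) (ha : ρ a ≤ K) :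
    ρ (g • a) ≤ K := by
  rw [← hG.cj]; exact cj_le_of_mem_normalizer ha hg
theorem le_mem (hG : Geo ρ) {a : Ω} {K : Subgroup G} {g : G} (hg : g ∈ K) (ha : ρ a ≤ K) :
    ρ (g • a) ≤ K := hG.le_norm (le_normalizer hg) ha
theorem sup_cj (hG : Geo ρ) (a b : Ω) (g : G) : (ρ a ⊔ ρ b) ^ᶜ g = ρ (g • a) ⊔ ρ (g • b) := by
  rw [cj_sup, hG.cj, hG.cj]
theorem norm_fix (hG : Geo ρ) {a b : Ω} {g : G} (ha : g • a = a) (hb : g • b = b) :
    g ∈ 𝐍(ρ a ⊔ ρ b) := by rw [← cj_eq_self_iff, hG.sup_cj, ha, hb]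
theorem norm_swap (hG : Geo ρ) {a b : Ω} {g : G} (ha : g • a = b) (hb : g • b = a) :
    g ∈ 𝐍(ρ a ⊔ ρ b) := by rw [← cj_eq_self_iff, hG.sup_cj, ha, hb, sup_comm]
theorem isL_cj (hG : Geo ρ) {K : Subgroup G} (h : IsL ρ K) (g : G) : IsL ρ (K ^ᶜ g) := by
  obtain ⟨h1, a, ha⟩ := h
  exact ⟨h1.cj g, g • a, (hG.le_cj g).2 ha⟩
theorem isJ_cj (hG : Geo ρ) {K : Subgroup G} (h : IsJ ρ K) (g : G) : IsJ ρ (K ^ᶜ g) := by
  obtain ⟨h1, a, ha⟩ := h
  exact ⟨h1.cj g, g • a, (hG.le_cj g).2 ha⟩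

theorem bas_syl {K Q : Subgroup G} (hK : LTy K ∨ JTy K) (hQ : Q ≤ K) (h11 : Nat.card Q = 11) :
    IsSylowIn 11 Q K := by
  haveI : Fact (Nat.Prime 11) := ⟨by norm_num⟩
  refine isSylowIn_of_not_dvd_relIndex (IsPGroup.of_card (n := 1) (by rw [h11]; norm_num)) hQ ?_
  have e := (Q.subgroupOf K).card_mul_index
  rw [Nat.card_congr (subgroupOfEquivOfLe hQ).toEquiv, h11] at e
  change ¬ 11 ∣ (Q.subgroupOf K).index
  rcases bas_card hK with e' | e' <;> rw [e'] at e <;> omega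

/-- every subgroup of order 11 of a line is a point -/
theorem bas_pt (hG : Geo ρ) {K Q : Subgroup G} (hK : LTy K ∨ JTy K) {a : Ω} (ha : ρ a ≤ K)
    (hQ : Q ≤ K) (h11 : Nat.card Q = 11) : ∃ k ∈ K, ρ (k • a) = Q := by
  haveI : Fact (Nat.Prime 11) := ⟨by norm_num⟩
  obtain ⟨k, hk, e⟩ := (bas_syl hK ha (hG.card a)).conj (bas_syl hK hQ h11)
  exact ⟨k, hk, by rw [← hG.cj]; first | exact e | exact e.symm⟩
/-- the points of a line are conjugate in the line -/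
theorem line_tr (hG : Geo ρ) {K : Subgroup G} (hK : LTy K ∨ JTy K) {a b : Ω} (ha : ρ a ≤ K)
    (hb : ρ b ≤ K) : ∃ k ∈ K, k • a = b := by
  obtain ⟨k, hk, e⟩ := hG.bas_pt hK ha hb (hG.card b)
  exact ⟨k, hk, hG.inj e⟩
/-- every subgroup of order 11 of a line is a point -/
theorem line_pt (hG : Geo ρ) {K Q : Subgroup G} (hK : LTy K ∨ JTy K) {a : Ω} (ha : ρ a ≤ K)
    (hQ : Q ≤ K) (h11 : Nat.card Q = 11) : ∃ b, ρ b = Q := by
  obtain ⟨k, -, e⟩ := hG.bas_pt hK ha hQ h11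
  exact ⟨_, e⟩
theorem line_two (hG : Geo ρ) {K : Subgroup G} (hK : LTy K ∨ JTy K) {a : Ω} (ha : ρ a ≤ K) :
    ∃ b, b ≠ a ∧ ρ b ≤ K := by
  by_contra h
  push Not at h
  have hn : K ≤ 𝐍(ρ a) := fun k hk => hG.fix_iff.1 (by
    by_contra e
    exact h _ e (hG.le_mem hk ha))
  have hc := hG.card a
  rcases bas_norm hK ha hn with e | e
  · rw [e, card_bot] at hc; norm_num at hc
  · rcases bas_card hK with e' | e' <;> rw [← e, hc] at e' <;> norm_num at e'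
/-- a line is generated by its points -/
theorem line_gen (hG : Geo ρ) {K H : Subgroup G} (hK : LTy K ∨ JTy K) {a : Ω} (ha : ρ a ≤ K)
    (hH : ∀ c, ρ c ≤ K → ρ c ≤ H) : K ≤ H := by
  have hn : K ≤ 𝐍(⨆ c : {c // ρ c ≤ K}, ρ c) := le_normalizer_of_cj_le fun g hg => by
    rw [cj_iSup]
    refine iSup_le fun c => ?_
    rw [hG.cj]
    exact le_iSup (fun c : {c // ρ c ≤ K} => ρ c) ⟨g • c.1, hG.le_mem hg c.2⟩
  rcases bas_norm hK (iSup_le fun c => c.2) hn with e | e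
  · obtain ⟨z, hz, z1⟩ := hG.exne a
    have : z ∈ ⨆ c : {c // ρ c ≤ K}, ρ c := le_iSup (fun c : {c // ρ c ≤ K} => ρ c) ⟨a, ha⟩ hz
    rw [e] at this
    exact absurd this z1
  · rw [← e]; exact iSup_le fun c => hH c.1 c.2
theorem bas_faith (hG : Geo ρ) {K : Subgroup G} (hK : LTy K ∨ JTy K) {a : Ω} (ha : ρ a ≤ K)
    {g : G} (hg : g ∈ K) (h : ∀ c, ρ c ≤ K → g • c = c) : g = 1 := by
  let N : Subgroup G := K ⊓ ⨅ c : {c // ρ c ≤ K}, MulAction.stabilizer G c.1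
  have hN : ∀ x, x ∈ N ↔ x ∈ K ∧ ∀ c, ρ c ≤ K → x • c = c := fun x => by
    simp only [N, mem_inf, mem_iInf, MulAction.mem_stabilizer_iff, Subtype.forall]
  have hn : K ≤ 𝐍(N) := le_normalizer_of_cj_le fun k hk x hx => by
    obtain ⟨y, hy, rfl⟩ := mem_cj'.1 hx
    rw [hN] at hy ⊢
    refine ⟨mul_mem (mul_mem hk hy.1) (inv_mem hk), fun c hc => ?_⟩
    rw [mul_smul, mul_smul, hy.2 _ (hG.le_mem (inv_mem hk) hc), smul_inv_smul]
  rcases bas_norm hK inf_le_left hn with e | e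
  · have := (hN g).2 ⟨hg, h⟩
    change g ∈ N at this
    rw [show N = ⊥ from e] at this
    exact this
  · obtain ⟨z, hz, z1⟩ := hG.exne a
    obtain ⟨b, hb, hbK⟩ := hG.line_two hK ha
    have : z ∈ N := by rw [show N = K from e]; exact ha hz
    exact absurd (hG.semi hz hb (((hN z).1 this).2 b hbK)) z1
/-- a line acts faithfully on its points -/
theorem line_faith (hG : Geo ρ) {K : Subgroup G} (hK : LTy K ∨ JTy K) {a : Ω} (ha : ρ a ≤ K)
    {g : G} (hg : g ∈ 𝐍(K)) (h : ∀ c, ρ c ≤ K → g • c = c) : g ∈ 𝐂(K) := fun y hy => by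
  have e : y⁻¹ * (g * y * g⁻¹) = 1 := hG.bas_faith hK ha
    (mul_mem (inv_mem hy) (conj_mem_of_mem_normalizer hg hy)) fun c hc => by
      have e1 : g⁻¹ • c = c := by rw [inv_smul_eq_iff, h c hc]
      rw [mul_smul, mul_smul, mul_smul, e1, h _ (hG.le_mem hy hc), inv_smul_smul]
  rw [inv_mul_eq_one] at e
  exact (mul_inv_eq_iff_eq_mul.1 e.symm).symm

end Geo

namespace St

theorem faith (hS : St ρ) {g : G} (h : ∀ a : Ω, g • a = a) : g = 1 := by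
  haveI := hS.simple
  rcases (MulAction.toPermHom G Ω).normal_ker.eq_bot_or_eq_top with e | e
  · have : g ∈ (MulAction.toPermHom G Ω).ker := by
      rw [MonoidHom.mem_ker]; ext a; exact h a
    rwa [e] at this
  · obtain ⟨a, b, hab⟩ := hS.two
    obtain ⟨z, hz, z1⟩ := hS.toGeo.exne a
    have : z ∈ (MulAction.toPermHom G Ω).ker := by rw [e]; trivial
    rw [MonoidHom.mem_ker] at this
    exact absurd (hS.toGeo.semi hz hab.symm (DFunLike.congr_fun this b)) z1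
theorem cent_ne (hS : St ρ) {c : G} (hc : c ≠ 1) : centralizer ({c} : Set G) ≠ ⊤ := by
  intro e
  haveI := hS.simple
  have hz : c ∈ center G := mem_center_iff.2 fun g => by
    have : g ∈ centralizer ({c} : Set G) := by rw [e]; trivial
    exact (this c rfl).symm
  rcases (inferInstance : (center G).Normal).eq_bot_or_eq_top with e | e
  · rw [e] at hz; exact hc hz
  · obtain ⟨a, b, hab⟩ := hS.two
    obtain ⟨z, hz, z1⟩ := hS.toGeo.exne a
    have : z ∈ center G := by rw [e]; trivial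
    exact z1 (hS.toGeo.semi hz hab.symm (hS.toGeo.mu_fix (k := 1)
      (mu_one_iff.2 fun y _ => mem_center_iff.1 this y)))
theorem off (hS : St ρ) {K : Subgroup G} (hK : LTy K ∨ JTy K) : ∃ b, ¬ ρ b ≤ K := by
  by_contra h
  push Not at h
  have e : K = ⊤ := by rw [eq_top_iff, ← hS.gen]; exact iSup_le h
  subst e
  exact hK.elim (fun h => hS.nl (h.of_equiv topEquiv)) (fun h => hS.nj (h.of_equiv topEquiv))
/-- a line and a point that are centralised by `c ≠ 1` lie in a line -/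
theorem join (hS : St ρ) {K : Subgroup G} (hK : LTy K ∨ JTy K) {a b : Ω} (ha : ρ a ≤ K) {c : G}
    (hc : c ∈ 𝐂(K)) (h1 : c ≠ 1) (hb : Mu ρ c b 1) :
    ∃ K' : Subgroup G, (LTy K' ∨ JTy K') ∧ K ≤ K' ∧ ρ b ≤ K' := by
  obtain ⟨a', ha', hK'⟩ := hS.toGeo.line_two hK ha
  have hKc : K ≤ centralizer ({c} : Set G) := fun y hy z hz => by
    rw [Set.mem_singleton_iff.1 hz]; exact (hc y hy).symm
  obtain ⟨K', h', hp⟩ := hS.ih _ a a' (hS.cent_ne h1) ha'.symm (ha.trans hKc) (hK'.trans hKc)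
  refine ⟨K', h', hS.toGeo.line_gen hK ha fun d hd => hp d (hd.trans hKc), hp b fun y hy z hz => ?_⟩
  rw [Set.mem_singleton_iff.1 hz]; exact hb.comm hy

end St

namespace Sys

variable {M : Subgroup G → Prop}

theorem other (hS : Sys ρ M) {K : Subgroup G} (hK : M K) (a : Ω) : ∃ b, b ≠ a ∧ ρ b ≤ K := by
  obtain ⟨b, hb, hne⟩ := Set.exists_ne_of_one_lt_ncard
    (lt_of_lt_of_le (by norm_num) (hS.big K hK)) a
  exact ⟨b, hne, hb⟩
theorem disj (hS : Sys ρ M) (hG : Geo ρ) {K : Subgroup G} (hK : M K) {a : Ω} {x : G}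
    (hx : x ∈ ρ a) (hc : x ∈ 𝐂(K)) : x = 1 := by
  obtain ⟨b, hb, hbK⟩ := hS.other hK a
  exact hG.semi hx hb (hG.mu_fix (mu_of_cent hc hbK))
theorem eq_of_cent (hS : Sys ρ M) (hG : Geo ρ) {K K' : Subgroup G} (hK : M K) (hK' : M K') {c : G}
    (hc : c ∈ 𝐂(K)) (hc' : c ∈ 𝐂(K')) (h1 : c ≠ 1) : K = K' := by
  obtain ⟨a0, -⟩ := hS.off K hK
  obtain ⟨a, -, ha⟩ := hS.other hK' a0
  obtain ⟨b, hb, hbK⟩ := hS.other hK' a
  exact hS.uq a b K K' hb.symm hK hK' (hS.fix K c a hK hc h1 (hG.mu_fix (mu_of_cent hc' ha)))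
    (hS.fix K c b hK hc h1 (hG.mu_fix (mu_of_cent hc' hbK))) ha hbK
theorem cj_eq (hS : Sys ρ M) (hG : Geo ρ) {K K' : Subgroup G} (hK : M K) (hK' : M K') {c g : G}
    (hc : c ∈ 𝐂(K)) (h1 : c ≠ 1) (hc' : g * c * g⁻¹ ∈ 𝐂(K')) : K ^ᶜ g = K' :=
  hS.eq_of_cent hG (hS.cjM g K hK) hK' (by rw [← cj_centralizer]; exact H69.cj_mem g hc) hc'
    fun e => h1 (by simpa using e)
theorem norm (hS : Sys ρ M) (hG : Geo ρ) {K : Subgroup G} (hK : M K) {c g : G}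
    (hc : c ∈ 𝐂(K)) (h1 : c ≠ 1) (hg : g * c = c * g) : g ∈ 𝐍(K) :=
  cj_eq_self_iff.1 (hS.cj_eq hG hK hK hc h1 (by rw [hg, mul_inv_cancel_right]; exact hc))
/-- `C(a) ∩ N(K) = P × C(K)` -/
theorem dec (hS : Sys ρ M) {K : Subgroup G} (hK : M K) {a : Ω} (ha : ρ a ≤ K) {g : G}
    (hg : g ∈ 𝐍(K)) (h1 : Mu ρ g a 1) :
    ∃ x ∈ ρ a, ∃ c ∈ 𝐂(K), g = x * c ∧ x * c = c * x := by
  obtain ⟨x, hx, hc⟩ := hS.cen a K g hK ha hg h1
  exact ⟨x, hx, _, hc, by group, hc x (ha hx)⟩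

end Sys

end H30.E11
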