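import Cfsg.Agent.Lib.LocStruct.SylowIn
import Cfsg.Prelude.Def_Spor_J1

/-! Groups generated by a class of subgroups of order 11: definitions (blueprint/J11/README.md). -/

set_option autoImplicit false

namespace H30.E11

open Subgroup H69

/-- a simple group of order 660 -/
def LTy (X : Type*) [Group X] : Prop := IsSimpleGroup X ∧ Nat.card X = 660

/-- the first Janko group -/
def JTy (X : Type*) [Group X] : Prop := Cfsg.Spor.IsoJ1 X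

variable {G Ω : Type} [Group G] [MulAction G Ω]

/-- the points `ρ a` are a class of subgroups of order 11, two of them generate a line -/
structure Geo (ρ : Ω → Subgroup G) : Prop where
  card : ∀ a, Nat.card (ρ a) = 11
  inj : Function.Injective ρ
  cj : ∀ (g : G) (a : Ω), ρ a ^ᶜ g = ρ (g • a)
  tr : ∀ a b : Ω, ∃ g : G, g • a = b
  pair : ∀ a b : Ω, a ≠ b → LTy ↥(ρ a ⊔ ρ b) ∨ JTy ↥(ρ a ⊔ ρ b)

/-- `g` acts on the point `a` with the multiplier `k` -/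
def Mu (ρ : Ω → Subgroup G) (g : G) (a : Ω) (k : ℕ) : Prop := ∀ x ∈ ρ a, g * x * g⁻¹ = x ^ k

/-- a line of the small type -/
def IsL (ρ : Ω → Subgroup G) (K : Subgroup G) : Prop := LTy K ∧ ∃ a, ρ a ≤ K

/-- a line of the large type -/
def IsJ (ρ : Ω → Subgroup G) (K : Subgroup G) : Prop := JTy K ∧ ∃ a, ρ a ≤ K

/-- a minimal counterexample -/
structure St (ρ : Ω → Subgroup G) : Prop extends Geo ρ where
  gen : ⨆ a, ρ a = ⊤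
  simple : IsSimpleGroup G
  two : ∃ a b : Ω, a ≠ b
  ih : ∀ (H : Subgroup G) (a b : Ω), H ≠ ⊤ → a ≠ b → ρ a ≤ H → ρ b ≤ H →
    ∃ K : Subgroup G, (LTy K ∨ JTy K) ∧ ∀ c, ρ c ≤ H → ρ c ≤ K
  nl : ¬ LTy G
  nj : ¬ JTy G

/-- the theorem for groups of order less than `n` -/
def IHn (n : ℕ) : Prop :=
  ∀ (X Λ : Type) [Group X] [Finite X] [MulAction X Λ] [Finite Λ] (σ : Λ → Subgroup X),
    Nat.card X < n → Geo σ → ⨆ a, σ a = ⊤ → (∃ a b : Λ, a ≠ b) → LTy X ∨ JTy X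

/-- the facts about the first Janko group that are used -/
structure JF (K : Subgroup G) : Prop where
  simple : IsSimpleGroup K
  card : Nat.card K = 175560
  ord : ∀ x ∈ K, orderOf x ∈ [1, 2, 3, 5, 6, 7, 10, 11, 15, 19]
  cj2 : ∀ s ∈ K, ∀ t ∈ K, orderOf s = 2 → orderOf t = 2 → ∃ k ∈ K, k * s * k⁻¹ = t
  inner : ∀ g ∈ 𝐍(K), ∃ k ∈ K, k⁻¹ * g ∈ 𝐂(K)
  c10 : ∀ u ∈ K, ∀ h ∈ K, orderOf u = 2 → orderOf h = 5 → u * h = h * u →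
    ∀ c ∈ K, c * u = u * c → c * h = h * c → ∃ i j : ℕ, c = u ^ i * h ^ j
  sig : ∀ u ∈ K, ∀ h ∈ K, orderOf u = 2 → orderOf h = 5 → u * h = h * u →
    ∃ σ ∈ K, σ * u = u * σ ∧ σ * h * σ⁻¹ = h⁻¹

/-- the maximal lines `M` form a linear space -/
structure Sys (ρ : Ω → Subgroup G) (M : Subgroup G → Prop) : Prop where
  ex : ∀ a b : Ω, a ≠ b → ∃ K, M K ∧ ρ a ≤ K ∧ ρ b ≤ K
  uq : ∀ (a b : Ω) (K K' : Subgroup G), a ≠ b → M K → M K' → ρ a ≤ K → ρ b ≤ K → ρ a ≤ K' →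
    ρ b ≤ K' → K = K'
  cjM : ∀ (g : G) (K : Subgroup G), M K → M (K ^ᶜ g)
  trM : ∀ (a : Ω) (K K' : Subgroup G), M K → M K' → ρ a ≤ K → ρ a ≤ K' →
    ∃ c, Mu ρ c a 1 ∧ K ^ᶜ c = K'
  cen : ∀ (a : Ω) (K : Subgroup G) (g : G), M K → ρ a ≤ K → g ∈ 𝐍(K) → Mu ρ g a 1 →
    ∃ x ∈ ρ a, x⁻¹ * g ∈ 𝐂(K)
  exh : ∀ (a : Ω) (K : Subgroup G), M K → ρ a ≤ K → ∃ h ∈ K, Mu ρ h a 3
  u3 : ∀ (a : Ω) (K K' : Subgroup G) (g : G), M K → M K' → ρ a ≤ K → ρ a ≤ K' → Mu ρ g a 3 →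
    g ∈ 𝐍(K) → g ∈ 𝐍(K') → K = K'
  fix : ∀ (K : Subgroup G) (c : G) (b : Ω), M K → c ∈ 𝐂(K) → c ≠ 1 → c • b = b → ρ b ≤ K
  big : ∀ K : Subgroup G, M K → 12 ≤ {a | ρ a ≤ K}.ncard
  off : ∀ K : Subgroup G, M K → ∃ b, ¬ ρ b ≤ K

/-- a counterexample without large lines -/
structure LW (ρ : Ω → Subgroup G) : Prop extends St ρ where
  noJ : ∀ (K : Subgroup G) (a : Ω), JTy K → ¬ ρ a ≤ K

/-- the exceptional configuration for two maximal lines `K ≠ K'` through `a` -/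
structure Exc (ρ : Ω → Subgroup G) (M : Subgroup G → Prop) (a : Ω) (K K' : Subgroup G)
    (a0 p : G) : Prop where
  hK : M K
  hK' : M K'
  ne : K ≠ K'
  ha : ρ a ≤ K
  ha' : ρ a ≤ K'
  mem : a0 ∈ 𝐂(K)
  ne1 : a0 ≠ 1
  hp : p ∈ ρ a
  mem' : a0 * p ∈ 𝐂(K')

/-- there is no exceptional configuration -/
def NoExc (ρ : Ω → Subgroup G) (M : Subgroup G → Prop) : Prop :=
  ∀ (a : Ω) (K K' : Subgroup G) (a0 p : G), ¬ Exc ρ M a K K' a0 p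

/-- the preimage of the Frobenius kernel in the centraliser of the point `a` -/
def YS (ρ : Ω → Subgroup G) (a : Ω) : Set G :=
  {c | Mu ρ c a 1 ∧ (c ∈ ρ a ∨ ∀ x ∈ ρ a, ∀ b : Ω, b ≠ a → (c * x) • b ≠ b)}

/-- the last case: two point stabilisers `5 × D₂₂` -/
structure XW (ρ : Ω → Subgroup G) : Prop extends LW ρ where
  c11 : ∀ a b : Ω, a ≠ b → Nat.card 𝐂(ρ a ⊔ ρ b) = 11
  oddC : ∀ a : Ω, Odd (Nat.card 𝐂(ρ a))
  even : Even (Nat.card Ω)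
  exu : ∀ a b : Ω, a ≠ b → ∃ u : G, Mu ρ u a 10 ∧ u • b = b
  inv : ∀ (a b : Ω) (u : G), a ≠ b → Mu ρ u a 10 → u • b = b →
    ∀ c ∈ 𝐂(ρ a ⊔ ρ b), u * c * u⁻¹ = c⁻¹

end H30.E11
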