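import Cfsg.Agent.Lib.E11.AV

set_option autoImplicit false

namespace H30.E11

open Subgroup H69

variable {G Ω : Type} [Group G] [Finite G] [MulAction G Ω] [Finite Ω] {ρ : Ω → Subgroup G}

theorem eb_fix {P M : Subgroup G} {a0 : G} (hPM : P < M) (hM : M ≤ 𝐂(P)) (hM11 : IsPGroup 11 M)
    (ha : a0 ∈ 𝐂(P)) (ha11 : a0 ^ 11 = 1) (hn : a0 ∈ 𝐍(M)) :
    ∃ y ∈ M, y ∉ P ∧ a0 * y * a0⁻¹ * y⁻¹ ∈ P := by
  haveI : Fact (Nat.Prime 11) := ⟨by norm_num⟩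
  haveI : (P.subgroupOf 𝐂(P)).Normal := normal_subgroupOf_of_le_normalizer (centralizer_le_normalizer _)
  have h1 := inf_centralizer_ne_bot (p := 11)
    (R := (M.subgroupOf 𝐂(P)).map (QuotientGroup.mk' (P.subgroupOf 𝐂(P))))
    (T := zpowers (QuotientGroup.mk' (P.subgroupOf 𝐂(P)) ⟨a0, ha⟩))
    ((isPGroup_subgroupOf hM11 _).map _) (isPGroup_iff_mem.2 (by
      rintro _ ⟨i, rfl⟩
      refine ⟨1, ?_⟩
      rw [pow_one, ← zpow_natCast, ← zpow_mul, mul_comm, zpow_mul, zpow_natCast, ← map_pow,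
        show (⟨a0, ha⟩ : 𝐂(P)) ^ 11 = 1 from Subtype.ext ha11, map_one, one_zpow]))
    (zpowers_le.2 (cj_eq_self_iff.1 (by
      rw [← map_cj, subgroupOf_cj, cj_eq_of_mem_normalizer hn])))
    (fun e => by
      rw [Subgroup.map_eq_bot_iff, QuotientGroup.ker_mk', subgroupOf_le_subgroupOf_iff hM] at e
      exact hPM.not_ge e)
  obtain ⟨⟨_, ⟨y, hy, rfl⟩, hc⟩, y1⟩ := ne_bot_iff_exists_ne_one.1 h1
  refine ⟨y, hy, fun hP => y1 (Subtype.ext ((QuotientGroup.eq_one_iff y).2 hP)), ?_⟩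
  have := mem_centralizer_iff_commute.1 hc _ (mem_zpowers _)
  rw [← mul_inv_eq_one, mul_inv_rev, ← mul_assoc, ← map_inv, ← map_inv, ← map_mul, ← map_mul,
    ← map_mul] at this
  exact mem_subgroupOf.1 ((QuotientGroup.eq_one_iff (N := P.subgroupOf 𝐂(P)) _).1 this)

theorem eb_ab {P M A : Subgroup G} {a0 y p : G} (hPM : P ≤ M) (hN : 𝐂(P) ≤ 𝐍(M))
    (ab : ∀ x ∈ M, ∀ y ∈ M, x * y = y * x) (ha : a0 ∈ 𝐂(P)) (hA : A ≤ 𝐂(P)) (haA : a0 ∈ 𝐍(A))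
    (c2 : ∀ m ∈ M, (∀ d ∈ A, m * d = d * m) → m ∈ P) (hy : y ∈ M) (hp : p ∈ P)
    (e : a0 * y * a0⁻¹ = p * y) : p ^ Nat.card A = 1 := by
  letI : CommGroup M := { (inferInstance : Group M) with
    mul_comm := fun x y => Subtype.ext (ab _ x.2 _ y.2) }
  haveI := Fintype.ofFinite A
  let γ : 𝐂(P) →* MulAut M := M.normalizerMonoidHom.comp (inclusion hN)
  have hγ : ∀ (g : 𝐂(P)) (m : M), (γ g m : G) = g * m * (g : G)⁻¹ := fun _ _ => rfl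
  let φ : M → M := fun m => ∏ d : A, γ ⟨d, hA d.2⟩ m
  have h1 : (φ ⟨y, hy⟩ : G) ∈ P := c2 _ (φ ⟨y, hy⟩).2 fun d hd => by
    have : γ ⟨d, hA hd⟩ (φ ⟨y, hy⟩) = φ ⟨y, hy⟩ := by
      rw [map_prod]
      exact Fintype.prod_equiv (Equiv.mulLeft ⟨d, hd⟩) _ _ fun x =>
        Subtype.ext (by rw [hγ, hγ, hγ]; simp only [Equiv.coe_mulLeft, coe_mul]; group)
    exact (mul_inv_eq_iff_eq_mul.1 ((hγ _ _).symm.trans (congrArg Subtype.val this))).symm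
  have h2 : γ ⟨a0, ha⟩ (φ ⟨y, hy⟩) = φ (⟨p, hPM hp⟩ * ⟨y, hy⟩) := by
    rw [map_prod]
    exact Fintype.prod_equiv (A.normalizerMonoidHom ⟨a0, haA⟩).toEquiv _ _ fun x =>
      Subtype.ext (by
        rw [hγ, hγ, hγ]
        change _ = a0 * x * a0⁻¹ * (p * y) * (a0 * x * a0⁻¹)⁻¹
        rw [← e]; group)
  have h3 : φ (⟨p, hPM hp⟩ * ⟨y, hy⟩) = ⟨p, hPM hp⟩ ^ Nat.card A * φ ⟨y, hy⟩ := by
    rw [Nat.card_eq_fintype_card, ← Finset.card_univ, ← Finset.prod_const, ← Finset.prod_mul_distrib]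
    refine Finset.prod_congr rfl fun d _ => ?_
    rw [map_mul]
    exact congrArg (· * _) (Subtype.ext (conj_eq_of_mem_centralizer (hA d.2) hp))
  have h4 := congrArg Subtype.val (h2.trans h3)
  rw [hγ, conj_eq_of_mem_centralizer ha h1, coe_mul, coe_pow, right_eq_mul] at h4
  exact h4

theorem eb_main (P M A : Subgroup G) (a0 h : G) (hP : Nat.card P = 11) (hPM : P < M)
    (hM : M ≤ 𝐂(P)) (hN : 𝐍(P) ≤ 𝐍(M)) (hc : ∀ x ∈ M, ∀ y ∈ M, x * y * x⁻¹ * y⁻¹ ∈ P)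
    (hp : ∀ x ∈ M, x ^ 11 ∈ P)
    (hmin : ∀ M' : Subgroup G, P ≤ M' → M' ≤ M → 𝐍(P) ≤ 𝐍(M') → M' = P ∨ M' = M)
    (ha : a0 ∈ 𝐂(P)) (ha11 : a0 ^ 11 = 1) (hA : A ≤ 𝐂(P)) (haA : a0 ∈ 𝐍(A))
    (hAc : ¬ 11 ∣ Nat.card A) (hh : ∀ x ∈ P, h * x * h⁻¹ = x ^ 3) (h5 : h ^ 5 = 1)
    (hha : h * a0 = a0 * h) (c1 : ∀ m ∈ M, m * a0 = a0 * m → m ∈ P)
    (c2 : ∀ m ∈ M, (∀ d ∈ A, m * d = d * m) → m ∈ P) (c3 : ∀ m ∈ M, m * h = h * m → m = 1) :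
    False := by
  haveI : Fact (Nat.Prime 11) := ⟨by norm_num⟩
  have p11 : ∀ x ∈ P, x ^ 11 = 1 := fun x hx =>
    hP ▸ congrArg Subtype.val (pow_card_eq_one' (x := (⟨x, hx⟩ : P)))
  have hM11 : IsPGroup 11 M := isPGroup_iff_mem.2 fun x hx =>
    ⟨2, by rw [pow_two, pow_mul, p11 _ (hp x hx)]⟩
  have hCN : 𝐂(P) ≤ 𝐍(M) := (centralizer_le_normalizer _).trans hN
  have cP : ∀ {x m : G}, x ∈ P → m ∈ 𝐂(P) → Commute x m := fun hx hm =>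
    mem_centralizer_iff_commute.1 hm _ hx
  obtain ⟨y, hy, yP, hp1⟩ := eb_fix hPM hM hM11 ha ha11 (hCN ha)
  obtain ⟨p1, e1⟩ : ∃ p1, p1 = a0 * y * a0⁻¹ * y⁻¹ := ⟨_, rfl⟩
  rw [← e1] at hp1
  replace e1 : a0 * y * a0⁻¹ = p1 * y := by rw [e1]; group
  rcases hmin (M ⊓ 𝐂(M)) (le_inf hPM.le (le_centralizer_iff.1 hM)) inf_le_left
    (le_normalizer_inf hN (le_normalizer_centralizer hN)) with hZ | hZ
  swap
  · have := eb_ab hPM.le hCN (fun x hx y hy =>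
      mem_centralizer_iff_commute.1 (inf_eq_left.1 hZ hy) x hx) ha hA haA c2 hy hp1 e1
    have p1ne : p1 ≠ 1 := fun e => yP (c1 y hy (by
      rw [e, one_mul, mul_inv_eq_iff_eq_mul] at e1; exact e1.symm))
    exact hAc (orderOf_eq_prime (p11 _ hp1) p1ne ▸ orderOf_dvd_of_pow_eq_one this)
  have hhM : h ∈ 𝐍(M) := hN (mem_normalizer_of_cj_le fun x hx => by
    obtain ⟨z, hz, rfl⟩ := mem_cj'.1 hx
    exact hh z hz ▸ pow_mem hz 3)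
  have hy' := conj_mem_of_mem_normalizer hhM hy
  have hw : (y ^ 3)⁻¹ * (h * y * h⁻¹) ∈ P := c1 _ (mul_mem (inv_mem (pow_mem hy 3)) hy') (by
    refine (mul_inv_eq_iff_eq_mul.1 ?_).symm
    calc a0 * ((y ^ 3)⁻¹ * (h * y * h⁻¹)) * a0⁻¹
        = ((a0 * y * a0⁻¹) ^ 3)⁻¹ * (a0 * h * y * (a0 * h)⁻¹) := by rw [conj_pow]; group
      _ = ((p1 * y) ^ 3)⁻¹ * (h * (a0 * y * a0⁻¹) * h⁻¹) := by rw [e1, ← hha, ← e1]; group
      _ = _ := by rw [e1, ← conj_mul, hh p1 hp1, (cP hp1 (hM hy)).mul_pow]; group)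
  obtain ⟨w, ew⟩ : ∃ w, w = (y ^ 3)⁻¹ * (h * y * h⁻¹) := ⟨_, rfl⟩
  rw [← ew] at hw
  replace ew : h * y * h⁻¹ = y ^ 3 * w := by rw [ew]; group
  obtain ⟨g0, hg0, yg⟩ : ∃ g0 ∈ M, g0 * y ≠ y * g0 := by
    by_contra hcon
    exact yP (hZ ▸ ⟨hy, mem_centralizer_iff_commute.2 fun g hg =>
      by_contra fun e => hcon ⟨g, hg, e⟩⟩)
  have hp0 := hc y hy g0 hg0
  obtain ⟨p, e0⟩ : ∃ p, p = y * g0 * y⁻¹ * g0⁻¹ := ⟨_, rfl⟩
  rw [← e0] at hp0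
  replace e0 : y * g0 * y⁻¹ = p * g0 := by rw [e0]; group
  have hS : {g | g ∈ M ∧ y * g * y⁻¹ = p * g}.ncard % 5 = 1 := by
    obtain ⟨k, hk⟩ := (hM11.to_inf_left (K := centralizer {y})).exists_card_eq
    have : {g | g ∈ M ∧ y * g * y⁻¹ = p * g} =
        (fun c => g0 * c) '' (M ⊓ centralizer {y} : Subgroup G) := by
      ext g
      constructor
      · rintro ⟨hg, e⟩
        refine ⟨g0⁻¹ * g, mem_inf.2 ⟨mul_mem (inv_mem hg0) hg, mem_centralizer_singleton_iff.2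
          (mul_inv_eq_iff_eq_mul.1 ?_).symm⟩, mul_inv_cancel_left g0 g⟩
        rw [← conj_mul, ← conj_inv, e, e0]; group
      · rintro ⟨c, ⟨h1, h2⟩, rfl⟩
        refine ⟨mul_mem hg0 h1, ?_⟩
        rw [← conj_mul, e0, ← mem_centralizer_singleton_iff.1 h2]; group
    rw [this, Set.ncard_image_of_injective _ (mul_right_injective g0), ← Nat.card_coe_set_eq]
    change Nat.card ↥(M ⊓ centralizer {y}) % 5 = 1
    rw [hk, Nat.pow_mod]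
    norm_num
  have hF := fix_mod (G := MulAut G) (p := 5) (by norm_num) {g | g ∈ M ∧ y * g * y⁻¹ = p * g}
    (MulAut.conj h) (by rw [← map_pow, h5, map_one]) (by
      rintro g ⟨hg, e⟩
      have hg' := conj_mem_of_mem_normalizer hhM hg
      refine ⟨hg', ?_⟩
      change y * (h * g * h⁻¹) * y⁻¹ = p * (h * g * h⁻¹)
      have hq := hc y hy _ hg'
      obtain ⟨q, eq⟩ : ∃ q, q = y * (h * g * h⁻¹) * y⁻¹ * (h * g * h⁻¹)⁻¹ := ⟨_, rfl⟩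
      rw [← eq] at hq
      replace eq : y * (h * g * h⁻¹) * y⁻¹ = q * (h * g * h⁻¹) := by rw [eq]; group
      have qy : y * q * y⁻¹ = q := conj_eq_of_mem_centralizer (hM hy) hq
      have st : ∀ z, y * (q * z) * y⁻¹ = q * (y * z * y⁻¹) := fun z => by rw [← conj_mul, qy]
      have f1 : y ^ 3 * (h * g * h⁻¹) * (y ^ 3)⁻¹ = q ^ 3 * (h * g * h⁻¹) := by
        calc _ = y * (y * (y * (h * g * h⁻¹) * y⁻¹) * y⁻¹) * y⁻¹ := by
              rw [pow_succ, pow_two]; group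
          _ = _ := by
              rw [eq, st, eq, st, st, eq, pow_succ, pow_two]
              group
      have f2 : y ^ 3 * (h * g * h⁻¹) * (y ^ 3)⁻¹ = p ^ 3 * (h * g * h⁻¹) := by
        calc _ = y ^ 3 * (h * g * h⁻¹ * w) * (y ^ 3 * w)⁻¹ := by group
          _ = h * y * h⁻¹ * (h * g * h⁻¹) * (h * y * h⁻¹)⁻¹ := by
              rw [← (cP hw (hM hg')).eq, ew, mul_assoc (y ^ 3) w]
          _ = h * (y * g * y⁻¹) * h⁻¹ := by group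
          _ = _ := by rw [e, ← conj_mul, hh p hp0]
      have f3 := mul_right_cancel (f1.symm.trans f2)
      have f4 : ∀ x ∈ P, (x ^ 3) ^ 4 = x := fun x hx => by
        rw [← pow_mul, show 3 * 4 = 11 + 1 from rfl, pow_succ, p11 x hx, one_mul]
      rw [eq, ← f4 q hq, f3, f4 p hp0])
  rw [hS] at hF
  obtain ⟨g, ⟨hg, e⟩, e'⟩ := Set.nonempty_of_ncard_ne_zero (fun e => by rw [e] at hF; omega :
    {g | g ∈ {g | g ∈ M ∧ y * g * y⁻¹ = p * g} ∧ MulAut.conj h • g = g}.ncard ≠ 0)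
  rw [c3 g hg (mul_inv_eq_iff_eq_mul.1 e').symm, mul_one, mul_one, mul_inv_cancel] at e
  rw [← e, one_mul, mul_inv_eq_iff_eq_mul] at e0
  exact yg e0.symm

end H30.E11
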