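import Cfsg.Agent.Lib.E11.Bas
import Cfsg.Agent.Lib.E11.AV

set_option autoImplicit false

namespace H30.E11

open Subgroup H69

variable {G Ω : Type} [Group G] [Finite G] [MulAction G Ω] [Finite Ω] {ρ : Ω → Subgroup G}

variable {M : Subgroup G → Prop}

omit [Finite G] in
theorem EXA_pow {c x : G} {k : ℕ} (h : c * x * c⁻¹ = x ^ k) (m : ℕ) :
    c ^ m * x * (c ^ m)⁻¹ = x ^ k ^ m := by
  induction m with
  | zero => simp
  | succ m ih =>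
    calc _ = c * (c ^ m * x * (c ^ m)⁻¹) * c⁻¹ := by group
      _ = _ := by rw [ih, ← conj_pow, h, ← pow_mul, pow_succ']

/-- an involution centralising `a` and normalising `K` centralises `K` -/
theorem EXA_inv (hG : Geo ρ) (hS : Sys ρ M) {a : Ω} {K : Subgroup G} (hK : M K) (ha : ρ a ≤ K) {z : G}
    (hz : z ∈ 𝐍(K)) (m : Mu ρ z a 1) (h2 : z * z = 1) : z ∈ 𝐂(K) := by
  obtain ⟨x, hx, c, hc, rfl, e⟩ := hS.dec hK ha hz m
  have h1 : x * x = 1 := hS.disj hG hK (mul_mem hx hx) (by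
    rw [(Commute.mul_mul_mul_comm (a := x) (d := c) (Commute.symm e)), mul_eq_one_iff_eq_inv] at h2
    exact h2 ▸ inv_mem (mul_mem hc hc))
  have h3 := hG.pow11 hx
  rw [show 11 = 2 * 5 + 1 from rfl, pow_succ, pow_mul, pow_two, h1, one_pow, one_mul] at h3
  rwa [h3, one_mul]

theorem EXA_swap (hG : Geo ρ) (hS : Sys ρ M) {a : Ω} {K K' : Subgroup G} (hK : M K) (hK' : M K')
    (hne : K ≠ K') (ha : ρ a ≤ K) (ha' : ρ a ≤ K') {t s : G} (ht : t ∈ 𝐂(K)) (hs : s ∈ 𝐂(K'))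
    (h2 : t * t = 1) (s2 : s * s = 1) (h1 : t ≠ 1) (s1 : s ≠ 1) :
    ∃ v, Mu ρ v a 1 ∧ v * t * v⁻¹ = s ∧ v * s * v⁻¹ = t ∧ K ^ᶜ v = K' ∧ K' ^ᶜ v = K := by
  have mt := mu_one_iff.1 (mu_of_cent ht ha)
  have ms := mu_one_iff.1 (mu_of_cent hs ha')
  rcases Nat.even_or_odd (orderOf (t * s)) with h | h
  · obtain ⟨i, z1, z2, zt, zs⟩ := dih_even h2 s2 h
    have m := mu_one_iff.2 (pow_mem (mul_mem mt ms) i)
    exact absurd (hS.eq_of_cent hG hK hK' (EXA_inv hG hS hK ha (hS.norm hG hK ht h1 zt) m z2)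
      (EXA_inv hG hS hK' ha' (hS.norm hG hK' hs s1 zs) m z2) z1) hne
  · obtain ⟨i, e, v2⟩ := dih_odd h2 s2 h
    have m := mu_one_iff.2 (mul_mem (pow_mem (mul_mem mt ms) i) mt)
    generalize (t * s) ^ i * t = v at e v2 m
    have e' : v * s * v⁻¹ = t := by
      rw [← e]
      calc _ = v * v * t * (v * v)⁻¹ := by group
        _ = t := by rw [v2]; group
    exact ⟨v, m, e, e', hS.cj_eq hG hK hK' ht h1 (e ▸ hs), hS.cj_eq hG hK' hK hs s1 (e' ▸ ht)⟩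

theorem Exc.pne (hG : Geo ρ) (hS : Sys ρ M) {a : Ω} {K K' : Subgroup G} {a0 p : G}
    (h : Exc ρ M a K K' a0 p) : p ≠ 1 ∧ a0 * p ≠ 1 ∧ a0 * p = p * a0 := by
  have h1 : p ≠ 1 := fun e => h.ne (hS.eq_of_cent hG h.hK h.hK' h.mem (by simpa [e] using h.mem') h.ne1)
  refine ⟨h1, fun e => h1 (hS.disj hG h.hK h.hp ?_), (mu_of_cent h.mem h.ha).comm h.hp⟩
  rw [eq_inv_of_mul_eq_one_right e]
  exact inv_mem h.mem

/-- `C(K) ∩ P C(K')` is generated by `a0` -/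
theorem Exc.zp (hG : Geo ρ) (hS : Sys ρ M) {a : Ω} {K K' : Subgroup G} {a0 p : G}
    (h : Exc ρ M a K K' a0 p) {c q : G} (hc : c ∈ 𝐂(K)) (hq : q ∈ ρ a) (hcq : c * q ∈ 𝐂(K')) :
    c ∈ zpowers a0 := by
  obtain ⟨h1, -, h3⟩ := h.pne hG hS
  obtain ⟨i, rfl⟩ := hG.gen1 h.hp h1 hq
  have e : c * p ^ i * ((a0 * p) ^ i)⁻¹ = c * (a0 ^ i)⁻¹ := by
    rw [Commute.mul_pow h3]; group
  have h4 : c * (a0 ^ i)⁻¹ = 1 := by
    by_contra n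
    exact h.ne (hS.eq_of_cent hG h.hK h.hK' (mul_mem hc (inv_mem (pow_mem h.mem i)))
      (e ▸ mul_mem hcq (inv_mem (pow_mem h.mem' i))) n)
  rw [mul_inv_eq_one.1 h4]
  exact pow_mem (mem_zpowers a0) i

theorem Exc.ord (hG : Geo ρ) (hS : Sys ρ M) {a : Ω} {K K' : Subgroup G} {a0 p : G}
    (h : Exc ρ M a K K' a0 p) : orderOf a0 = 11 := by
  haveI : Fact (Nat.Prime 11) := ⟨by norm_num⟩
  refine orderOf_eq_prime ?_ h.ne1
  by_contra n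
  have := pow_mem h.mem' 11
  rw [Commute.mul_pow (h.pne hG hS).2.2, hG.pow11 h.hp, mul_one] at this
  exact h.ne (hS.eq_of_cent hG h.hK h.hK' (pow_mem h.mem 11) this n)

theorem Exc.cent (hG : Geo ρ) (hS : Sys ρ M) {a : Ω} {K K' : Subgroup G} {a0 p : G}
    (h : Exc ρ M a K K' a0 p) {c : G} (hc : c ∈ 𝐂(K)) (hca : c * a0 = a0 * c) : c ∈ zpowers a0 := by
  have m := mu_of_cent hc h.ha
  obtain ⟨x, hx, d, hd, e, e'⟩ := hS.dec h.hK' h.ha' (hS.norm hG h.hK' h.mem' (h.pne hG hS).2.1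
    (Commute.mul_right hca (m.comm h.hp)).eq) m
  exact h.zp hG hS hc (inv_mem hx) (by rwa [e, e', mul_inv_cancel_right])

theorem Exc.nor (hG : Geo ρ) (hS : Sys ρ M) {a : Ω} {K K' : Subgroup G} {a0 p : G}
    (h : Exc ρ M a K K' a0 p) {c : G} (hc : c ∈ 𝐂(K)) (hn : c ∈ 𝐍(zpowers a0)) :
    c * a0 * c⁻¹ = a0 ∨ c * a0 * c⁻¹ = a0⁻¹ := by
  classical
  have o := h.ord hG hS
  obtain ⟨k, hk, e⟩ := Finset.mem_image.1 (mem_zpowers_iff_mem_range_orderOf.1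
    (conj_mem_of_mem_normalizer hn (mem_zpowers a0)))
  rw [o, Finset.mem_range] at hk
  have p11 : a0 ^ 11 = 1 := o ▸ pow_orderOf_eq_one a0
  by_contra n
  rw [not_or, ← e] at n
  have k0 : k ≠ 0 := by
    rintro rfl
    exact h.ne1 (by simpa using e.symm)
  have k1 : k ≠ 1 := by
    rintro rfl
    exact n.1 (pow_one _)
  have k10 : k ≠ 10 := by
    rintro rfl
    exact n.2 (eq_inv_of_mul_eq_one_left (by rw [← pow_succ, p11]))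
  obtain ⟨m, hm⟩ : ∃ m, k ^ m % 11 = 3 := by
    interval_cases k
    exacts [absurd rfl k0, absurd rfl k1, ⟨8, rfl⟩, ⟨1, rfl⟩, ⟨4, rfl⟩, ⟨2, rfl⟩, ⟨2, rfl⟩, ⟨4, rfl⟩,
      ⟨6, rfl⟩, ⟨3, rfl⟩, absurd rfl k10]
  obtain ⟨y, hy, y3⟩ := hS.exh a K h.hK h.ha
  have e1 : c ^ m * a0 * (c ^ m)⁻¹ = a0 ^ 3 := by
    rw [EXA_pow e.symm m, ← pow_mod_orderOf, o, hm]
  have m1 : Mu ρ (c ^ m) a 1 := mu_of_cent (pow_mem hc m) h.ha
  have m3 : Mu ρ (c ^ m * y) a 3 := m1.mul y3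
  have e2 : c ^ m * y * (a0 * p) * (c ^ m * y)⁻¹ = (a0 * p) ^ 3 := by
    have ya : y * a0 * y⁻¹ = a0 := mul_inv_eq_iff_eq_mul.2 (h.mem y hy)
    rw [Commute.mul_pow (h.pne hG hS).2.2, ← e1, ← m3 p h.hp]
    calc _ = c ^ m * (y * a0 * y⁻¹) * (c ^ m)⁻¹ * (c ^ m * y * p * (c ^ m * y)⁻¹) := by group
      _ = _ := by rw [ya]
  exact h.ne (hS.u3 a K K' _ h.hK h.hK' h.ha h.ha' m3
    (mul_mem (centralizer_le_normalizer _ (pow_mem hc m)) (le_normalizer hy))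
    (cj_eq_self_iff.1 (hS.cj_eq hG h.hK' h.hK' h.mem' (h.pne hG hS).2.1 (e2 ▸ pow_mem h.mem' 3))))

theorem exa_tr (hG : Geo ρ) (hS : Sys ρ M) {a : Ω} {K K' : Subgroup G} (hK : M K) (hK' : M K')
    (hne : K ≠ K') (ha : ρ a ≤ K) (ha' : ρ a ≤ K') {t t' : G} (ht : t ∈ 𝐂(K)) (ht' : t' ∈ 𝐂(K))
    (h2 : t * t = 1) (h2' : t' * t' = 1) (h1 : t ≠ 1) (h1' : t' ≠ 1) :
    ∃ c ∈ 𝐂(K), ∃ p ∈ ρ a, c * p ∈ 𝐂(K') ∧ c * t * c⁻¹ = t' := by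
  obtain ⟨d, -, hd⟩ := hS.trM a K K' hK hK' ha ha'
  have hs : d * t * d⁻¹ ∈ 𝐂(K') := by rw [← hd, ← cj_centralizer]; exact cj_mem d ht
  have s2 : d * t * d⁻¹ * (d * t * d⁻¹) = 1 := by rw [conj_mul, h2]; group
  have s1 : d * t * d⁻¹ ≠ 1 := fun e => h1 (by simpa using e)
  obtain ⟨v, v1, v2, -, v4, v5⟩ := EXA_swap hG hS hK hK' hne ha ha' ht hs h2 s2 h1 s1
  obtain ⟨w, w1, -, w3, w4, w5⟩ := EXA_swap hG hS hK hK' hne ha ha' ht' hs h2' s2 h1' s1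
  have m : Mu ρ (w * v) a 1 := w1.mul v1
  obtain ⟨x, hx, c, hc, e, ec⟩ := hS.dec hK ha (cj_eq_self_iff.1 (by rw [← cj_cj, v4, w5])) m
  obtain ⟨x', hx', c', hc', e', -⟩ := hS.dec hK' ha' (cj_eq_self_iff.1 (by rw [← cj_cj, v5, w4])) m
  refine ⟨c, hc, x'⁻¹ * x, mul_mem (inv_mem hx') hx, ?_, ?_⟩
  · rwa [(mu_of_cent hc ha).comm (mul_mem (inv_mem hx') hx), mul_assoc, ← e, e', inv_mul_cancel_left]
  · have xt : x * t * x⁻¹ = t := mul_inv_eq_iff_eq_mul.2 (ht x (ha hx))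
    calc _ = c * (x * t * x⁻¹) * c⁻¹ := by rw [xt]
      _ = c * x * t * (c * x)⁻¹ := by group
      _ = w * (v * t * v⁻¹) * w⁻¹ := by rw [← ec, ← e]; group
      _ = t' := by rw [v2, w3]

/-- at least twelve maximal lines pass through every point -/
theorem exa_lines (hG : Geo ρ) (hS : Sys ρ M) {K : Subgroup G} (hK : M K) (a : Ω) :
    12 ≤ {K' | M K' ∧ ρ a ≤ K'}.ncard := by
  obtain ⟨b, hb⟩ := hS.off K hK
  obtain ⟨g, rfl⟩ := hG.tr b a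
  have ex : ∀ c, ∃ L, ρ c ≤ K → M L ∧ ρ b ≤ L ∧ ρ c ≤ L := fun c => by
    by_cases h : ρ c ≤ K
    · obtain ⟨L, hL⟩ := hS.ex b c fun e => hb (e ▸ h)
      exact ⟨L, fun _ => hL⟩
    · exact ⟨⊥, fun k => absurd k h⟩
  choose L hL using ex
  refine (hS.big K hK).trans (Set.ncard_le_ncard_of_injOn (fun c => L c ^ᶜ g)
    (fun c hc => ⟨hS.cjM g _ (hL c hc).1, (hG.le_cj g).2 (hL c hc).2.1⟩) fun c hc c' hc' e => ?_)
  by_contra n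
  have e' : L c = L c' := cj_inj.1 e
  exact hb (hS.uq c c' K (L c) n hK (hL c hc).1 hc hc' (hL c hc).2.2 (e' ▸ (hL c' hc').2.2) ▸ (hL c hc).2.1)

end H30.E11
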