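import Cfsg.Agent.Lib.E11.EXA
import Cfsg.Agent.Lib.E11.BU

set_option autoImplicit false

namespace H30.E11

open Subgroup H69

variable {G Ω : Type} [Group G] [Finite G] [MulAction G Ω] [Finite Ω] {ρ : Ω → Subgroup G}

variable {M : Subgroup G → Prop}

theorem exb_uniq (hG : Geo ρ) (hS : Sys ρ M) {K : Subgroup G} (hK : M K) {t t' : G}
    (ht : t ∈ 𝐂(K)) (ht' : t' ∈ 𝐂(K)) (h2 : t * t = 1) (h2' : t' * t' = 1) (h1 : t ≠ 1)
    (h1' : t' ≠ 1) : t = t' := by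
  by_contra hne
  obtain ⟨a, ha⟩ : {a | ρ a ≤ K}.Nonempty :=
    Set.nonempty_of_ncard_ne_zero (by have := hS.big K hK; omega)
  have hL := exa_lines hG hS hK a
  have hex : ∀ K', M K' → ρ a ≤ K' → K ≠ K' → ∃ c p, Exc ρ M a K K' c p := fun K' hK' ha' hn => by
    obtain ⟨c, hc, p, hp, hcp, e⟩ := exa_tr hG hS hK hK' hn ha ha' ht ht' h2 h2' h1 h1'
    exact ⟨c, p, hK, hK', hn, ha, ha', hc, fun e1 => hne (by rw [← e, e1]; group), hp, hcp⟩
  obtain ⟨K1, hK1, hn1⟩ := Set.exists_ne_of_one_lt_ncard (lt_of_lt_of_le (by norm_num) hL) K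
  obtain ⟨a0, p0, E⟩ := hex K1 hK1.1 hK1.2 hn1.symm
  have hg := exb_grp E.mem (E.ord hG hS) (fun c hc => E.cent hG hS hc) (fun c hc => E.nor hG hS hc)
    ht h2 h1 fun s hs s2 s1 => by
      obtain ⟨c, hc, p, hp, hcp, e⟩ := exa_tr hG hS hK hK1.1 hn1.symm ha hK1.2 ht hs h2 s2 h1 s1
      exact ⟨c, E.zp hG hS hc hp hcp, e⟩
  have hq : ∀ K' : Subgroup G, ∃ q, (M K' ∧ ρ a ≤ K') → q ∈ ρ a ∧ a0 * q ∈ 𝐂(K') := fun K' => by
    by_cases hK' : M K' ∧ ρ a ≤ K'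
    swap
    · exact ⟨1, fun h => absurd h hK'⟩
    by_cases hn : K = K'
    · exact ⟨1, fun _ => ⟨one_mem _, by rw [mul_one, ← hn]; exact E.mem⟩⟩
    obtain ⟨c, p, E'⟩ := hex K' hK'.1 hK'.2 hn
    have o := E'.ord hG hS
    have e : zpowers c = zpowers a0 := eq_of_le_of_card_ge
      (zpowers_le.2 (hg c E'.mem (o ▸ pow_orderOf_eq_one c)))
      (by rw [Nat.card_zpowers, Nat.card_zpowers, o, E.ord hG hS])
    obtain ⟨i, rfl⟩ : a0 ∈ zpowers c := e ▸ mem_zpowers a0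
    refine ⟨p ^ i, fun _ => ⟨zpow_mem E'.hp i, ?_⟩⟩
    have := zpow_mem E'.mem' i
    rwa [(show Commute c p from (E'.pne hG hS).2.2).mul_zpow] at this
  choose q hq using hq
  have hle := Set.ncard_le_ncard_of_injOn (s := {K' | M K' ∧ ρ a ≤ K'}) (t := (ρ a : Set G)) q
    (fun K' hK' => (hq K' hK').1) fun K' hK' K'' hK'' e =>
      hS.eq_of_cent hG hK'.1 hK''.1 (hq K' hK').2 (e ▸ (hq K'' hK'').2) fun e1 =>
        E.ne1 (hS.disj hG hK (a := a) (by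
          rw [eq_inv_of_mul_eq_one_left e1]; exact inv_mem (hq K' hK').1) E.mem)
  rw [← Nat.card_coe_set_eq (ρ a : Set G)] at hle
  exact absurd (hL.trans (hle.trans (hG.card a).le)) (by norm_num)

theorem Exc.odd (hG : Geo ρ) (hS : Sys ρ M) {a : Ω} {K K' : Subgroup G} {a0 p : G}
    (h : Exc ρ M a K K' a0 p) : Odd (Nat.card 𝐂(K)) := by
  by_contra ho
  haveI : Fact (Nat.Prime 2) := ⟨Nat.prime_two⟩
  obtain ⟨⟨t, ht⟩, o⟩ := exists_prime_orderOf_dvd_card' (G := 𝐂(K)) 2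
    (even_iff_two_dvd.1 (Nat.not_odd_iff_even.1 ho))
  rw [orderOf_mk] at o
  have t2 : t * t = 1 := by rw [← pow_two, ← o, pow_orderOf_eq_one]
  have t1 : t ≠ 1 := fun e => by rw [e, orderOf_one] at o; exact absurd o (by norm_num)
  have e := exb_uniq hG hS h.hK (mul_mem (mul_mem h.mem ht) (inv_mem h.mem)) ht
    (by rw [conj_mul, t2, mul_one, mul_inv_cancel]) t2 (fun e => t1 (conj_eq_one_iff.1 e)) t1
  have := orderOf_dvd_of_mem_zpowers (h.cent hG hS ht (mul_inv_eq_iff_eq_mul.1 e).symm)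
  rw [o, h.ord hG hS] at this
  exact absurd this (by norm_num)

end H30.E11
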