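import Cfsg.Agent.Lib.E11.LS
import Cfsg.Agent.S0035

set_option autoImplicit false
set_option linter.unusedSectionVars false

namespace H30.E11

open Subgroup H69
open scoped Pointwise

variable {G Ω : Type} [Group G] [Finite G] [MulAction G Ω] [Finite Ω] {ρ : Ω → Subgroup G}

theorem fro_ker {Q : Type} [Group Q] [Finite Q] (H : Subgroup Q) (h1 : H ≠ ⊤)
    (h2 : ∀ g : Q, g ∉ H → H ⊓ (MulAut.conj g • H) = ⊥) :
    ∃ N : Subgroup Q, (N : Set Q) = Cfsg.frobeniusKernel H ∧ ∀ q, ∃ n ∈ N, ∃ h ∈ H, q = n * h := by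
  by_cases h0 : H = ⊥
  · refine ⟨⊤, ?_, fun q => ⟨q, trivial, 1, one_mem _, (mul_one q).symm⟩⟩
    ext x
    simp only [coe_top, Set.mem_univ, true_iff, Cfsg.frobeniusKernel, Set.mem_setOf_eq]
    by_cases e : x = 1
    · exact Or.inl e
    · refine Or.inr fun g hg => e ?_
      rwa [h0, smul_bot, mem_bot] at hg
  · obtain ⟨N, hN, -, hc⟩ := Cfsg.Agent.S0035.result H ⟨h0, h1, h2⟩
    refine ⟨N, hN, fun q => ?_⟩
    obtain ⟨⟨n, h⟩, e⟩ := hc.2 q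
    exact ⟨n, n.2, h, h.2, e.symm⟩

theorem fro_main (hW : LW ρ) (hN : NoExc ρ (IsL ρ)) (a : Ω) : ∃ Y : Subgroup G,
    (Y : Set G) = YS ρ a ∧ ∀ b c : Ω, b ≠ a → c ≠ a → ∃ y ∈ Y, y • b = c := by
  have hG := hW.toSt.toGeo
  obtain ⟨a0, b0, hab0⟩ := hW.two
  obtain ⟨b, hb, -⟩ := hW.sys.other (hW.isL hab0) a
  let C : Subgroup G := 𝐂(ρ a)
  have mu : ∀ c : C, Mu ρ (c : G) a 1 := fun c => mu_one_iff.2 c.2
  have PC : ρ a ≤ C := fun x hx => mu_one_iff.1 (hG.mu_mem hx)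
  have ne : ∀ c : C, (c : G) • b ≠ a := fun c e =>
    hb (MulAction.injective (c : G) (e.trans (hG.mu_fix (mu c)).symm))
  let P : Subgroup C := (ρ a).subgroupOf C
  haveI : P.Normal := (normal_subgroupOf_iff_le_normalizer PC).2
    (le_normalizer_of_le_centralizer le_rfl)
  let π : C →* C ⧸ P := QuotientGroup.mk' P
  have πs : Function.Surjective π := QuotientGroup.mk'_surjective P
  have π1 : ∀ c : C, π c = 1 ↔ (c : G) ∈ ρ a := fun c => QuotientGroup.eq_one_iff c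
  let H : Subgroup (C ⧸ P) := ((MulAction.stabilizer G b).subgroupOf C).map π
  have memH : ∀ c : C, π c ∈ H ↔ ∃ x ∈ ρ a, ((c : G) * x) • b = b := fun c => by
    constructor
    · rintro ⟨d, hd, e⟩
      refine ⟨(c⁻¹ * d : C), (π1 _).1 (by rw [map_mul, map_inv, e, inv_mul_cancel]), ?_⟩
      rw [coe_mul, coe_inv, mul_inv_cancel_left]; exact hd
    · rintro ⟨x, hx, e⟩
      exact ⟨c * ⟨x, PC hx⟩, e, by rw [map_mul, (π1 ⟨x, PC hx⟩).2 hx, mul_one]⟩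
  have memC : ∀ c g : C, π c ∈ MulAut.conj (π g) • H ↔
      ∃ x ∈ ρ a, ((c : G) * x) • (g : G) • b = (g : G) • b := fun c g => by
    rw [mem_pointwise_smul_iff_inv_smul_mem, ← map_inv, MulAut.smul_def, MulAut.conj_apply, inv_inv,
      ← map_inv, ← map_mul, ← map_mul, memH]
    refine exists_congr fun x => and_congr_right fun hx => ?_
    rw [coe_mul, coe_mul, coe_inv, mul_assoc, (mu g).comm hx, mul_assoc, mul_smul, inv_smul_eq_iff,
      ← mul_assoc, mul_smul]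
  have toK : ∀ g : C, π g ∈ H → ρ ((g : G) • b) ≤ ρ a ⊔ ρ b := fun g hg => by
    obtain ⟨x, hx, e⟩ := (memH g).1 hg
    rw [(mu g).comm hx, mul_smul, smul_eq_iff_eq_inv_smul] at e
    rw [e]
    exact hG.le_mem (mem_sup_left (inv_mem hx)) le_sup_right
  have cen : ∀ (c : G) (d : Ω), Mu ρ c a 1 → c • d = d → c ∈ 𝐂(ρ a ⊔ ρ d) := fun c d h1 h2 =>
    cent_sup h1 (hW.typ h1 h2)
  obtain ⟨N, hN1, hN2⟩ := fro_ker H (fun e => by
    obtain ⟨d, hd⟩ := hW.toSt.off (Or.inl (hW.lt hb.symm))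
    obtain ⟨g, g1, g2⟩ := hW.tr1 hb (show d ≠ a from fun e => hd (e ▸ le_sup_left))
    exact hd (g2 ▸ toK ⟨g, mu_one_iff.1 g1⟩ (by rw [e]; trivial))) (fun g hg => by
    obtain ⟨g, rfl⟩ := πs g
    rw [eq_bot_iff]
    rintro c ⟨h1, h2⟩
    obtain ⟨c, rfl⟩ := πs c
    obtain ⟨x, hx, e⟩ := (memH c).1 h1
    obtain ⟨x', hx', e'⟩ := (memC c g).1 h2
    have m : ∀ y ∈ ρ a, Mu ρ ((c : G) * y) a 1 := fun y hy => (mu c).mul (hG.mu_mem hy)
    by_cases h0 : (c : G) * x = 1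
    · rw [mem_bot, π1, mul_eq_one_iff_eq_inv.1 h0]; exact inv_mem hx
    refine (hN a (ρ a ⊔ ρ b) (ρ a ⊔ ρ ((g : G) • b)) (c * x) (x⁻¹ * x')
      ⟨hW.isL hb.symm, hW.isL (ne g).symm, fun e2 => hg ?_, le_sup_left, le_sup_left,
        cen _ _ (m x hx) e, h0, mul_mem (inv_mem hx) hx', ?_⟩).elim
    · obtain ⟨y, hy, e3⟩ := la_reg hG (hW.lt hb.symm) le_sup_left le_sup_right
        (e2 ▸ le_sup_right) hb (ne g)
      exact (memH g).2 ⟨y⁻¹, inv_mem hy, by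
        rw [(mu g).comm (inv_mem hy), mul_smul, ← e3, inv_smul_smul]⟩
    · rw [mul_assoc, mul_inv_cancel_left]; exact cen _ _ (m x' hx') e')
  have memN : ∀ c : C, π c ∈ N ↔ (c : G) ∈ YS ρ a := fun c => by
    rw [← SetLike.mem_coe, hN1]
    change (π c = 1 ∨ ∀ g, π c ∉ MulAut.conj g • H) ↔ _ ∧ _
    rw [π1, and_iff_right (mu c)]
    refine or_congr_right ⟨fun h x hx d hd e => ?_, fun h g hg => ?_⟩
    · obtain ⟨g, g1, rfl⟩ := hW.tr1 hb hd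
      exact h (π ⟨g, mu_one_iff.1 g1⟩) ((memC c _).2 ⟨x, hx, e⟩)
    · obtain ⟨g, rfl⟩ := πs g
      obtain ⟨x, hx, e⟩ := (memC c g).1 hg
      exact h x hx _ (ne g) e
  have tr : ∀ d, d ≠ a → ∃ y ∈ (N.comap π).map C.subtype, y • b = d := fun d hd => by
    obtain ⟨g, g1, rfl⟩ := hW.tr1 hb hd
    obtain ⟨n, hn, h, ⟨s, hs, rfl⟩, e⟩ := hN2 (π ⟨g, mu_one_iff.1 g1⟩)
    refine ⟨g * (s : G)⁻¹, ⟨⟨g, mu_one_iff.1 g1⟩ * s⁻¹, ?_, rfl⟩, ?_⟩
    · change π _ ∈ N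
      rw [map_mul, map_inv, e, mul_inv_cancel_right]; exact hn
    · rw [mul_smul, inv_smul_eq_iff.2 (show b = (s : G) • b from hs.symm)]
  refine ⟨(N.comap π).map C.subtype, ?_, fun c d hc hd => ?_⟩
  · ext x
    constructor
    · rintro ⟨c, hc, rfl⟩
      exact (memN c).1 hc
    · exact fun hx => ⟨⟨x, mu_one_iff.1 hx.1⟩, (memN _).2 hx, rfl⟩
  · obtain ⟨y, hy, rfl⟩ := tr c hc
    obtain ⟨z, hz, rfl⟩ := tr d hd
    exact ⟨z * y⁻¹, mul_mem hz (inv_mem hy), by rw [mul_smul, inv_smul_smul]⟩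

end H30.E11
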