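import Cfsg.Agent.Lib.E11.JM
import Cfsg.Agent.Lib.E11.AV

set_option autoImplicit false

namespace H30.E11

open Subgroup H69

variable {G Ω : Type} [Group G] [Finite G] [MulAction G Ω] [Finite Ω] {ρ : Ω → Subgroup G}

theorem ja_mu (hG : Geo ρ) {a : Ω} {g x : G} {k : ℕ} (hx : x ∈ ρ a) (h1 : x ≠ 1) (e : g * x * g⁻¹ = x ^ k) :
    Mu ρ g a k := fun y hy => by
  obtain ⟨i, rfl⟩ := hG.gen1 hx h1 hy
  rw [← conj_pow, e, ← pow_mul, ← pow_mul, mul_comm]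

theorem ja_cenK (hG : Geo ρ) {K : Subgroup G} (hK : JTy K) {a : Ω} (ha : ρ a ≤ K) {g : G}
    (hg : g ∈ K) (h1 : Mu ρ g a 1) : g ∈ ρ a := by
  obtain ⟨x, hx, x1⟩ := hG.exne a
  have c : Commute g x := h1.comm hx
  by_cases e : orderOf g = 11
  · obtain ⟨b, hb⟩ := hG.line_pt (Or.inr hK) ha (zpowers_le.2 hg) (by rw [Nat.card_zpowers, e])
    have m : g ∈ ρ b := hb ▸ mem_zpowers g
    by_cases ba : b = a
    · exact ba ▸ m
    · refine absurd (hG.semi hx ba (hG.mu_fix (k := 1) fun y hy => ?_)) x1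
      obtain ⟨i, rfl⟩ := mem_zpowers_iff.1 (hb ▸ hy)
      rw [(c.symm.zpow_right i).eq, mul_inv_cancel_right, pow_one]
  · have o1 := hK.jf.ord g hg
    have o2 := hK.jf.ord _ (mul_mem hg (ha hx))
    have co : (orderOf g).Coprime (orderOf x) := by
      rw [hG.ord hx x1]
      simp only [List.mem_cons, List.not_mem_nil, or_false] at o1
      rcases o1 with o | o | o | o | o | o | o | o | o | o <;> first | exact absurd o e | (rw [o]; norm_num)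
    rw [c.orderOf_mul_eq_mul_orderOf_of_coprime co, hG.ord hx x1] at o2
    simp only [List.mem_cons, List.not_mem_nil, or_false] at o2
    rw [orderOf_eq_one_iff.1 (show orderOf g = 1 by omega)]
    exact one_mem _

theorem ja_cnt (hG : Geo ρ) {K : Subgroup G} {a : Ω} (ha : ρ a ≤ K) : 11 ∣ {c | ρ c ≤ K}.ncard - 1 := by
  have h3 := semi_dvd (fun (g : G) (y : Ω) => g • y) (one_smul G) mul_smul (ρ a) ({c | ρ c ≤ K} \ {a})
    (Set.toFinite _) (fun e he y hy => ⟨hG.le_mem (ha he) hy.1, fun f => hy.2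
      (smul_left_cancel e (f.trans (hG.mu_fix (hG.mu_mem he)).symm))⟩) fun e he y hy h => hG.semi he hy.2 h
  rwa [Set.ncard_sdiff_singleton_of_mem (show a ∈ {c | ρ c ≤ K} from ha), hG.card] at h3

theorem ja_big (hG : Geo ρ) {K : Subgroup G} (hK : JTy K) {a : Ω} (ha : ρ a ≤ K) :
    12 ≤ {c | ρ c ≤ K}.ncard := by
  have h3 := ja_cnt hG ha
  obtain ⟨b, hba, hb⟩ := hG.line_two (Or.inr hK) ha
  have h4 : 0 < ({c | ρ c ≤ K} \ {a}).ncard := (Set.ncard_pos (Set.toFinite _)).2 ⟨b, hb, hba⟩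
  rw [Set.ncard_sdiff_singleton_of_mem (show a ∈ {c | ρ c ≤ K} from ha)] at h4
  omega

theorem ja_ex (hG : Geo ρ) {K : Subgroup G} (hK : JTy K) {a : Ω} (ha : ρ a ≤ K) :
    ∃ x ∈ K, Mu ρ x a 8 := by
  have h := orb_card (fun (g : G) (y : Ω) => g • y) (one_smul G) mul_smul K
    (K ⊓ MulAction.stabilizer G a) a fun e => Iff.rfl
  have e : {y | ∃ e ∈ K, e • a = y} = {c | ρ c ≤ K} := Set.ext fun y =>
    ⟨fun ⟨e, he, h⟩ => h ▸ hG.le_mem he ha, fun h => hG.line_tr (Or.inr hK) ha h⟩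
  rw [hK.card, e] at h
  obtain ⟨x, hx, x1⟩ := hG.exne a
  have h2 := orb_card (fun (g : G) (y : G) => g * y * g⁻¹) (by simp) (fun g h y => by group)
    (K ⊓ MulAction.stabilizer G a) (ρ a) x fun e => ⟨fun he => ⟨⟨ha he, hG.mu_fix (hG.mu_mem he)⟩,
      by simpa using hG.mu_mem he x hx⟩, fun he => ja_cenK hG hK ha he.1.1 (ja_mu hG hx x1 (by simpa using he.2))⟩
  have sub : {y | ∃ e ∈ K ⊓ MulAction.stabilizer G a, e * x * e⁻¹ = y} ⊆ (ρ a : Set G) \ {1} := by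
    rintro _ ⟨e, he, rfl⟩
    refine ⟨?_, by simpa using x1⟩
    have := hG.cj_mem e hx
    rwa [show e • a = a from he.2] at this
  have c10 : ((ρ a : Set G) \ {1}).ncard = 10 := by
    rw [Set.ncard_sdiff_singleton_of_mem (show (1 : G) ∈ (ρ a : Set G) from one_mem _), ← Nat.card_coe_set_eq]
    exact congrArg (· - 1) (hG.card a)
  have le := Set.ncard_le_ncard sub (Set.toFinite _)
  have d := ja_cnt hG ha
  have big := ja_big hG hK ha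
  have eq : {y | ∃ e ∈ K ⊓ MulAction.stabilizer G a, e * x * e⁻¹ = y} = (ρ a : Set G) \ {1} := by
    refine Set.eq_of_subset_of_ncard_le sub ?_ (Set.toFinite _)
    rw [h2, hG.card] at h
    rw [c10] at le ⊢
    generalize {y | ∃ e ∈ K ⊓ MulAction.stabilizer G a, e * x * e⁻¹ = y}.ncard = j at *
    generalize {c | ρ c ≤ K}.ncard = n at *
    interval_cases j <;> omega
  have m : x ^ 8 ∈ (ρ a : Set G) \ {1} := ⟨pow_mem hx 8, fun f => by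
    have := orderOf_dvd_of_pow_eq_one (show x ^ 8 = 1 from f)
    rw [hG.ord hx x1] at this
    omega⟩
  obtain ⟨g, hg, f⟩ := eq.ge m
  exact ⟨g, hg.1, ja_mu hG hx x1 f⟩

theorem ja_ord (hG : Geo ρ) {K : Subgroup G} (hK : JTy K) {a : Ω} (ha : ρ a ≤ K) {g : G}
    (hg : g ∈ K) {k n : ℕ} (h : Mu ρ g a k) (hk : k % 11 ≠ 1) (hn : k ^ n % 11 = 1) :
    g ^ n = 1 :=
  hG.eq_one h hk (ja_cenK hG hK ha (pow_mem hg n) (hG.mu_mod (h.pow n) 1 hn)) ((Commute.refl g).pow_right n)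

theorem ja_dec (hG : Geo ρ) {K : Subgroup G} (hK : JTy K) {g : G} (hg : g ∈ 𝐍(K)) :
    ∃ k ∈ K, ∃ c ∈ 𝐂(K), g = k * c ∧ k * c = c * k ∧
      ∀ b, ρ b ≤ K → g • b = k • b ∧ ∀ m, Mu ρ g b m ↔ Mu ρ k b m := by
  obtain ⟨k, hk, hc⟩ := hK.jf.inner g hg
  have e : g = k * (k⁻¹ * g) := (mul_inv_cancel_left k g).symm
  refine ⟨k, hk, _, hc, e, hc k hk, fun b hb => ⟨?_, fun m => ⟨fun h => ?_, fun h => ?_⟩⟩⟩
  · rw [e, mul_smul, hG.mu_fix (mu_of_cent hc hb)]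
  · simpa using h.mul (mu_of_cent (inv_mem hc) hb)
  · simpa using h.mul (mu_of_cent hc hb)

theorem ja_cen (hG : Geo ρ) {K : Subgroup G} (hK : JTy K) {a : Ω} (ha : ρ a ≤ K) {g : G}
    (hg : g ∈ 𝐍(K)) (h1 : Mu ρ g a 1) : ∃ x ∈ ρ a, x⁻¹ * g ∈ 𝐂(K) := by
  obtain ⟨k, hk, c, hc, rfl, -, h⟩ := ja_dec hG hK hg
  exact ⟨k, ja_cenK hG hK ha hk (((h a ha).2 1).1 h1), by rwa [inv_mul_cancel_left]⟩

theorem ja_ne (hG : Geo ρ) {a : Ω} {g : G} {k : ℕ} (h : Mu ρ g a k) (hk : k % 11 ≠ 1) : g ≠ 1 :=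
  fun e => hk (hG.mu_uniq h (e ▸ mu_one a))

theorem ja_inv (hG : Geo ρ) {K : Subgroup G} (hK : JTy K) {a : Ω} (ha : ρ a ≤ K) {s : G}
    (hs : s ∈ K) (h2 : s * s = 1) (h1 : s ≠ 1) : ∃ b, ρ b ≤ K ∧ Mu ρ s b 10 := by
  obtain ⟨x, hx, h8⟩ := ja_ex hG hK ha
  have m := hG.mu_mod (h8.pow 5) 10 (by norm_num)
  obtain ⟨k, hk, rfl⟩ := hK.jf.cj2 _ (pow_mem hx 5) s hs (orderOf_eq_prime (by
    rw [← pow_mul]; exact ja_ord hG hK ha hx h8 (by norm_num) (by norm_num)) (ja_ne hG m (by norm_num)))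
    (orderOf_eq_prime (by rw [pow_two, h2]) h1)
  exact ⟨_, hG.le_mem hk ha, hG.mu_cj m k⟩

theorem ja_u (hG : Geo ρ) {K : Subgroup G} (hK : JTy K) {a : Ω} (ha : ρ a ≤ K) {g : G}
    (hg : g ∈ 𝐍(K)) (h3 : Mu ρ g a 3) : ∃ u ∈ K, u * u = 1 ∧ u * g = g * u ∧ Mu ρ u a 10 := by
  obtain ⟨k, hk, c, hc, rfl, -, h⟩ := ja_dec hG hK hg
  obtain ⟨x, hx, h8⟩ := ja_ex hG hK ha
  have m6 := hG.mu_mod (h8.pow 6) 3 (by norm_num)
  obtain ⟨q, hq, e⟩ := hG.affine m6 (by norm_num) (ja_cenK hG hK ha (mul_mem hk (inv_mem (pow_mem hx 6)))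
    (hG.mu_mod ((((h a ha).2 3).1 h3).mul (hG.mu_inv m6 4 (by norm_num))) 1 (by norm_num)))
  rw [inv_mul_cancel_right] at e
  have mu : q * x ^ 5 * q⁻¹ ∈ K := mul_mem (mul_mem (ha hq) (pow_mem hx 5)) (inv_mem (ha hq))
  refine ⟨_, mu, ?_, ?_, ?_⟩
  · rw [conj_mul, ← pow_add, ja_ord hG hK ha hx h8 (by norm_num) (by norm_num)]; group
  · rw [mul_assoc k, ← hc _ mu, ← mul_assoc, ← mul_assoc k, e, conj_mul, conj_mul, ← pow_add, ← pow_add]
  · have := hG.mu_cj (hG.mu_mod (h8.pow 5) 10 (by norm_num)) q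
    rwa [hG.mu_fix (hG.mu_mem hq)] at this

theorem ja_four {K : Subgroup G} (hK : JTy K) {y : G} (hy : y ∈ K) (h4 : y ^ 4 = 1) : y ^ 2 = 1 := by
  have o := hK.jf.ord y hy
  have d := orderOf_dvd_of_pow_eq_one h4
  simp only [List.mem_cons, List.not_mem_nil, or_false] at o
  rw [← orderOf_dvd_iff_pow_eq_one]
  rcases o with o | o | o | o | o | o | o | o | o | o <;> rw [o] at d ⊢ <;> omega

end H30.E11
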