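import Cfsg.Agent.Lib.E11.LA1

set_option autoImplicit false

namespace H30.E11

open Subgroup H69

variable {G Ω : Type} [Group G] [Finite G] [MulAction G Ω] [Finite Ω] {ρ : Ω → Subgroup G}

theorem la2_burn {K T : Subgroup G} (hK : LTy K) {p : ℕ} [hp : Fact p.Prime] (hT : IsSylowIn p T K) (h1 : T ≠ ⊥) :
    ∃ n ∈ K, n ∈ 𝐍(T) ∧ n ∉ 𝐂(T) := by
  by_contra hn
  obtain ⟨P, rfl⟩ := hT.exists_sylow
  have hP : 𝐍((P : Subgroup K)) ≤ 𝐂((P : Subgroup K)) := by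
    rw [← map_subtype_le_iff, map_subtype_normalizer, map_subtype_centralizer]
    exact fun n h => ⟨h.1, by_contra fun m => hn ⟨n, h.1, h.2, m⟩⟩
  have c := MonoidHom.ker_transferSylow_isComplement' P hP
  have := hK.1
  rcases (inferInstance : (MonoidHom.transferSylow P hP).ker.Normal).eq_bot_or_eq_top with e | e <;> rw [e] at c
  · obtain ⟨n, hn⟩ := P.isPGroup'.exists_card_eq
    rw [isComplement'_bot_left.1 c, card_top, hK.2] at hn
    have a := (Nat.prime_dvd_prime_iff_eq Nat.prime_two hp.out).1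
      (Nat.prime_two.dvd_of_dvd_pow (n := n) (by rw [← hn]; norm_num))
    have b := (Nat.prime_dvd_prime_iff_eq Nat.prime_three hp.out).1
      (Nat.prime_three.dvd_of_dvd_pow (n := n) (by rw [← hn]; norm_num))
    omega
  · exact h1 (by rw [isComplement'_top_left.1 c, Subgroup.map_bot])

theorem la2_card (hG : Geo ρ) {K : Subgroup G} (hK : LTy K) {a b : Ω} (ha : ρ a ≤ K) (hb : ρ b ≤ K) (hab : a ≠ b) :
    Nat.card ↥(K ⊓ MulAction.stabilizer G a ⊓ MulAction.stabilizer G b) = 5 := by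
  have c := orb_card (fun (g : G) (y : Ω) => g • y) (one_smul G) mul_smul (K ⊓ MulAction.stabilizer G a)
    (K ⊓ MulAction.stabilizer G a ⊓ MulAction.stabilizer G b) b fun _ => Iff.rfl
  have e : {y | ∃ e ∈ K ⊓ MulAction.stabilizer G a, e • b = y} = {c | ρ c ≤ K} \ {a} := by
    ext c
    constructor
    · rintro ⟨e, he, rfl⟩
      exact ⟨hG.le_mem he.1 hb, fun m => hab (smul_left_cancel e ((show e • a = a from he.2).trans m.symm))⟩
    · rintro ⟨h1, h2⟩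
      obtain ⟨x, hx, e⟩ := la_reg hG hK ha hb h1 hab.symm h2
      exact ⟨x, ⟨ha hx, hG.mu_fix (hG.mu_mem hx)⟩, e⟩
  rw [la_stab hG hK ha, e, Set.ncard_sdiff_singleton_of_mem (s := {c | ρ c ≤ K}) ha, la_card hG hK ha] at c
  omega

theorem la2_mu (hG : Geo ρ) {K : Subgroup G} (hK : LTy K) {a b : Ω} (ha : ρ a ≤ K) (hab : b ≠ a) {g : G}
    (hg : g ∈ K) (h5 : g ^ 5 = 1) (h1 : g ≠ 1) (ga : g • a = a) (gb : g • b = b) :
    ∃ k, Mu ρ g a k ∧ (k = 3 ∨ k = 4 ∨ k = 5 ∨ k = 9) := by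
  obtain ⟨k, k0, k1, hk⟩ := hG.exMu ga
  have e := hG.mu_uniq (h5 ▸ hk.pow 5) (mu_one a)
  have n : k ≠ 1 := by
    rintro rfl
    exact h1 (hG.semi (la_cenK hG hK ha hg hk) hab gb)
  refine ⟨k, hk, ?_⟩
  interval_cases k <;> simp_all

theorem la_hs (hG : Geo ρ) {K : Subgroup G} (hK : LTy K) {a b : Ω} (ha : ρ a ≤ K) (hb : ρ b ≤ K)
    (hab : a ≠ b) : ∃ h ∈ K, ∃ s ∈ K, Mu ρ h a 3 ∧ Mu ρ h b 4 ∧ h ^ 5 = 1 ∧ s * s = 1 ∧
      s • a = b ∧ s * h * s⁻¹ = h⁻¹ ∧ ∀ g ∈ K, g • a = a → g • b = b → ∃ i : ℕ, g = h ^ i := by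
  have : Fact (Nat.Prime 5) := ⟨by norm_num⟩
  obtain ⟨H, hH⟩ : ∃ H, H = K ⊓ MulAction.stabilizer G a ⊓ MulAction.stabilizer G b := ⟨_, rfl⟩
  have cH : Nat.card H = 5 := hH ▸ la2_card hG hK ha hb hab
  have mH : ∀ g, g ∈ H ↔ g ∈ K ∧ g • a = a ∧ g • b = b := fun g => by rw [hH]; exact and_assoc
  have p5 : ∀ g ∈ H, g ^ 5 = 1 := fun g hg => by
    simpa [cH, Subtype.ext_iff] using pow_card_eq_one' (x := (⟨g, hg⟩ : H))
  have H0 : H ≠ ⊥ := fun e => by simp [e] at cH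
  obtain ⟨h, hh, h3⟩ : ∃ h ∈ H, Mu ρ h a 3 := by
    obtain ⟨⟨g, hg⟩, g1⟩ := ne_bot_iff_exists_ne_one.1 H0
    obtain ⟨k, hk, e⟩ := la2_mu hG hK ha hab.symm ((mH g).1 hg).1 (p5 g hg) (by simpa using g1)
      ((mH g).1 hg).2.1 ((mH g).1 hg).2.2
    rcases e with rfl | rfl | rfl | rfl
    exacts [⟨_, hg, hk⟩, ⟨_, pow_mem hg 4, hG.mu_mod (hk.pow 4) 3 rfl⟩, ⟨_, pow_mem hg 2, hG.mu_mod (hk.pow 2) 3 rfl⟩,
      ⟨_, pow_mem hg 3, hG.mu_mod (hk.pow 3) 3 rfl⟩]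
  have h1 : h ≠ 1 := by
    rintro rfl
    simpa using hG.mu_uniq h3 (mu_one a)
  have oh : orderOf h = 5 := orderOf_eq_prime (p5 h hh) h1
  have gen : ∀ g ∈ H, ∃ i < 5, g = h ^ i := fun g hg => by
    rw [← eq_of_le_of_card_ge (zpowers_le.2 hh) (by rw [Nat.card_zpowers, oh, cH]),
      ← mem_powers_iff_mem_zpowers] at hg
    obtain ⟨i, rfl⟩ := hg
    exact ⟨i % 5, Nat.mod_lt _ (by norm_num), by rw [← oh, pow_mod_orderOf]⟩
  obtain ⟨hK', ha', hb'⟩ := (mH h).1 hh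
  obtain ⟨s, hs, sa, sb⟩ : ∃ s ∈ K, s • a = b ∧ s • b = a := by
    obtain ⟨k, hk, e⟩ := hG.line_tr (Or.inl hK) ha hb
    obtain ⟨x, hx, e'⟩ := la_reg hG hK hb (hG.le_mem hk hb) ha
      (fun m => hab (smul_left_cancel k (e.trans m.symm))) hab
    exact ⟨x * k, mul_mem (hb hx) hk, by rw [mul_smul, e, hG.mu_fix (hG.mu_mem hx)], by rw [mul_smul, e']⟩
  have si : s⁻¹ • a = b ∧ s⁻¹ • b = a := ⟨by rw [inv_smul_eq_iff, sb], by rw [inv_smul_eq_iff, sa]⟩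
  obtain ⟨j, j5, hj⟩ := gen (s * h * s⁻¹) ((mH _).2 ⟨mul_mem (mul_mem hs hK') (inv_mem hs),
    by rw [mul_smul, mul_smul, si.1, hb', sb], by rw [mul_smul, mul_smul, si.2, ha', sa]⟩)
  obtain ⟨i, -, hi⟩ := gen (s * s) ((mH _).2 ⟨mul_mem hs hs, by rw [mul_smul, sa, sb], by rw [mul_smul, sb, sa]⟩)
  have jj : j * j ≡ 1 [MOD 5] := by
    rw [← oh, ← pow_eq_pow_iff_modEq, pow_mul, ← hj, conj_pow, ← hj, pow_one]
    calc _ = s * s * h * (s * s)⁻¹ := by group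
      _ = h := by rw [hi]; group
  have j1 : j ≠ 1 := by
    rintro rfl
    obtain ⟨n, hn, nN, nC⟩ := la2_burn (p := 5) (T := H) hK (isSylowIn_of_not_dvd_relIndex
      (IsPGroup.of_card (n := 1) cH) (fun g hg => ((mH g).1 hg).1) (by
        have := relIndex_mul_relIndex ⊥ H K bot_le fun g hg => ((mH g).1 hg).1
        rw [relIndex_bot_left, relIndex_bot_left, cH, hK.2] at this
        omega)) H0
    have cm : ∀ g, Commute g h → g ∈ 𝐂(H) := fun g c => mem_centralizer_iff_commute.2 fun x hx => by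
      obtain ⟨i, -, rfl⟩ := gen x hx
      exact (c.pow_right i).symm
    have cH' : ∀ g ∈ H, Commute g h := fun g hg => by
      obtain ⟨i, -, rfl⟩ := gen g hg
      exact Commute.pow_self h i
    obtain ⟨b', -, ub⟩ := la_fix hG hK ha (le_normalizer hK') h3 (by norm_num)
    have two : ∀ c, ρ c ≤ K → (∀ x ∈ H, x • c = c) → n • c = a ∨ n • c = b := fun c hc e => by
      refine or_iff_not_imp_left.2 fun m => (ub _ ⟨hG.le_mem hn hc, m, ?_⟩).trans (ub _ ⟨hb, hab.symm, hb'⟩).symm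
      rw [← mul_smul, show h * n = n * (n⁻¹ * h * n) by group, mul_smul, e _ (conj_mem_of_mem_normalizer' nN hh)]
    have ne : n • a ≠ n • b := fun m => hab (smul_left_cancel n m)
    rcases two a ha fun x hx => ((mH x).1 hx).2.1 with e | e <;>
      rcases two b hb fun x hx => ((mH x).1 hx).2.2 with e' | e'
    · exact ne (e.trans e'.symm)
    · exact nC (cm n (cH' n ((mH n).2 ⟨hn, e, e'⟩)))
    · have := cH' (s⁻¹ * n) ((mH _).2 ⟨mul_mem (inv_mem hs) hn, by rw [mul_smul, e, si.2], by rw [mul_smul, e', si.1]⟩)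
      have c : Commute s h := by
        rw [pow_one, mul_inv_eq_iff_eq_mul] at hj
        exact hj
      exact nC (cm n (by simpa using c.mul_left this))
    · exact ne (e.trans e'.symm)
  obtain rfl : j = 4 := by
    interval_cases j <;> simp_all [Nat.ModEq]
  have inv : s * h * s⁻¹ = h⁻¹ := by
    rw [hj, eq_inv_iff_mul_eq_one, ← pow_succ, p5 h hh]
  refine ⟨h, hK', s, hs, h3, ?_, p5 h hh, ?_, sa, inv, fun g hg e e' => (gen g ((mH g).2 ⟨hg, e, e'⟩)).imp fun _ => And.right⟩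
  · have := hG.mu_cj h3 s
    rw [inv, sa] at this
    simpa using hG.mu_inv this 4 rfl
  · have e : s * s * (s * s) = 1 := by
      calc _ = s * (s * s) * s⁻¹ * (s * s) := by group
        _ = 1 := by rw [hi, ← conj_pow, inv, inv_pow, inv_mul_cancel]
    have e5 : (s * s) ^ 5 = 1 := by rw [hi, ← pow_mul, mul_comm, pow_mul, p5 h hh, one_pow]
    generalize s * s = w at e e5
    calc w = w ^ 5 * ((w * w) ^ 2)⁻¹ := by rw [← sq, ← pow_mul]; group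
      _ = 1 := by rw [e, e5]; simp

theorem la2_A : ∀ r < 11, r ≠ 0 → ∃ j < 5, r * 3 ^ j % 11 = 1 ∨ r * 3 ^ j % 11 = 10 := by decide

set_option synthInstance.maxSize 2000 in
theorem la2_B : ∀ r < 11, ∀ r' < 11, ∀ j < 5, (r * 3 ^ j % 11 = 1 → r' * 4 ^ j % 11 = 1 → r * r' % 11 = 1) ∧
    (r * 3 ^ j % 11 = 10 → r' * 4 ^ j * (r' * 4 ^ j) % 11 = 1 → r' * 4 ^ j % 11 ≠ 1 → r * r' % 11 = 1) := by
  decide +kernel

theorem la_col (hG : Geo ρ) {K : Subgroup G} (hK : LTy K) {a b : Ω} (ha : ρ a ≤ K) (hb : ρ b ≤ K)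
    (hab : a ≠ b) {g : G} {k k' : ℕ} (h : Mu ρ g a k) (h' : Mu ρ g b k') : k * k' % 11 = 1 := by
  obtain ⟨t, -, s, -, t3, t4, -⟩ := la_hs hG hK ha hb hab
  have l : k % 11 < 11 := Nat.mod_lt _ (by norm_num)
  have l' : k' % 11 < 11 := Nat.mod_lt _ (by norm_num)
  obtain ⟨j, j5, e⟩ := la2_A _ l (hG.mu_ne h)
  have m := (hG.mu_mod h (k % 11) (by simp)).mul (t3.pow j)
  have m' := (hG.mu_mod h' (k' % 11) (by simp)).mul (t4.pow j)
  rw [Nat.mul_mod]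
  rcases e with e | e
  · exact (la2_B _ l _ l' j j5).1 e (hG.mu_uniq m' (mu_of_cent
      (la_typ hG hK ha hb hab.symm (hG.mu_mod m 1 e) (hG.mu_fix m')) hb))
  · have m1 := hG.mu_mod m 10 e
    refine (la2_B _ l _ l' j j5).2 e (hG.mu_uniq (m'.mul m') (mu_of_cent
      (la_typ hG hK ha hb hab.symm (hG.mu_mod (m1.mul m1) 1 rfl) (hG.mu_fix (m'.mul m'))) hb)) fun n => ?_
    simpa using hG.mu_uniq m1 (mu_of_cent (la_typ hG hK hb ha hab (hG.mu_mod m' 1 n) (hG.mu_fix m)) ha)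

theorem la_five (hG : Geo ρ) {K : Subgroup G} (hK : LTy K) {c : Ω} (hc : ρ c ≤ K) {g : G}
    (hg : g ∈ K) (h5 : orderOf g = 5) : ∃ (a b : Ω) (k : ℕ), b ≠ a ∧ ρ a ≤ K ∧ ρ b ≤ K ∧
      Mu ρ g a k ∧ g • b = b ∧ k * k % 11 ≠ 1 := by
  have g5 : g ^ 5 = 1 := h5 ▸ pow_orderOf_eq_one g
  have e := fix_mod (p := 5) (by norm_num) {c | ρ c ≤ K} g g5 fun y hy => hG.le_mem hg hy
  rw [la_card hG hK hc] at e
  obtain ⟨a, ha, b, hb, n⟩ := (Set.one_lt_ncard (s := {y | y ∈ {c | ρ c ≤ K} ∧ g • y = y})).1 (by omega)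
  obtain ⟨k, hk, e⟩ := la2_mu hG hK ha.1 n.symm hg g5 (by rintro rfl; simp at h5) ha.2 hb.2
  exact ⟨a, b, k, n.symm, ha.1, hb.1, hk, hb.2, by rcases e with rfl | rfl | rfl | rfl <;> norm_num⟩

end H30.E11
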