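import Cfsg.Agent.Lib.E11.LA1
import Cfsg.Agent.Lib.E11.LA2

set_option autoImplicit false

namespace H30.E11

open Subgroup H69

variable {G Ω : Type} [Group G] [Finite G] [MulAction G Ω] [Finite Ω] {ρ : Ω → Subgroup G}

theorem lb2_syl {K V : Subgroup G} (hK : LTy K) (hV : IsSylowIn 2 V K) : ∃ s ∈ V, ∃ t ∈ V, ∃ n ∈ K, s * s = 1 ∧
    t * t = 1 ∧ s ≠ 1 ∧ t ≠ 1 ∧ s ≠ t ∧ s * t = t * s ∧ n * s * n⁻¹ = t ∧ n * t * n⁻¹ = s * t ∧
    ∀ v ∈ V, v * v = 1 := by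
  have c4 : Nat.card V = 2 ^ 2 := by
    rw [hV.card_eq_pow_factorization, hK.2]
    congr 1
    rw [show 660 = 2 ^ 2 * 165 from rfl, Nat.factorization_eq_of_coprime_left (by norm_num) (by simp),
      Nat.prime_two.factorization_pow, Finsupp.single_eq_same]
  have cm : ∀ x ∈ V, ∀ y ∈ V, x * y = y * x := fun x hx y hy =>
    congrArg Subtype.val ((IsPGroup.isMulCommutative_of_card_eq_prime_sq c4).is_comm.comm ⟨x, hx⟩ ⟨y, hy⟩)
  obtain ⟨n, hn, nN, nC⟩ := la2_burn hK hV fun e => by simp [e] at c4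
  obtain ⟨s, hs, ns⟩ : ∃ s ∈ V, n * s * n⁻¹ ≠ s := by
    by_contra m
    exact nC (mem_centralizer_iff_commute.2 fun s hs =>
      (mul_inv_eq_iff_eq_mul.1 (by_contra fun e => m ⟨s, hs, e⟩)).symm)
  have ht := conj_mem_of_mem_normalizer nN hs
  have hw := conj_mem_of_mem_normalizer nN ht
  have ws : n * (n * s * n⁻¹) * n⁻¹ ≠ s := fun e => by
    have : (V.subgroupOf (K ⊓ 𝐍(V))).Normal := normal_subgroupOf_of_le_normalizer inf_le_right
    have p : n ^ V.relIndex (K ⊓ 𝐍(V)) ∈ V := pow_index_mem (V.subgroupOf (K ⊓ 𝐍(V))) ⟨n, hn, nN⟩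
    obtain ⟨m, hm⟩ := Nat.odd_iff.2 (Nat.two_dvd_ne_zero.1
      (hV.mono (le_inf hV.le le_normalizer) inf_le_left).not_dvd_relIndex)
    have c2 : Commute (n ^ 2) s := by
      show _ * _ = _ * _
      rw [← mul_inv_eq_iff_eq_mul, ← e, sq]
      conv_lhs => rw [e]
      group
    have c1 : Commute (n ^ (2 * m + 1)) s := hm ▸ cm _ p s hs
    rw [pow_succ, pow_mul] at c1
    exact ns (mul_inv_eq_iff_eq_mul.2 (by simpa using ((c2.pow_left m).inv_left.mul_left c1).eq))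
  obtain ⟨t, et⟩ : ∃ t, t = n * s * n⁻¹ := ⟨_, rfl⟩
  rw [← et] at ht hw ns ws
  obtain ⟨w, ew⟩ : ∃ w, w = n * t * n⁻¹ := ⟨_, rfl⟩
  rw [← ew] at hw ws
  have s1 : s ≠ 1 := fun e => ns (by simp [et, e])
  have t1 : t ≠ 1 := by simpa [et] using s1
  have w1 : w ≠ 1 := by simpa [ew] using t1
  have wt : w ≠ t := fun e => ns (by simpa using ew.symm.trans (e.trans et))
  have all : ∀ x ∈ V, x = 1 ∨ x = s ∨ x = t ∨ x = w := fun x hx => by
    have : ({1, s, t, w} : Set G) = V := Set.eq_of_subset_of_ncard_le (by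
      rintro _ (rfl | rfl | rfl | rfl)
      exacts [one_mem _, hs, ht, hw]) (by
      rw [← Nat.card_coe_set_eq, SetLike.coe_sort_coe, c4, Set.ncard_insert_of_notMem (by simp [s1.symm, t1.symm, w1.symm]),
        Set.ncard_insert_of_notMem (by simp [ns.symm, ws.symm]), Set.ncard_pair wt.symm]
      norm_num)
    rwa [← SetLike.mem_coe, ← this] at hx
  have ss : s * s = 1 := by
    by_contra m
    have tt : t * t ≠ 1 := by simpa [et, conj_mul] using m
    have ww : w * w ≠ 1 := by simpa [ew, conj_mul] using tt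
    have p : s * s * (s * s) = 1 := by
      have := pow_card_eq_one' (x := (⟨s, hs⟩ : V))
      rw [c4, Subtype.ext_iff] at this
      simpa [pow_succ, mul_assoc] using this
    rcases all _ (mul_mem hs hs) with e | e | e | e
    exacts [m e, s1 (by simpa using e), tt (e ▸ p), ww (e ▸ p)]
  have tt : t * t = 1 := by simp [et, ss]
  have ww : w * w = 1 := by simp [ew, tt]
  refine ⟨s, hs, t, ht, n, hn, ss, tt, s1, t1, ns.symm, cm s hs t ht, et.symm, ?_, fun v hv => ?_⟩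
  · rcases all _ (mul_mem hs ht) with e | e | e | e
    · exact absurd (mul_left_cancel (e.trans ss.symm)) ns
    · exact absurd (by simpa using e) t1
    · exact absurd (by simpa using e) s1
    · rw [e, ew]
  · rcases all v hv with rfl | rfl | rfl | rfl
    exacts [mul_one 1, ss, tt, ww]

theorem lb_four {K : Subgroup G} (hK : LTy K) : ∃ s ∈ K, ∃ t ∈ K, ∃ n ∈ K, s * s = 1 ∧ t * t = 1 ∧
    s ≠ 1 ∧ t ≠ 1 ∧ s ≠ t ∧ s * t = t * s ∧ n * s * n⁻¹ = t ∧ n * t * n⁻¹ = s * t := by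
  obtain ⟨V, hV⟩ := exists_isSylowIn 2 K
  obtain ⟨s, hs, t, ht, n, hn, a, b, c, d, e, f, g, h, -⟩ := lb2_syl hK hV
  exact ⟨s, hV.le hs, t, hV.le ht, n, hn, a, b, c, d, e, f, g, h⟩

theorem lb_exp (hG : Geo ρ) {K : Subgroup G} (hK : LTy K) {a : Ω} (ha : ρ a ≤ K) {u : G}
    (hu : u ∈ 𝐍(K)) (h2 : u * u = 1) (h10 : Mu ρ u a 10) :
    ∃ v ∈ K, (u * v) ^ 4 = 1 ∧ (u * v) ^ 2 ≠ 1 := by
  obtain ⟨T, hT, uT⟩ := exists_isSylowIn_le (p := 2) (R := zpowers u) (L := 𝐍(K)) (isPGroup_iff_mem.2 (by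
    rintro _ ⟨i, rfl⟩
    exact ⟨1, by show (u ^ i) ^ 2 = 1; rw [← zpow_natCast, zpow_comm, zpow_natCast, sq, h2, one_zpow]⟩))
    (zpowers_le.2 hu)
  have hV := hT.inf_normal le_normalizer le_rfl
  have uN : u ∈ 𝐍(T ⊓ K) := le_normalizer_inf (uT.trans le_normalizer) (zpowers_le.2 hu) (mem_zpowers u)
  obtain ⟨s, hs, t, ht, n, -, ss, tt, s1, t1, st, cm, -, -, all⟩ := lb2_syl hK hV
  have ui : u⁻¹ = u := inv_eq_of_mul_eq_one_right h2
  by_contra m
  have k : ∀ v ∈ T ⊓ K, v ≠ 1 → ρ (v • a) ≤ K ∧ v • a ≠ a ∧ u • v • a = v • a := fun v hv v1 => by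
    have e : (u * v) ^ 2 = u * v * u⁻¹ * v := by rw [ui, sq, mul_assoc (u * v)]
    have c : (u * v) ^ 2 = 1 := by_contra fun p => m ⟨v, hv.2, by
      rw [show 4 = 2 * 2 from rfl, pow_mul, sq, e]
      exact all _ (mul_mem (conj_mem_of_mem_normalizer uN hv) hv), p⟩
    have c' : u * v = v * u := by
      rw [e, ← all v hv, mul_left_inj, mul_inv_eq_iff_eq_mul] at c
      exact c
    exact ⟨hG.le_mem hv.2 ha, la_inv hG hK ha hv.2 (all v hv) v1, by rw [← mul_smul, c', mul_smul, hG.mu_fix h10]⟩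
  obtain ⟨b, -, ub⟩ := la_fix hG hK ha hu h10 (by norm_num)
  have e1 := ub _ (k s hs s1)
  have e2 := ub _ (k _ (mul_mem hs ht) fun e => st (mul_left_cancel (ss.trans e.symm)))
  rw [← e1, mul_smul] at e2
  exact (k t ht t1).2.1 (smul_left_cancel s e2)

end H30.E11
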