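import Cfsg.Agent.Lib.E11.JA
import Cfsg.Agent.Lib.E11.AV
import Cfsg.Agent.Lib.E11.LB2

set_option autoImplicit false

namespace H30.E11

open Subgroup H69

variable {G Ω : Type} [Group G] [Finite G] [MulAction G Ω] [Finite Ω] {ρ : Ω → Subgroup G}

theorem jb1_ord (hG : Geo ρ) {K : Subgroup G} (hK : JTy K) {a : Ω} (ha : ρ a ≤ K)
    {x : G} (hx : x ∈ K) {k : ℕ} (hk : k = 2 ∨ k = 6 ∨ k = 7 ∨ k = 8) (h : Mu ρ x a k) :
    x ^ 10 = 1 ∧ orderOf (x ^ 5) = 2 ∧ orderOf (x ^ 6) = 5 := by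
  have := Fact.mk Nat.prime_five
  have e : x ^ 10 = 1 := ja_ord hG hK ha hx h (by omega) (by rcases hk with rfl | rfl | rfl | rfl <;> norm_num)
  refine ⟨e, orderOf_eq_prime (by rw [← pow_mul, e]) (ja_ne hG (h.pow 5) ?_),
    orderOf_eq_prime (by rw [← pow_mul, show 6 * 5 = 10 * 3 from rfl, pow_mul, e, one_pow]) (ja_ne hG (h.pow 6) ?_)⟩ <;>
    rcases hk with rfl | rfl | rfl | rfl <;> norm_num

theorem jb_same (hG : Geo ρ) {K : Subgroup G} (hK : JTy K) {a b : Ω} (ha : ρ a ≤ K) (hb : ρ b ≤ K)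
    {x : G} (hx : x ∈ K) {k : ℕ} (hk : k % 11 = 2 ∨ k % 11 = 6 ∨ k % 11 = 7 ∨ k % 11 = 8)
    (h : Mu ρ x a k) (h' : Mu ρ x b k) : a = b := by
  replace h := hG.mu_mod h (k % 11) (Nat.mod_mod _ _).symm
  replace h' := hG.mu_mod h' (k % 11) (Nat.mod_mod _ _).symm
  generalize k % 11 = m at hk h h'
  obtain ⟨e, o2, o5⟩ := jb1_ord hG hK ha hx hk h
  obtain ⟨y, hy, rfl⟩ := hG.line_tr (Or.inr hK) ha hb
  have m1 := hG.mu_cj h' y⁻¹
  rw [inv_smul_smul] at m1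
  obtain ⟨q, hq, f⟩ := hG.affine h (by omega) (ja_cenK hG hK ha
    (mul_mem (mul_mem (mul_mem (inv_mem hy) hx) (inv_mem (inv_mem hy))) (pow_mem hx 9))
    (hG.mu_mod (m1.mul (h.pow 9)) 1 (by rcases hk with rfl | rfl | rfl | rfl <;> norm_num)))
  rw [mul_assoc, ← pow_succ, e, mul_one] at f
  have c : Commute (y * q) x := by
    calc y * q * x = y * (q * x * q⁻¹) * q := by group
      _ = _ := by rw [← f]; group
  obtain ⟨i, j, g⟩ := hK.jf.c10 _ (pow_mem hx 5) _ (pow_mem hx 6) o2 o5 ((Commute.refl x).pow_pow 5 6) _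
    (mul_mem hy (ha hq)) (c.pow_right 5) (c.pow_right 6)
  have := hG.mu_fix (((h.pow 5).pow i).mul ((h.pow 6).pow j))
  rw [← g, mul_smul, hG.mu_fix (hG.mu_mem hq)] at this
  exact this.symm

theorem jb_opp (hG : Geo ρ) {K : Subgroup G} (hK : JTy K) {a : Ω} (ha : ρ a ≤ K) {g : G}
    (hg : g ∈ 𝐍(K)) (h8 : Mu ρ g a 8) : ∃ b, b ≠ a ∧ g • b = b ∧ ρ a ⊔ ρ b = K := by
  obtain ⟨x, hx, c, -, -, -, h⟩ := ja_dec hG hK hg
  have m8 := ((h a ha).2 8).1 h8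
  obtain ⟨e, o2, o5⟩ := jb1_ord hG hK ha hx (by omega) m8
  obtain ⟨σ, hσ, s1, s2⟩ := hK.jf.sig _ (pow_mem hx 5) _ (pow_mem hx 6) o2 o5 ((Commute.refl x).pow_pow 5 6)
  have s3 : σ * x⁻¹ * σ⁻¹ = x := by
    calc _ = σ * (x ^ 5 * (x ^ 6)⁻¹) * σ⁻¹ := by group
      _ = σ * x ^ 5 * σ⁻¹ * (σ * x ^ 6 * σ⁻¹)⁻¹ := by group
      _ = x ^ 10 * x := by rw [s1, s2]; group
      _ = _ := by rw [e, one_mul]
  have m7 := hG.mu_cj (hG.mu_inv m8 7 (by norm_num)) σ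
  rw [s3] at m7
  have hb := hG.le_mem hσ ha
  have ne : σ • a ≠ a := fun f => absurd (hG.mu_uniq m8 (f ▸ m7)) (by norm_num)
  refine ⟨_, ne, (h _ hb).1.trans (hG.mu_fix m7), ?_⟩
  rcases hG.pair a _ ne.symm with l | l
  · obtain ⟨v, hv, v4, v2⟩ := lb_exp hG l le_sup_left (hG.norm_fix (hG.mu_fix (m8.pow 5)) (hG.mu_fix (m7.pow 5)))
      (by rw [← pow_add, e]) (hG.mu_mod (m8.pow 5) 10 (by norm_num))
    exact absurd (ja_four hK (mul_mem (pow_mem hx 5) (sup_le ha hb hv)) v4) v2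
  · exact line_eq_J l (Or.inr hK) (sup_le ha hb)

theorem jb_odd (hG : Geo ρ) {K : Subgroup G} (hK : JTy K) {b : Ω} (hb : ρ b ≤ K) {g : G}
    (hg : g ∈ 𝐍(K)) {k : ℕ} (hk : k = 3 ∨ k = 4) (h : Mu ρ g b k) :
    Odd {d | ρ d ≤ K ∧ Mu ρ g d k}.ncard := by
  obtain ⟨u, hu, u2, c, m⟩ : ∃ u ∈ K, u * u = 1 ∧ u * g = g * u ∧ Mu ρ u b 10 := by
    rcases hk with rfl | rfl
    · exact ja_u hG hK hb hg h
    · obtain ⟨u, hu, u2, c, m⟩ := ja_u hG hK hb (inv_mem hg) (hG.mu_inv h 3 (by norm_num))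
      exact ⟨u, hu, u2, Commute.inv_right_iff.1 c, m⟩
  obtain ⟨x, hx, -, -, -, -, hd⟩ := ja_dec hG hK hg
  have p := fix_par {d | ρ d ≤ K ∧ Mu ρ g d k} (Set.toFinite _) (fun d => u • d)
    (fun d h => ⟨hG.le_mem hu h.1, by simpa [c] using hG.mu_cj h.2 u⟩)
    fun d _ => by simp only [← mul_smul, u2, one_smul]
  have e : {y | y ∈ {d | ρ d ≤ K ∧ Mu ρ g d k} ∧ u • y = y} = {b} := by
    refine Set.eq_singleton_iff_unique_mem.2 ⟨⟨⟨hb, h⟩, hG.mu_fix m⟩, fun d ⟨⟨d1, d2⟩, d3⟩ => ?_⟩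
    rcases hG.mu_two u2 d3 with f | f
    · have := hG.pow11 (ja_cenK hG hK d1 hu f)
      rw [show 11 = 2 * 5 + 1 from rfl, pow_succ, pow_mul, pow_two, u2, one_pow, one_mul] at this
      exact absurd this (ja_ne hG m (by norm_num))
    · exact jb_same hG hK d1 hb (mul_mem hu hx) (by omega) (f.mul (((hd d d1).2 k).1 d2))
        (m.mul (((hd b hb).2 k).1 h))
  rw [e, Set.ncard_singleton] at p
  exact Nat.odd_iff.2 p.symm

end H30.E11
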