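import Cfsg.Agent.Lib.E11.JB1
import Cfsg.Agent.Lib.E11.LA2

set_option autoImplicit false
set_option linter.unusedSectionVars false

namespace H30.E11

open Subgroup H69

variable {G Ω : Type} [Group G] [Finite G] [MulAction G Ω] [Finite Ω] {ρ : Ω → Subgroup G}

set_option synthInstance.maxSize 10000 in
theorem JB2_key0 : ∀ k : ℕ, k < 11 → ∀ k' : ℕ, k' < 11 → 1 < k → 1 < k' →
    (k ^ 2 % 11 = 1 ↔ k' ^ 2 % 11 = 1) → (k ^ 5 % 11 = 1 ↔ k' ^ 5 % 11 = 1) →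
    (k * k' % 11 = 1 ∨ (k = k' ∧ k ^ 5 % 11 = 1)) ∨
      (k = k' ∧ (k % 11 = 2 ∨ k % 11 = 6 ∨ k % 11 = 7 ∨ k % 11 = 8)) ∨
      (k ^ 2 % 11 ≠ 1 ∧ (k ^ 2 % 11 = k' ∨ k ^ 3 % 11 = k' ∨ k ^ 7 % 11 = k')) := by
  intro k hk k' hk' h1 h1'
  interval_cases k <;> interval_cases k' <;> norm_num

theorem JB2_ten : ∀ k : ℕ, k < 11 → 1 < k → k ^ 10 % 11 = 1 ∧ k * k ^ 9 % 11 = 1 := by
  intro k hk h1
  interval_cases k <;> norm_num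

theorem JB2_key (k : ℕ) (hk : k < 11) (k' : ℕ) (hk' : k' < 11) (h0 : k ≠ 0) (h0' : k' ≠ 0)
    (h1 : k ≠ 1) (h1' : k' ≠ 1)
    (h2 : k ^ 2 % 11 = 1 ↔ k' ^ 2 % 11 = 1) (h5 : k ^ 5 % 11 = 1 ↔ k' ^ 5 % 11 = 1) :
    (k * k' % 11 = 1 ∨ (k = k' ∧ k ^ 5 % 11 = 1)) ∨
      (k = k' ∧ (k % 11 = 2 ∨ k % 11 = 6 ∨ k % 11 = 7 ∨ k % 11 = 8)) ∨
      (k ^ 2 % 11 ≠ 1 ∧ k ^ 10 % 11 = 1 ∧ k' * k' ^ 9 % 11 = 1 ∧
        ∃ j : ℕ, j < 10 ∧ (j % 5 = 2 ∨ j % 5 = 3) ∧ k ^ j % 11 = k') := by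
  rcases JB2_key0 k hk k' hk' (by omega) (by omega) h2 h5 with e | e | ⟨e, e'⟩
  · exact Or.inl e
  · exact Or.inr (Or.inl e)
  · refine Or.inr (Or.inr ⟨e, (JB2_ten k hk (by omega)).1, (JB2_ten k' hk' (by omega)).2, ?_⟩)
    rcases e' with e' | e' | e'
    · exact ⟨2, by norm_num, by norm_num, e'⟩
    · exact ⟨3, by norm_num, by norm_num, e'⟩
    · exact ⟨7, by norm_num, by norm_num, e'⟩

theorem JB2_five : ∀ j : ℕ, j < 10 → (j % 5 = 2 ∨ j % 5 = 3) →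
    ∀ n ∈ [1, 2, 3, 5, 6, 7, 10, 11, 15, 19], j ^ n % 5 ≠ 1 % 5 := by
  decide +kernel

theorem JB2_red (hG : Geo ρ) {K : Subgroup G} (hK : JTy K) {a b : Ω} (ha : ρ a ≤ K) (hb : ρ b ≤ K)
    (hab : a ≠ b) {g : G} (hg : g ∈ K) {k k' : ℕ} (k1 : k < 11) (k1' : k' < 11)
    (h : Mu ρ g a k) (h' : Mu ρ g b k') :
    k * k' % 11 = 1 ∨ (k = k' ∧ k ^ 5 % 11 = 1) := by
  have m : k % 11 = k := Nat.mod_eq_of_lt k1
  have m' : k' % 11 = k' := Nat.mod_eq_of_lt k1'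
  have one : g = 1 → k * k' % 11 = 1 := fun e => by
    have e1 := hG.mu_uniq h (e ▸ mu_one a)
    have e2 := hG.mu_uniq h' (e ▸ mu_one b)
    rw [m] at e1
    rw [m'] at e2
    rw [e1, e2]
  by_cases e1 : k = 1
  · subst e1
    exact Or.inl (one (hG.semi (ja_cenK hG hK ha hg h) hab.symm (hG.mu_fix h')))
  by_cases e2 : k' = 1
  · subst e2
    exact Or.inl (one (hG.semi (ja_cenK hG hK hb hg h') hab (hG.mu_fix h)))
  have ho : ∀ n : ℕ, k ^ n % 11 = 1 ↔ k' ^ n % 11 = 1 := fun n =>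
    ⟨fun e => hG.mu_uniq (h'.pow n) ((ja_ord hG hK ha hg h (by rwa [m]) e) ▸ mu_one b),
      fun e => hG.mu_uniq (h.pow n) ((ja_ord hG hK hb hg h' (by rwa [m']) e) ▸ mu_one a)⟩
  rcases JB2_key k k1 k' k1' (m ▸ hG.mu_ne h) (m' ▸ hG.mu_ne h') e1 e2 (ho 2) (ho 5) with
    e | ⟨e, e'⟩ | ⟨k2, k10, k9, j, j10, j5, hj⟩
  · exact e
  · subst e
    exact absurd (jb_same hG hK ha hb hg e' h h') hab
  exfalso
  obtain ⟨y, hy, rfl⟩ := hG.line_tr (Or.inr hK) ha hb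
  have m1 : Mu ρ (y⁻¹ * g * y⁻¹⁻¹) a k' := by
    have := hG.mu_cj h' y⁻¹
    rwa [inv_smul_smul] at this
  have m2 : Mu ρ (g ^ j) a k' := hG.mu_mod (h.pow j) k' (by rw [hj, m'])
  have m3 : Mu ρ (y⁻¹ * g * y⁻¹⁻¹ * (g ^ j)⁻¹) a 1 :=
    hG.mu_mod (m1.mul (hG.mu_inv m2 (k' ^ 9) k9)) 1 k9
  have hp := ja_cenK hG hK ha (mul_mem (mul_mem (mul_mem (inv_mem hy) hg) (inv_mem (inv_mem hy)))
    (inv_mem (pow_mem hg j))) m3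
  obtain ⟨q, hq, e⟩ := hG.affine m2 (by rwa [m']) hp
  have ew : (y * q)⁻¹ * g * (y * q)⁻¹⁻¹ = g ^ j := by
    calc (y * q)⁻¹ * g * (y * q)⁻¹⁻¹
        = q⁻¹ * (y⁻¹ * g * y⁻¹⁻¹ * (g ^ j)⁻¹ * g ^ j) * q := by group
      _ = g ^ j := by rw [e]; group
  have hw : (y * q)⁻¹ ∈ K := inv_mem (mul_mem hy (ha hq))
  generalize (y * q)⁻¹ = w at ew hw
  have g10 : g ^ 10 = 1 := ja_ord hG hK ha hg h (by rwa [m]) k10
  haveI : Fact (Nat.Prime 5) := ⟨by norm_num⟩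
  have o5 : orderOf (g ^ 2) = 5 := orderOf_eq_prime (by rw [← pow_mul, g10])
    fun e => k2 (hG.mu_uniq (h.pow 2) (e ▸ mu_one a))
  have e2 : w * g ^ 2 * w⁻¹ = (g ^ 2) ^ j := by
    rw [← conj_pow, ew, ← pow_mul, ← pow_mul, mul_comm]
  generalize g ^ 2 = t at o5 e2
  have en : ∀ n : ℕ, w ^ n * t * (w ^ n)⁻¹ = t ^ j ^ n := fun n => by
    induction n with
    | zero => simp
    | succ n ih =>
      have : w ^ (n + 1) * t * (w ^ (n + 1))⁻¹ = w ^ n * (w * t * w⁻¹) * (w ^ n)⁻¹ := by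
        rw [pow_succ]; group
      rw [this, e2, ← conj_pow, ih, ← pow_mul, pow_succ]
  have e3 := en (orderOf w)
  rw [pow_orderOf_eq_one, one_mul, inv_one, mul_one] at e3
  have e4 : t ^ j ^ orderOf w = t ^ 1 := by rw [pow_one]; exact e3.symm
  rw [pow_eq_pow_iff_modEq, o5] at e4
  exact JB2_five j j10 j5 _ (hK.jf.ord w hw) e4

theorem jb_col (hG : Geo ρ) {K : Subgroup G} (hK : JTy K) {a b : Ω} (ha : ρ a ≤ K) (hb : ρ b ≤ K)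
    (hab : a ≠ b) {g : G} (hg : g ∈ 𝐍(K)) {k k' : ℕ} (h : Mu ρ g a k) (h' : Mu ρ g b k') :
    k * k' % 11 = 1 ∨ (k % 11 = k' % 11 ∧ k ^ 5 % 11 = 1) := by
  obtain ⟨g0, hg0, c, -, -, -, hm⟩ := ja_dec hG hK hg
  have h1 : Mu ρ g0 a (k % 11) := hG.mu_mod (((hm a ha).2 k).1 h) _ (by simp)
  have h2 : Mu ρ g0 b (k' % 11) := hG.mu_mod (((hm b hb).2 k').1 h') _ (by simp)
  rcases JB2_red hG hK ha hb hab hg0 (Nat.mod_lt _ (by norm_num)) (Nat.mod_lt _ (by norm_num))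
    h1 h2 with e | ⟨e, e'⟩
  · left
    rwa [← Nat.mul_mod] at e
  · right
    exact ⟨e, by rwa [← Nat.pow_mod] at e'⟩

theorem Geo.col (hG : Geo ρ) {a b : Ω} (hab : a ≠ b) {g : G} {k k' : ℕ} (h : Mu ρ g a k)
    (h' : Mu ρ g b k') :
    k * k' % 11 = 1 ∨ (JTy ↥(ρ a ⊔ ρ b) ∧ k % 11 = k' % 11 ∧ k ^ 5 % 11 = 1) := by
  rcases hG.pair a b hab with hK | hK
  · exact Or.inl (la_col hG hK le_sup_left le_sup_right hab h h')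
  · exact (jb_col hG hK le_sup_left le_sup_right hab
      (hG.norm_fix (hG.mu_fix h) (hG.mu_fix h')) h h').imp id fun e => ⟨hK, e⟩

/-- the type lemma -/
theorem Geo.typ (hG : Geo ρ) {a b : Ω} {g : G} (h : Mu ρ g a 1) (hb : g • b = b) : Mu ρ g b 1 := by
  by_cases hab : a = b
  · exact hab ▸ h
  obtain ⟨k, -, -, hk⟩ := hG.exMu hb
  refine hG.mu_mod hk 1 ?_
  rcases hG.col hab h hk with e | ⟨-, e, -⟩
  · rwa [one_mul] at e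
  · exact e.symm

end H30.E11
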