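import Cfsg.Agent.Lib.E11.Bas
import Cfsg.Agent.Lib.J1.Cent

set_option autoImplicit false

namespace H30.E11

open Subgroup H69

variable {G Ω : Type} [Group G] [Finite G] [MulAction G Ω] [Finite Ω] {ρ : Ω → Subgroup G}

theorem jm_perm : ∀ h : Equiv.Perm (Fin 5), h ^ 5 = 1 → h ≠ 1 →
    (∀ c : Equiv.Perm (Fin 5), c * h = h * c → ∃ j : Fin 5, c = h ^ j.1) ∧
      ∃ τ : Equiv.Perm (Fin 5), h * (τ * τ) * h = τ * τ := by
  decide +kernel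

theorem jm_two : ∀ ε δ : Multiplicative (ZMod 2), ε ≠ 1 → δ = ε ^ 0 ∨ δ = ε ^ 1 := by decide

theorem jm_five : ∀ η : Multiplicative (ZMod 2), η ^ 5 = 1 → η = 1 := by decide

theorem jm_prod {u h : Multiplicative (ZMod 2) × alternatingGroup (Fin 5)} (u2 : u ^ 2 = 1)
    (u1 : u ≠ 1) (h5 : h ^ 5 = 1) (h1 : h ≠ 1) (uh : u * h = h * u) :
    (∀ c, c * h = h * c → ∃ i j : ℕ, c = u ^ i * h ^ j) ∧ ∃ σ, σ * h * σ⁻¹ = h⁻¹ := by
  obtain ⟨ε, x, hx⟩ := u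
  obtain ⟨η, y, hy⟩ := h
  obtain rfl : η = 1 := jm_five η (congrArg Prod.fst h5)
  have y5 : y ^ 5 = 1 := congrArg (fun z => z.2.1) h5
  obtain ⟨hc, τ, hτ⟩ := jm_perm y y5 fun e => h1 (Prod.ext rfl (Subtype.ext e))
  obtain rfl : x = 1 := by
    obtain ⟨j, hj⟩ := hc x (congrArg (fun z => z.2.1) uh)
    have x2 : x ^ 2 = 1 := congrArg (fun z => z.2.1) u2
    have x5 : x ^ 5 = 1 := by rw [hj, ← pow_mul, mul_comm, pow_mul, y5, one_pow]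
    have x6 : x ^ (2 * 2 + 1) = 1 := x5
    rwa [pow_succ, pow_mul, x2, one_pow, one_mul] at x6
  have ε1 : ε ≠ 1 := fun e => u1 (Prod.ext e rfl)
  refine ⟨fun ⟨δ, w, hw⟩ c => ?_, (1, ⟨τ * τ, by
    rw [Equiv.Perm.mem_alternatingGroup, map_mul, Int.units_mul_self]⟩), ?_⟩
  · obtain ⟨j, hj⟩ := hc w (congrArg (fun z => z.2.1) c)
    rcases jm_two ε δ ε1 with e | e
    · exact ⟨0, j, Prod.ext (by simpa using e) (Subtype.ext (by simpa using hj))⟩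
    · exact ⟨1, j, Prod.ext (by simpa using e) (Subtype.ext (by simpa using hj))⟩
  · refine Prod.ext (by simp) (Subtype.ext ?_)
    change τ * τ * y * (τ * τ)⁻¹ = y⁻¹
    rw [mul_inv_eq_iff_eq_mul, eq_inv_mul_iff_mul_eq, ← mul_assoc, hτ]

theorem jm_cent {X : Type*} [Group X] (e : X ≃* Cfsg.Spor.J1) {u h : X} (hu : orderOf u = 2)
    (hh : orderOf h = 5) (uh : u * h = h * u) :
    (∀ c, c * u = u * c → c * h = h * c → ∃ i j : ℕ, c = u ^ i * h ^ j) ∧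
      ∃ σ, σ * u = u * σ ∧ σ * h * σ⁻¹ = h⁻¹ := by
  obtain ⟨t, r⟩ := H15.J1M.exists_tt
  obtain ⟨f⟩ := H15.J1M.cent_tt_equiv r
  obtain ⟨g, hg⟩ := isConj_iff.1 (H15.J1M.isConj_tt r (e u) (by rw [e.orderOf_eq, hu]))
  obtain ⟨ψ, hψ⟩ : ∃ ψ : X ≃* Cfsg.Spor.J1, ψ u = t := ⟨e.trans (MulAut.conj g), hg⟩
  subst hψ
  have m : ∀ {c : X}, c * u = u * c → ψ c ∈ centralizer {ψ u} := fun c =>
    mem_centralizer_singleton_iff.2 (by rw [← map_mul, c, map_mul])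
  have one : ∀ {c : X} {hc}, f ⟨ψ c, hc⟩ = 1 → c = 1 := fun e =>
    ψ.map_eq_one_iff.1 (congrArg Subtype.val (f.map_eq_one_iff.1 e))
  have pw : ∀ {c : X} {hc} {n : ℕ}, c ^ n = 1 → f ⟨ψ c, hc⟩ ^ n = 1 := fun e => by
    rw [← map_pow, f.map_eq_one_iff]
    exact Subtype.ext (by rw [coe_pow, ← map_pow, e, map_one, coe_one])
  have cm : ∀ {c d : X} {hc hd}, c * d = d * c →
      f ⟨ψ c, hc⟩ * f ⟨ψ d, hd⟩ = f ⟨ψ d, hd⟩ * f ⟨ψ c, hc⟩ := fun e => by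
    rw [← map_mul, ← map_mul]
    exact congrArg f (Subtype.ext (by rw [coe_mul, coe_mul, ← map_mul, e, map_mul]))
  obtain ⟨h1, σ, h2⟩ := jm_prod (u := f ⟨ψ u, m rfl⟩) (h := f ⟨ψ h, m uh.symm⟩)
    (pw (hu ▸ pow_orderOf_eq_one u)) (fun e => by rw [one e, orderOf_one] at hu; omega)
    (pw (hh ▸ pow_orderOf_eq_one h)) (fun e => by rw [one e, orderOf_one] at hh; omega) (cm uh)
  refine ⟨fun c cu ch => ?_, ?_⟩
  · obtain ⟨i, j, e⟩ := h1 (f ⟨ψ c, m cu⟩) (cm ch)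
    rw [← map_pow, ← map_pow, ← map_mul] at e
    refine ⟨i, j, ψ.injective ?_⟩
    rw [map_mul, map_pow, map_pow]
    exact congrArg Subtype.val (f.injective e)
  · obtain ⟨⟨s, hs⟩, rfl⟩ := f.surjective σ
    obtain ⟨s, rfl⟩ := ψ.surjective s
    rw [← map_inv, ← map_inv, ← map_mul, ← map_mul] at h2
    refine ⟨s, ψ.injective ?_, ψ.injective ?_⟩
    · rw [map_mul, map_mul]
      exact mem_centralizer_singleton_iff.1 hs
    · rw [map_mul, map_mul, map_inv, map_inv]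
      exact congrArg Subtype.val (f.injective h2)

theorem JTy.jf {K : Subgroup G} (h : JTy K) : JF K := by
  obtain ⟨e⟩ := id h
  have o : ∀ {x : G} (hx : x ∈ K), orderOf (e ⟨x, hx⟩) = orderOf x := fun hx => by
    rw [e.orderOf_eq, orderOf_mk]
  refine ⟨h.simple, h.card, fun x hx => o hx ▸ H15.J1M.orderOf_mem _, fun s hs t ht o1 o2 => ?_,
    fun g hg => ?_, fun u hu x hx o1 o2 c d hd c1 c2 => ?_, fun u hu x hx o1 o2 c => ?_⟩
  · obtain ⟨z, r⟩ := H15.J1M.exists_tt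
    obtain ⟨k, hk⟩ := isConj_iff.1 ((H15.J1M.isConj_tt r _ ((o hs).trans o1)).trans
      (H15.J1M.isConj_tt r _ ((o ht).trans o2)).symm)
    obtain ⟨k, rfl⟩ := e.surjective k
    rw [← map_inv, ← map_mul, ← map_mul] at hk
    exact ⟨k, k.2, congrArg Subtype.val (e.injective hk)⟩
  · have hI : Cfsg.Inn Cfsg.Spor.J1 = ⊤ := index_eq_one.1 H15.J1M.card_Out_J1
    obtain ⟨j, hj⟩ : (e.symm.trans (K.normalizerMonoidHom ⟨g, hg⟩)).trans e ∈
        Cfsg.Inn Cfsg.Spor.J1 := hI ▸ mem_top _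
    obtain ⟨m, rfl⟩ := e.surjective j
    refine ⟨m, m.2, fun x hx => ?_⟩
    have h1 := congrArg (fun φ : MulAut Cfsg.Spor.J1 => φ (e ⟨x, hx⟩)) hj
    simp only [MulAut.conj_apply, MulEquiv.trans_apply, MulEquiv.symm_apply_apply] at h1
    rw [← map_inv, ← map_mul, ← map_mul] at h1
    have h2 : (m : G) * x * (m : G)⁻¹ = g * x * g⁻¹ := congrArg Subtype.val (e.injective h1)
    calc x * ((m : G)⁻¹ * g) = (m : G)⁻¹ * ((m : G) * x * (m : G)⁻¹) * g := by group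
      _ = _ := by rw [h2]; group
  · obtain ⟨i, j, e'⟩ := (jm_cent e (u := ⟨u, hu⟩) (h := ⟨x, hx⟩) (by rwa [orderOf_mk])
      (by rwa [orderOf_mk]) (Subtype.ext c)).1 ⟨d, hd⟩ (Subtype.ext c1) (Subtype.ext c2)
    exact ⟨i, j, congrArg Subtype.val e'⟩
  · obtain ⟨σ, e1, e2⟩ := (jm_cent e (u := ⟨u, hu⟩) (h := ⟨x, hx⟩) (by rwa [orderOf_mk])
      (by rwa [orderOf_mk]) (Subtype.ext c)).2
    exact ⟨σ, σ.2, congrArg Subtype.val e1, congrArg Subtype.val e2⟩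

end H30.E11
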