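import Cfsg.Agent.Lib.E11.JB2
import Cfsg.Agent.Lib.E11.AV

set_option autoImplicit false

namespace H30.E11

open Subgroup H69

variable {G Ω : Type} [Group G] [Finite G] [MulAction G Ω] [Finite Ω] {ρ : Ω → Subgroup G}

theorem js1_mu7 (hG : Geo ρ) {a b : Ω} {g : G} (h : Mu ρ g a 8) (hb : g • b = b) (hba : b ≠ a) :
    Mu ρ g b 7 := by
  obtain ⟨k, k0, k1, hk⟩ := hG.exMu hb
  rcases hG.col hba.symm h hk with e | ⟨-, -, e⟩
  · exact hG.mu_mod hk 7 (by omega)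
  · norm_num at e

theorem js_fix8 (hG : Geo ρ) {a b c : Ω} {g : G} (h : Mu ρ g a 8) (hb : g • b = b) (hc : g • c = c)
    (hba : b ≠ a) (hca : c ≠ a) : b = c := by
  by_contra ne
  rcases hG.col ne (js1_mu7 hG h hb hba) (js1_mu7 hG h hc hca) with e | ⟨-, -, e⟩ <;> norm_num at e

theorem js_tr (hG : Geo ρ) {K K' : Subgroup G} (hK : JTy K) (hK' : JTy K') {a : Ω} (ha : ρ a ≤ K)
    (ha' : ρ a ≤ K') : ∃ c, Mu ρ c a 1 ∧ K ^ᶜ c = K' := by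
  obtain ⟨x, hx, x8⟩ := ja_ex hG hK ha
  obtain ⟨x', hx', x8'⟩ := ja_ex hG hK' ha'
  obtain ⟨b, ba, xb, eK⟩ := jb_opp hG hK ha (le_normalizer hx) x8
  obtain ⟨b', ba', xb', eK'⟩ := jb_opp hG hK' ha' (le_normalizer hx') x8'
  have ne : ∀ d ∈ 𝐂(ρ a), d • b ≠ a := fun d hd e =>
    ba (smul_left_cancel d (e.trans (hG.mu_fix (mu_one_iff.2 hd)).symm))
  obtain ⟨d, hd, e⟩ := av_fix (fun (g : G) (y : Ω) => g • y) (one_smul G) mul_smul 𝐂(ρ a) x b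
    ⟨1, one_mem _, by rw [xb, one_smul]⟩
    (normalizer_le_normalizer_centralizer _ (hG.fix_iff.1 (hG.mu_fix x8)))
    (fun c hc d hd e he h1 h2 => js_fix8 hG (x8.mul (mu_one_iff.2 hc)) h1 h2 (ne d hd) (ne e he))
    (x⁻¹ * x') (mu_one_iff.1 (hG.mu_mod ((hG.mu_inv x8 7 (by norm_num)).mul x8') 1 (by norm_num)))
  rw [mul_inv_cancel_left] at e
  refine ⟨d, mu_one_iff.2 hd, ?_⟩
  rw [← eK, hG.sup_cj, hG.mu_fix (mu_one_iff.2 hd), js_fix8 hG x8' e xb' (ne d hd) ba', eK']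

theorem js_dh (hG : Geo ρ) {K : Subgroup G} (hK : JTy K) {a b : Ω} (ha : ρ a ≤ K) {g : G}
    (hg : g ∈ 𝐍(K)) (h3 : Mu ρ g a 3) (hb : g • b = b) : ρ b ≤ K := by
  by_cases ba : b = a
  · rw [ba]; exact ha
  obtain ⟨k, k0, k1, hk⟩ := hG.exMu hb
  have k34 : k = 3 ∨ k = 4 := by
    rcases hG.col (Ne.symm ba) h3 hk with e | ⟨-, e, -⟩ <;> omega
  obtain ⟨u, hu, u2, ug, u10⟩ := ja_u hG hK ha hg h3
  have w8 : Mu ρ (g * u) a 8 := hG.mu_mod (h3.mul u10) 8 (by norm_num)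
  obtain ⟨b0, b0a, wb, eK⟩ := jb_opp hG hK ha (mul_mem hg (le_normalizer hu)) w8
  have fx : ∀ d, (g * u) • d = d → d = a ∨ d = b0 := fun d hd =>
    or_iff_not_imp_left.2 fun da => js_fix8 hG w8 hd wb da b0a
  by_cases ub : u • b = b
  · rw [(fx b (by rw [mul_smul, ub, hb])).resolve_left ba, ← eK]; exact le_sup_right
  have cj : ∀ d, Mu ρ g d k → Mu ρ g (u • d) k := fun d hd => by
    have := hG.mu_cj hd u
    rwa [ug, mul_inv_cancel_right] at this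
  have uu : ∀ d : Ω, u • u • d = d := fun d => by rw [smul_smul, u2, one_smul]
  have J1 : JTy ↥(ρ b ⊔ ρ (u • b)) := by
    rcases hG.col (Ne.symm ub) hk (cj b hk) with e | ⟨e, -⟩
    · rcases k34 with rfl | rfl <;> norm_num at e
    · exact e
  have g1 := hG.norm_fix hb (hG.mu_fix (cj b hk))
  have u1 : u ∈ 𝐍(ρ b ⊔ ρ (u • b)) := hG.norm_swap rfl (uu b)
  have od := Nat.odd_iff.1 (jb_odd hG J1 le_sup_left g1 k34 hk)
  rw [← fix_par {d | ρ d ≤ ρ b ⊔ ρ (u • b) ∧ Mu ρ g d k} (Set.toFinite _) (fun y => u • y)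
    (fun y hy => ⟨hG.le_norm u1 hy.1, cj y hy.2⟩)
    (fun y _ => uu y)] at od
  obtain ⟨d, ⟨d1, d2⟩, ud⟩ := Set.nonempty_of_ncard_ne_zero
    (s := {y | y ∈ {d | ρ d ≤ ρ b ⊔ ρ (u • b) ∧ Mu ρ g d k} ∧ u • y = y}) (by omega)
  have e1 : ρ b ⊔ ρ (u • b) = K := by
    rcases fx d (by rw [mul_smul, ud, hG.mu_fix d2]) with rfl | rfl
    · obtain ⟨b1, n1, f1, e⟩ := jb_opp hG J1 d1 (mul_mem g1 u1) w8
      rw [← e, (fx b1 f1).resolve_left n1, eK]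
    · obtain ⟨b1, n1, f1, e⟩ := jb_opp hG J1 d1 (inv_mem (mul_mem g1 u1))
        (hG.mu_inv (js1_mu7 hG w8 wb b0a) 8 (by norm_num))
      rw [inv_smul_eq_iff] at f1
      rw [← e, (fx b1 f1.symm).resolve_right n1, sup_comm, eK]
  rw [← e1]; exact le_sup_left

theorem js_u3 (hG : Geo ρ) {K K' : Subgroup G} (hK : JTy K) (hK' : JTy K') {a : Ω} (ha : ρ a ≤ K)
    (ha' : ρ a ≤ K') {g : G} (h3 : Mu ρ g a 3) (hg : g ∈ 𝐍(K)) (hg' : g ∈ 𝐍(K')) : K = K' := by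
  obtain ⟨u, hu, u2, ug, u10⟩ := ja_u hG hK ha hg h3
  have w8 : Mu ρ (g * u) a 8 := hG.mu_mod (h3.mul u10) 8 (by norm_num)
  obtain ⟨b0, b0a, wb, eK⟩ := jb_opp hG hK ha (mul_mem hg (le_normalizer hu)) w8
  have gb : g • b0 = b0 := js_fix8 hG w8
    (by rw [smul_smul, mul_assoc, ug, mul_smul, wb]) wb
    (fun e => b0a (smul_left_cancel g (e.trans (hG.mu_fix h3).symm))) b0a
  exact line_eq_J hK (Or.inr hK') (eK ▸ sup_le ha' (js_dh hG hK' ha' hg' h3 gb))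

end H30.E11
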