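import Cfsg.Agent.Lib.E11.JS1

set_option autoImplicit false

namespace H30.E11

open Subgroup H69

variable {G Ω : Type} [Group G] [Finite G] [MulAction G Ω] [Finite Ω] {ρ : Ω → Subgroup G}

theorem js_sys (hS : St ρ) {K : Subgroup G} (hK : IsJ ρ K) : Sys ρ (IsJ ρ) := by
  have hG := hS.toGeo
  have h3 : ∀ {K : Subgroup G} {a : Ω}, JTy K → ρ a ≤ K → ∃ h ∈ K, Mu ρ h a 3 := fun hK ha => by
    obtain ⟨x, hx, h8⟩ := ja_ex hG hK ha
    exact ⟨x ^ 6, pow_mem hx 6, hG.mu_mod (h8.pow 6) 3 (by norm_num)⟩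
  refine ⟨fun a b hab => ?_, fun a b K K' hab hK hK' h1 h2 h1' h2' => ?_,
    fun g K hK => hG.isJ_cj hK g, fun a K K' hK hK' => js_tr hG hK.1 hK'.1,
    fun a K g hK ha => ja_cen hG hK.1 ha, fun a K hK => h3 hK.1,
    fun a K K' g hK hK' ha ha' => js_u3 hG hK.1 hK'.1 ha ha', fun K c b hK hc h1 hb => ?_,
    fun K hK => hK.2.elim fun a ha => ja_big hG hK.1 ha, fun K hK => hS.off (Or.inr hK.1)⟩
  · rcases hG.pair a b hab with hL | hJ
    swap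
    · exact ⟨_, ⟨hJ, a, le_sup_left⟩, le_sup_left, le_sup_right⟩
    obtain ⟨h, -, -, -, m3, m4, -⟩ := la_hs hG hL le_sup_left le_sup_right hab
    obtain ⟨a0, ha0⟩ := hK.2
    obtain ⟨g, rfl⟩ := hG.tr a0 a
    have hK0 := hK.1.cj g
    have ha := (hG.le_cj g).2 ha0
    obtain ⟨x, hx, mx⟩ := h3 hK0 ha
    have hd : ∀ d ∈ 𝐂(ρ (g • a0)), ρ (g • a0) ≤ (K ^ᶜ g) ^ᶜ d := fun d hd => by
      have := (hG.le_cj d).2 ha
      rwa [hG.mu_fix (mu_one_iff.2 hd)] at this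
    obtain ⟨d, hd', e⟩ := av_fix (fun y (L : Subgroup G) => L ^ᶜ y) cj_one
      (fun y z L => (cj_cj L z y).symm) 𝐂(ρ (g • a0)) x (K ^ᶜ g)
      ⟨1, one_mem _, by rw [cj_one, cj_eq_of_mem hx]⟩
      (normalizer_le_normalizer_centralizer _ (hG.fix_iff.1 (hG.mu_fix mx)))
      (fun c hc d hd1 e he e1 e2 => js_u3 hG (hK0.cj d) (hK0.cj e) (hd d hd1) (hd e he)
        (mx.mul (mu_one_iff.2 hc)) (cj_eq_self_iff.1 e1) (cj_eq_self_iff.1 e2))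
      (x⁻¹ * h) (mu_one_iff.1 (hG.mu_mod ((hG.mu_inv mx 4 (by norm_num)).mul m3) 1 (by norm_num)))
    rw [mul_inv_cancel_left] at e
    exact ⟨_, ⟨hK0.cj d, _, hd d hd'⟩, hd d hd',
      js_dh hG (hK0.cj d) (hd d hd') (cj_eq_self_iff.1 e) m3 (hG.mu_fix m4)⟩
  · rcases hG.pair a b hab with hL | hJ
    · obtain ⟨h, hh, -, -, m3, -⟩ := la_hs hG hL le_sup_left le_sup_right hab
      exact js_u3 hG hK.1 hK'.1 h1 h1' m3 (le_normalizer (sup_le h1 h2 hh))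
        (le_normalizer (sup_le h1' h2' hh))
    · exact (line_eq_J hJ (Or.inr hK.1) (sup_le h1 h2)).symm.trans
        (line_eq_J hJ (Or.inr hK'.1) (sup_le h1' h2'))
  · obtain ⟨a, ha⟩ := hK.2
    obtain ⟨K', hK', hle, hb'⟩ := hS.join (Or.inr hK.1) ha hc h1 (hG.typ (mu_of_cent hc ha) hb)
    rwa [line_eq_J hK.1 hK' hle]

end H30.E11
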