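import Cfsg.Agent.Lib.E11.EXB
import Cfsg.Agent.Lib.E11.JB2
import Cfsg.Agent.S0215
import Cfsg.Agent.Lib.Inv73.ZStar

set_option autoImplicit false

namespace H30.E11

open Subgroup H69

variable {G Ω : Type} [Group G] [Finite G] [MulAction G Ω] [Finite Ω] {ρ : Ω → Subgroup G}

theorem jz_main (hS : St ρ) (hY : Sys ρ (IsJ ρ)) {K : Subgroup G} (hK : IsJ ρ K) {t : G}
    (ht : t ∈ 𝐂(K)) (h2 : t * t = 1) : t = 1 := by
  by_contra t1
  have hG := hS.toGeo
  haveI : Fact (Nat.Prime 2) := ⟨Nat.prime_two⟩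
  have o : orderOf t = 2 := orderOf_eq_prime (by rw [pow_two, h2]) t1
  have hz := H73.centralizer_sup_oddCore_eq_top' o fun g hc => by
    have s2 : g * t * g⁻¹ * (g * t * g⁻¹) = 1 := by rw [conj_mul, h2, mul_one, mul_inv_cancel]
    obtain ⟨k, hk, c, hc', e, kc, hb⟩ := ja_dec hG hK.1 (hY.norm hG hK ht t1 hc)
    have k2 : k * k = 1 := line_center (Or.inr hK.1) (mul_mem hk hk) (by
      have : k * k * (c * c) = 1 := by
        rw [← s2, e, mul_assoc, mul_assoc, ← mul_assoc k c, ← mul_assoc c k, kc]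
      rw [eq_inv_of_mul_eq_one_left this]
      exact inv_mem (mul_mem hc' hc'))
    by_cases k1 : k = 1
    · rw [k1, one_mul] at e
      exact exb_uniq hG hY hK (e ▸ hc') ht s2 h2 (fun e => t1 (conj_eq_one_iff.1 e)) t1
    · obtain ⟨a, ha⟩ := hK.2
      obtain ⟨b, hb', m⟩ := ja_inv hG hK.1 ha hk k2 k1
      have m' := ((hb b hb').2 10).2 m
      exact absurd (hG.mu_uniq m' (hG.typ (hG.mu_cj (mu_of_cent ht ha) g) (hG.mu_fix m')))
        (by norm_num)
  haveI := hS.simple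
  rcases (inferInstance : (Cfsg.oddCore G).Normal).eq_bot_or_eq_top with e | e
  · rw [e, sup_bot_eq] at hz
    exact hS.cent_ne t1 hz
  · have h3 := H1.odd_card_oddCore (G := G)
    rw [e, card_top] at h3
    exact absurd (h3.of_dvd_nat (o ▸ orderOf_dvd_natCard t)) (by norm_num)

end H30.E11
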