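import Cfsg.Agent.Lib.E11.Bas
import Cfsg.Agent.Lib.E11.AV

set_option autoImplicit false

namespace H30.E11

open Subgroup H69

variable {G Ω : Type} [Group G] [Finite G] [MulAction G Ω] [Finite Ω] {ρ : Ω → Subgroup G}

omit [Finite G] [Finite Ω] in
theorem LA1_ne {g : G} {a b : Ω} (h : g • a = a) (hb : b ≠ a) : g • b ≠ a :=
  fun e => hb (smul_left_cancel g (e.trans h.symm))

theorem LA1_orb (hG : Geo ρ) {K : Subgroup G} (hK : LTy K) {a : Ω} (ha : ρ a ≤ K) :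
    660 = {c | ρ c ≤ K}.ncard * Nat.card ↥(K ⊓ MulAction.stabilizer G a) := by
  have h := orb_card (fun (g : G) (y : Ω) => g • y) (one_smul G) mul_smul K
    (K ⊓ MulAction.stabilizer G a) a fun e => Iff.rfl
  have e : {y | ∃ e ∈ K, e • a = y} = {c | ρ c ≤ K} := Set.ext fun y =>
    ⟨fun ⟨e, he, h⟩ => h ▸ hG.le_mem he ha, fun h => hG.line_tr (Or.inl hK) ha h⟩
  rwa [hK.2, e] at h

theorem la_card (hG : Geo ρ) {K : Subgroup G} (hK : LTy K) {a : Ω} (ha : ρ a ≤ K) :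
    {c | ρ c ≤ K}.ncard = 12 := by
  have h1 := LA1_orb hG hK ha
  have h2 : 11 ∣ Nat.card ↥(K ⊓ MulAction.stabilizer G a) :=
    hG.card a ▸ card_dvd_of_le (le_inf ha fun x hx => hG.mu_fix (hG.mu_mem hx))
  have h3 := semi_dvd (fun (g : G) (y : Ω) => g • y) (one_smul G) mul_smul (ρ a) ({c | ρ c ≤ K} \ {a})
    (Set.toFinite _) (fun e he y hy => ⟨hG.le_mem (ha he) hy.1, LA1_ne (hG.mu_fix (hG.mu_mem he)) hy.2⟩)
    fun e he y hy h => hG.semi he hy.2 h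
  obtain ⟨b, hba, hb⟩ := hG.line_two (Or.inl hK) ha
  have h4 : 0 < ({c | ρ c ≤ K} \ {a}).ncard := (Set.ncard_pos (Set.toFinite _)).2 ⟨b, hb, hba⟩
  rw [Set.ncard_sdiff_singleton_of_mem (show a ∈ {c | ρ c ≤ K} from ha)] at h3 h4
  rw [hG.card] at h3
  obtain ⟨m, hm⟩ := h2
  rw [hm] at h1
  generalize {c | ρ c ≤ K}.ncard = n at *
  have h5 : n ∣ 60 := ⟨m, by linarith⟩
  have := Nat.le_of_dvd (by norm_num) h5
  interval_cases n <;> omega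

theorem la_reg (hG : Geo ρ) {K : Subgroup G} (hK : LTy K) {a b c : Ω} (ha : ρ a ≤ K)
    (hb : ρ b ≤ K) (hc : ρ c ≤ K) (hba : b ≠ a) (hca : c ≠ a) : ∃ x ∈ ρ a, x • b = c := by
  have h1 := orb_card (fun (g : G) (y : Ω) => g • y) (one_smul G) mul_smul (ρ a) ⊥ b fun e =>
    ⟨fun h => by rw [mem_bot.1 h]; exact ⟨one_mem _, one_smul _ _⟩, fun h => hG.semi h.1 hba h.2⟩
  rw [hG.card, card_bot, mul_one] at h1
  have h2 : {y | ∃ e ∈ ρ a, e • b = y} = {c | ρ c ≤ K} \ {a} := Set.eq_of_subset_of_ncard_le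
    (by
      rintro _ ⟨e, he, rfl⟩
      exact ⟨hG.le_mem (ha he) hb, LA1_ne (hG.mu_fix (hG.mu_mem he)) hba⟩)
    (by rw [Set.ncard_sdiff_singleton_of_mem (show a ∈ {c | ρ c ≤ K} from ha), la_card hG hK ha, ← h1])
  exact (h2.symm ▸ ⟨hc, hca⟩ : c ∈ {y | ∃ e ∈ ρ a, e • b = y})

theorem la_sup (hG : Geo ρ) {K : Subgroup G} (hK : LTy K) {a b : Ω} (ha : ρ a ≤ K)
    (hb : ρ b ≤ K) (hab : a ≠ b) : ρ a ⊔ ρ b = K :=
  line_eq_L (hG.pair a b hab) hK (sup_le ha hb)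

theorem la_typ (hG : Geo ρ) {K : Subgroup G} (hK : LTy K) {a b : Ω} (ha : ρ a ≤ K)
    (hb : ρ b ≤ K) (hba : b ≠ a) {g : G} (h1 : Mu ρ g a 1) (hgb : g • b = b) : g ∈ 𝐂(K) := by
  have hn := hG.norm_fix (hG.mu_fix h1) hgb
  rw [la_sup hG hK ha hb hba.symm] at hn
  refine hG.line_faith (Or.inl hK) ha hn fun c hc => ?_
  by_cases e : c = a
  · rw [e, hG.mu_fix h1]
  · obtain ⟨x, hx, rfl⟩ := la_reg hG hK ha hb hc hba e
    rw [← mul_smul, h1.comm hx, mul_smul, hgb]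

theorem la_cen (hG : Geo ρ) {K : Subgroup G} (hK : LTy K) {a : Ω} (ha : ρ a ≤ K) {g : G}
    (hg : g ∈ 𝐍(K)) (h1 : Mu ρ g a 1) : ∃ x ∈ ρ a, x⁻¹ * g ∈ 𝐂(K) := by
  obtain ⟨b, hba, hb⟩ := hG.line_two (Or.inl hK) ha
  obtain ⟨x, hx, e⟩ := la_reg hG hK ha hb (hG.le_norm hg hb) hba (LA1_ne (hG.mu_fix h1) hba)
  exact ⟨x, hx, la_typ hG hK ha hb hba ((hG.mu_mem (inv_mem hx)).mul h1)
    (by rw [mul_smul, ← e, inv_smul_smul])⟩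

theorem la_cenK (hG : Geo ρ) {K : Subgroup G} (hK : LTy K) {a : Ω} (ha : ρ a ≤ K) {g : G}
    (hg : g ∈ K) (h1 : Mu ρ g a 1) : g ∈ ρ a := by
  obtain ⟨x, hx, h⟩ := la_cen hG hK ha (le_normalizer hg) h1
  rwa [← inv_mul_eq_one.1 (line_center (Or.inl hK) (mul_mem (inv_mem (ha hx)) hg) h)]

theorem la_stab (hG : Geo ρ) {K : Subgroup G} (hK : LTy K) {a : Ω} (ha : ρ a ≤ K) :
    Nat.card ↥(K ⊓ MulAction.stabilizer G a) = 55 := by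
  have h1 := LA1_orb hG hK ha
  rw [la_card hG hK ha] at h1
  omega

theorem la_inv (hG : Geo ρ) {K : Subgroup G} (hK : LTy K) {a : Ω} (ha : ρ a ≤ K) {s : G}
    (hs : s ∈ K) (h2 : s * s = 1) (h1 : s ≠ 1) : s • a ≠ a := by
  intro h
  have h3 := orderOf_dvd_natCard (⟨s, hs, h⟩ : ↥(K ⊓ MulAction.stabilizer G a))
  rw [la_stab hG hK ha, ← orderOf_coe, orderOf_eq_prime (p := 2) (by rw [pow_two, h2]) h1] at h3
  omega

theorem la_fix (hG : Geo ρ) {K : Subgroup G} (hK : LTy K) {a : Ω} (ha : ρ a ≤ K) {g : G}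
    (hg : g ∈ 𝐍(K)) {k : ℕ} (h : Mu ρ g a k) (hk : k % 11 ≠ 1) :
    ∃! b, ρ b ≤ K ∧ b ≠ a ∧ g • b = b := by
  obtain ⟨b, hba, hb⟩ := hG.line_two (Or.inl hK) ha
  obtain ⟨p, hp, e⟩ := la_reg hG hK ha hb (hG.le_norm hg hb) hba (LA1_ne (hG.mu_fix h) hba)
  obtain ⟨q, hq, eq⟩ := hG.affine h hk (inv_mem hp)
  have key : ∀ c c', ρ c ≤ K ∧ c ≠ a ∧ g • c = c → ρ c' ≤ K ∧ c' ≠ a ∧ g • c' = c' → c' = c := by
    rintro c c' ⟨c1, c2, c3⟩ ⟨d1, d2, d3⟩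
    obtain ⟨x, hx, rfl⟩ := la_reg hG hK ha c1 d1 c2 d2
    have h1 : x⁻¹ * (g * x * g⁻¹) = 1 := hG.semi (mul_mem (inv_mem hx) (h x hx ▸ pow_mem hx k)) c2 (by
      rw [mul_smul, mul_smul, mul_smul, inv_smul_eq_iff.2 c3.symm, d3, inv_smul_smul])
    rw [hG.eq_one h hk hx (mul_inv_eq_iff_eq_mul.1 (inv_mul_eq_one.1 h1).symm), one_smul]
  have h0 : ρ (q⁻¹ • b) ≤ K ∧ q⁻¹ • b ≠ a ∧ g • q⁻¹ • b = q⁻¹ • b :=
    ⟨hG.le_mem (ha (inv_mem hq)) hb, LA1_ne (hG.mu_fix (hG.mu_mem (inv_mem hq))) hba, by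
      rw [eq_inv_smul_iff, ← mul_smul, ← mul_smul, ← eq, mul_smul, ← e, inv_smul_smul]⟩
  exact ⟨_, h0, fun c hc => key _ _ h0 hc⟩

end H30.E11
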