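import Cfsg.Agent.Lib.E11.LA2

set_option autoImplicit false

namespace H30.E11

open Subgroup H69

variable {G Ω : Type} [Group G] [Finite G] [MulAction G Ω] [Finite Ω] {ρ : Ω → Subgroup G}

theorem lb1_sign (hG : Geo ρ) {K : Subgroup G} (hK : LTy K) {a : Ω} (ha : ρ a ≤ K) :
    ∃ ε : 𝐍(K) →* ℤˣ, ∀ g : 𝐍(K), (∀ c, ρ c ≤ K → (g : G) • (g : G) • c = c) →
      ε g = (-1) ^ ((12 - {c | ρ c ≤ K ∧ (g : G) • c = c}.ncard) / 2) := by
  classical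
  let S : SubMulAction 𝐍(K) Ω := ⟨{c | ρ c ≤ K}, fun g _ h => hG.le_norm g.2 h⟩
  have := Fintype.ofFinite S
  refine ⟨Equiv.Perm.sign.comp (MulAction.toPermHom 𝐍(K) S), fun g h => ?_⟩
  rw [MonoidHom.comp_apply, Equiv.Perm.sign_of_pow_two_eq_one (Equiv.ext fun c => Subtype.ext (h c c.2)),
    ← Nat.card_eq_fintype_card, ← Nat.card_eq_fintype_card, ← la_card hG hK ha]
  congr 3
  rw [Nat.card_coe_set_eq, ← Set.ncard_image_of_injective _ Subtype.val_injective]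
  congr 1
  ext c
  exact ⟨fun ⟨d, e, e'⟩ => e' ▸ ⟨d.2, congrArg Subtype.val e⟩, fun h => ⟨⟨c, h.1⟩, Subtype.ext h.2, rfl⟩⟩

theorem lb_out (hG : Geo ρ) {K : Subgroup G} (hK : LTy K) {a : Ω} (ha : ρ a ≤ K) {v : G}
    (hv : v ∈ 𝐍(K)) (h2 : v * v = 1) :
    (∃ k ∈ K, k⁻¹ * v ∈ 𝐂(K)) ∨ ∃ b, ρ b ≤ K ∧ Mu ρ v b 10 := by
  by_cases n : ∃ b, ρ b ≤ K ∧ v • b = b
  · obtain ⟨b, hb, e⟩ := n
    exact (hG.mu_two h2 e).imp (fun m => (la_cen hG hK hb hv m).imp fun _ h => ⟨hb h.1, h.2⟩) fun m => ⟨b, hb, m⟩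
  have hb := hG.le_norm hv ha
  have ab : a ≠ v • a := fun e => n ⟨a, ha, e.symm⟩
  obtain ⟨h, hh, s, hs, h3, h4, h5, ss, sa, -, -⟩ := la_hs hG hK ha hb ab
  have ga : (s * v) • a = a := by rw [mul_smul, ← sa, ← mul_smul, ss, one_smul]
  have gb : (s * v) • v • a = v • a := by rw [mul_smul, ← mul_smul v, h2, one_smul, sa]
  obtain ⟨k, k0, k1, hk⟩ := hG.exMu ga
  obtain ⟨j, -, e⟩ := la2_A k k1 k0.ne'
  have m := hk.mul (h3.pow j)
  have ub : (s * v * h ^ j) • v • a = v • a := by rw [mul_smul, hG.mu_fix (h4.pow j), gb]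
  rcases e with e | e
  · have c := la_typ hG hK ha hb ab.symm (hG.mu_mod m 1 e) ub
    refine Or.inl ⟨(h ^ j * s)⁻¹, inv_mem (mul_mem (pow_mem hh j) hs), ?_⟩
    rwa [inv_inv, show h ^ j * s * v = h ^ j * (s * v * h ^ j) * (h ^ j)⁻¹ by group,
      mem_centralizer_iff_commute.1 c _ (pow_mem hh j), mul_inv_cancel_right]
  have m1 := hG.mu_mod m 10 e
  obtain ⟨ε, hε⟩ := lb1_sign hG hK ha
  have fpf : ∀ g : 𝐍(K), (g : G) * g = 1 → (∀ c, ρ c ≤ K → (g : G) • c ≠ c) → ε g = 1 := fun g p q => by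
    rw [hε g fun c _ => by rw [← mul_smul, p, one_smul],
      show {c | ρ c ≤ K ∧ (g : G) • c = c} = ∅ from Set.eq_empty_of_forall_notMem fun c h => q c h.1 h.2]
    norm_num
  have e1 := fpf ⟨v, hv⟩ h2 fun c p q => n ⟨c, p, q⟩
  have e2 := fpf ⟨s, le_normalizer hs⟩ ss fun c p => la_inv hG hK p hs ss (by rintro rfl; exact ab (by simpa using sa))
  have e3 : ε ⟨h, le_normalizer hh⟩ = 1 := by
    have : ε ⟨h, le_normalizer hh⟩ ^ 5 = 1 := by rw [← map_pow, ← map_one ε]; exact congrArg _ (Subtype.ext h5)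
    rcases Int.units_eq_one_or (ε ⟨h, le_normalizer hh⟩) with e | e
    · exact e
    · rw [e] at this
      exact absurd this (by decide)
  have c := la_typ hG hK ha hb ab.symm (hG.mu_mod (m1.mul m1) 1 rfl) (by rw [mul_smul, ub, ub])
  have uN : s * v * h ^ j ∈ 𝐍(K) := mul_mem (mul_mem (le_normalizer hs) hv) (pow_mem (le_normalizer hh) j)
  obtain ⟨b, -, u⟩ := la_fix hG hK ha uN m1 (by norm_num)
  have e4 := hε ⟨_, uN⟩ fun d p => by rw [← mul_smul]; exact hG.mu_fix (mu_of_cent c p)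
  rw [show {c | ρ c ≤ K ∧ ((⟨_, uN⟩ : 𝐍(K)) : G) • c = c} = {a, v • a} from Set.ext fun d =>
      ⟨fun p => or_iff_not_imp_left.2 fun q => (u d ⟨p.1, q, p.2⟩).trans (u _ ⟨hb, ab.symm, ub⟩).symm, by
        rintro (rfl | rfl)
        exacts [⟨ha, hG.mu_fix m⟩, ⟨hb, ub⟩]⟩, Set.ncard_pair ab,
    show (⟨_, uN⟩ : 𝐍(K)) = ⟨s, le_normalizer hs⟩ * ⟨v, hv⟩ * ⟨h, le_normalizer hh⟩ ^ j from rfl,
    map_mul, map_mul, map_pow, e1, e2, e3, one_pow] at e4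
  exact absurd e4 (by decide)

theorem lb_cs (hG : Geo ρ) {K : Subgroup G} (hK : LTy K) {a : Ω} (ha : ρ a ≤ K) {s : G}
    (hs : s ∈ K) (h2 : s * s = 1) : 12 ≤ Nat.card ↥(K ⊓ centralizer ({s} : Set G)) := by
  have c := orb_card (fun g y : G => g * y * g⁻¹) (by simp) (by simp [mul_assoc]) K (K ⊓ centralizer ({s} : Set G)) s
    fun e => and_congr_right' (mem_centralizer_singleton_iff.trans mul_inv_eq_iff_eq_mul.symm)
  suffices h : {y | ∃ e ∈ K, e * s * e⁻¹ = y}.ncard ≤ 55 by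
    rw [hK.2] at c
    nlinarith
  by_cases h1 : s = 1
  · refine (Set.ncard_le_ncard (t := {1}) ?_).trans (by simp)
    rintro _ ⟨e, -, rfl⟩
    simp [h1]
  choose h _ t tK _ _ h5 tt ta _ gen using fun b : ↥({c | ρ c ≤ K} \ {a}) => la_hs hG hK ha b.2.1 (Ne.symm b.2.2)
  refine (Set.ncard_le_ncard (t := (fun x : _ × Fin 5 => h x.1 ^ (x.2 : ℕ) * t x.1) '' Set.univ) ?_).trans
    ((Set.ncard_image_le).trans ?_)
  · rintro _ ⟨e, he, rfl⟩
    have m : e * s * e⁻¹ ∈ K := mul_mem (mul_mem he hs) (inv_mem he)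
    have sq : e * s * e⁻¹ * (e * s * e⁻¹) = 1 := by rw [conj_mul, h2]; simp
    let b : ↥({c | ρ c ≤ K} \ {a}) := ⟨(e * s * e⁻¹) • a, hG.le_mem m ha, la_inv hG hK ha m sq (by simpa using h1)⟩
    obtain ⟨i, hi⟩ := gen b (e * s * e⁻¹ * t b) (mul_mem m (tK b))
      (by rw [mul_smul, ta, ← mul_smul, sq, one_smul]) (by
        conv_lhs => rw [← ta b, mul_smul, ← mul_smul (t b), tt, one_smul])
    refine ⟨(b, ⟨i % 5, Nat.mod_lt _ (by norm_num)⟩), trivial, ?_⟩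
    show h b ^ (i % 5) * t b = _
    rw [← pow_eq_pow_mod i (h5 b), ← hi, mul_assoc _ (t b), tt, mul_one]
  · rw [Set.ncard_univ, Nat.card_prod, Nat.card_coe_set_eq, Set.ncard_sdiff_singleton_of_mem (s := {c | ρ c ≤ K}) ha,
      la_card hG hK ha]
    simp

end H30.E11
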