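import Cfsg.Agent.Lib.E11.LA2
import Cfsg.Agent.Lib.E11.AV

set_option autoImplicit false

namespace H30.E11

open Subgroup H69

variable {G Ω : Type} [Group G] [Finite G] [MulAction G Ω] [Finite Ω] {ρ : Ω → Subgroup G}

theorem LW.lt (hW : LW ρ) {a b : Ω} (hab : a ≠ b) : LTy ↥(ρ a ⊔ ρ b) :=
  (hW.pair a b hab).resolve_right fun h => hW.noJ _ a h le_sup_left

theorem LW.isL (hW : LW ρ) {a b : Ω} (hab : a ≠ b) : IsL ρ (ρ a ⊔ ρ b) :=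
  ⟨hW.lt hab, a, le_sup_left⟩

theorem LW.col (hW : LW ρ) {a b : Ω} (hab : a ≠ b) {g : G} {k k' : ℕ} (h : Mu ρ g a k)
    (h' : Mu ρ g b k') : k * k' % 11 = 1 :=
  la_col hW.toGeo (hW.lt hab) le_sup_left le_sup_right hab h h'

theorem LW.typ (hW : LW ρ) {a b : Ω} {g : G} (h : Mu ρ g a 1) (hb : g • b = b) : Mu ρ g b 1 := by
  by_cases e : a = b
  · exact e ▸ h
  · obtain ⟨k, -, -, hk⟩ := hW.toGeo.exMu hb
    exact hW.toGeo.mu_mod hk 1 (by simpa using hW.col e h hk)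

theorem LW.fix2 (hW : LW ρ) {a b c : Ω} {g : G} {k : ℕ} (h : Mu ρ g a k) (hk : k * k % 11 ≠ 1)
    (hb : g • b = b) (hc : g • c = c) (hba : b ≠ a) (hca : c ≠ a) : b = c := by
  by_contra n
  obtain ⟨i, -, -, hi⟩ := hW.toGeo.exMu hb
  obtain ⟨j, -, -, hj⟩ := hW.toGeo.exMu hc
  have h1 : k * i ≡ 1 [MOD 11] := hW.col hba.symm h hi
  have h2 : k * j ≡ 1 [MOD 11] := hW.col hca.symm h hj
  have h3 : i * j ≡ 1 [MOD 11] := hW.col n hi hj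
  have h4 := (h3.mul_left (k * k)).symm
  rw [mul_one, show k * k * (i * j) = k * i * (k * j) by ring] at h4
  exact hk (h4.trans (h1.mul h2))

theorem LW.tr1 (hW : LW ρ) {a b c : Ω} (hba : b ≠ a) (hca : c ≠ a) :
    ∃ g : G, Mu ρ g a 1 ∧ g • b = c := by
  have hG := hW.toGeo
  obtain ⟨h, -, -, -, h3, h4, -⟩ := la_hs hG (hW.lt hba.symm) le_sup_left le_sup_right hba.symm
  obtain ⟨h', -, -, -, h3', h4', -⟩ := la_hs hG (hW.lt hca.symm) le_sup_left le_sup_right hca.symm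
  have ne : ∀ d ∈ 𝐂(ρ a), d • b ≠ a := fun d hd => LA1_ne (hG.mu_fix (mu_one_iff.2 hd)) hba
  obtain ⟨d, hd, e⟩ := av_fix (fun (g : G) (y : Ω) => g • y) (one_smul G) mul_smul 𝐂(ρ a) h b
    ⟨1, one_mem _, by rw [hG.mu_fix h4, one_smul]⟩
    (normalizer_le_normalizer_centralizer _ (hG.fix_iff.1 (hG.mu_fix h3)))
    (fun c hc d hd e he e1 e2 =>
      hW.fix2 (h3.mul (mu_one_iff.2 hc)) (by norm_num) e1 e2 (ne d hd) (ne e he))
    (h⁻¹ * h') (mu_one_iff.1 (hG.mu_mod ((hG.mu_inv h3 4 (by norm_num)).mul h3') 1 (by norm_num)))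
  rw [mul_inv_cancel_left] at e
  exact ⟨d, mu_one_iff.2 hd, hW.fix2 h3' (by norm_num) e (hG.mu_fix h4') (ne d hd) hca⟩

theorem LW.tr2 (hW : LW ρ) {a b c d : Ω} (hab : a ≠ b) (hcd : c ≠ d) :
    ∃ g : G, g • a = c ∧ g • b = d := by
  obtain ⟨g, rfl⟩ := hW.tr a c
  obtain ⟨k, hk, e⟩ := hW.tr1 (a := g • a) (b := g • b) (fun e => hab (smul_left_cancel g e).symm) hcd.symm
  exact ⟨k * g, by rw [mul_smul, hW.toGeo.mu_fix hk], by rw [mul_smul, e]⟩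

theorem LW.sys (hW : LW ρ) : Sys ρ (IsL ρ) := by
  have hG := hW.toGeo
  have uq : ∀ (a b : Ω) (K K' : Subgroup G), a ≠ b → IsL ρ K → IsL ρ K' → ρ a ≤ K → ρ b ≤ K →
      ρ a ≤ K' → ρ b ≤ K' → K = K' := fun a b K K' hab hK hK' h1 h2 h3 h4 =>
    (la_sup hG hK.1 h1 h2 hab).symm.trans (la_sup hG hK'.1 h3 h4 hab)
  refine ⟨fun a b hab => ⟨_, hW.isL hab, le_sup_left, le_sup_right⟩, uq, fun g K hK => hG.isL_cj hK g,
    fun a K K' hK hK' ha ha' => ?_, fun a K g hK ha hg h1 => la_cen hG hK.1 ha hg h1,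
    fun a K hK ha => ?_, fun a K K' g hK hK' ha ha' h3 hg hg' => ?_, fun K c b hK hc h1 hb => ?_,
    fun K hK => ?_, fun K hK => hW.toSt.off (Or.inl hK.1)⟩
  · obtain ⟨b, hba, hb⟩ := hG.line_two (Or.inl hK.1) ha
    obtain ⟨b', hba', hb'⟩ := hG.line_two (Or.inl hK'.1) ha'
    obtain ⟨g, hg, e⟩ := hW.tr1 hba hba'
    refine ⟨g, hg, ?_⟩
    rw [← la_sup hG hK.1 ha hb hba.symm, hG.sup_cj, hG.mu_fix hg, e, la_sup hG hK'.1 ha' hb' hba'.symm]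
  · obtain ⟨b, hba, hb⟩ := hG.line_two (Or.inl hK.1) ha
    obtain ⟨h, hh, -, -, h3, -⟩ := la_hs hG hK.1 ha hb hba.symm
    exact ⟨h, hh, h3⟩
  · obtain ⟨b, ⟨b1, b2, b3⟩, -⟩ := la_fix hG hK.1 ha hg h3 (by norm_num)
    obtain ⟨c, ⟨c1, c2, c3⟩, -⟩ := la_fix hG hK'.1 ha' hg' h3 (by norm_num)
    obtain rfl := hW.fix2 h3 (by norm_num) b3 c3 b2 c2
    exact uq a b K K' b2.symm hK hK' ha b1 ha' c1
  · obtain ⟨a, ha⟩ := hK.2
    obtain ⟨K', h2, h3, h4⟩ := hW.toSt.join (Or.inl hK.1) ha hc h1 (hW.typ (mu_of_cent hc ha) hb)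
    rwa [line_eq_L (Or.inl hK.1) (h2.resolve_right fun h => hW.noJ _ b h h4) h3]
  · obtain ⟨a, ha⟩ := hK.2
    exact (la_card hG hK.1 ha).ge

theorem LW.cardC (hW : LW ρ) {a b : Ω} (hab : a ≠ b) :
    Nat.card 𝐂(ρ a) = (Nat.card Ω - 1) * Nat.card 𝐂(ρ a ⊔ ρ b) := by
  have hG := hW.toGeo
  have h := orb_card (fun (g : G) (y : Ω) => g • y) (one_smul G) mul_smul 𝐂(ρ a) 𝐂(ρ a ⊔ ρ b) b
    fun e => ⟨fun h => ⟨mu_one_iff.1 (mu_of_cent h le_sup_left), hG.mu_fix (mu_of_cent h le_sup_right)⟩,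
      fun h => cent_sup (mu_one_iff.2 h.1) (hW.typ (mu_one_iff.2 h.1) h.2)⟩
  have e : {y | ∃ e ∈ 𝐂(ρ a), e • b = y} = Set.univ \ {a} := Set.ext fun y =>
    ⟨fun ⟨e, he, h⟩ => ⟨trivial, h ▸ LA1_ne (hG.mu_fix (mu_one_iff.2 he)) hab.symm⟩, fun h => by
      obtain ⟨g, hg, e⟩ := hW.tr1 hab.symm h.2
      exact ⟨g, mu_one_iff.1 hg, e⟩⟩
  rwa [e, Set.ncard_sdiff_singleton_of_mem (Set.mem_univ a), Set.ncard_univ] at h

theorem LW.dvd (hW : LW ρ) : 11 ∣ Nat.card Ω - 1 := by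
  have hG := hW.toGeo
  obtain ⟨a, -⟩ := hW.two
  have h := semi_dvd (fun (g : G) (y : Ω) => g • y) (one_smul G) mul_smul (ρ a) (Set.univ \ {a})
    (Set.toFinite _) (fun e he y hy => ⟨trivial, LA1_ne (hG.mu_fix (hG.mu_mem he)) hy.2⟩)
    fun e he y hy h => hG.semi he hy.2 h
  rwa [hG.card, Set.ncard_sdiff_singleton_of_mem (Set.mem_univ a), Set.ncard_univ] at h

end H30.E11
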