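import Cfsg.Agent.Lib.E11.LS
import Cfsg.Agent.Lib.E11.LB1
import Cfsg.Agent.Lib.E11.LB2

set_option autoImplicit false

namespace H30.E11

open Subgroup H69

variable {G Ω : Type} [Group G] [Finite G] [MulAction G Ω] [Finite Ω] {ρ : Ω → Subgroup G}

omit [Finite Ω] in
theorem ne_cauchy {X : Subgroup G} {p : ℕ} (hp : p.Prime) (h : p ∣ Nat.card X) :
    ∃ x ∈ X, orderOf x = p := by
  have : Fact p.Prime := ⟨hp⟩
  obtain ⟨x, hx⟩ := exists_prime_orderOf_dvd_card' p h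
  exact ⟨x, x.2, by rw [Subgroup.orderOf_coe, hx]⟩

theorem LW.even (hW : LW ρ) : Even (Nat.card Ω) := by
  by_contra ho
  have hG : Geo ρ := hW.toGeo
  obtain ⟨a, b, hab⟩ := hW.two
  have hK := hW.lt hab
  set K := ρ a ⊔ ρ b with hKd
  have ha : ρ a ≤ K := le_sup_left
  obtain ⟨s, hs, t, ht, n, hn, s2, t2, s1, t1, st, c, e1, e2⟩ := lb_four hK
  have o1 : {y | y ∈ (Set.univ : Set Ω) ∧ s • y = y}.ncard % 2 = 1 := by
    rw [fix_par Set.univ (Set.toFinite _) (fun y => s • y) (fun _ _ => trivial)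
      (fun y _ => by rw [smul_smul, s2, one_smul]), Set.ncard_univ]
    exact Nat.odd_iff.1 (Nat.not_even_iff_odd.1 ho)
  have o2 := fix_par {y | y ∈ (Set.univ : Set Ω) ∧ s • y = y} (Set.toFinite _) (fun y => t • y)
    (fun y hy => ⟨trivial, by rw [smul_smul, c, mul_smul, hy.2]⟩)
    (fun y _ => by rw [smul_smul, t2, one_smul])
  rw [o1] at o2
  obtain ⟨R, ⟨-, Rs⟩, Rt⟩ := Set.nonempty_of_ncard_ne_zero
    (s := {y | y ∈ {y | y ∈ (Set.univ : Set Ω) ∧ s • y = y} ∧ t • y = y}) (by omega)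
  obtain ⟨R', hR'⟩ : ∃ R', Mu ρ s R' 1 := by
    rcases hG.mu_two s2 Rs with h | h
    · exact ⟨R, h⟩
    have k : ∀ R', Mu ρ t R' 1 → ∃ R', Mu ρ s R' 1 := fun R' h' => by
      have := hG.mu_cj h' n⁻¹
      rw [← e1, show n⁻¹ * (n * s * n⁻¹) * n⁻¹⁻¹ = s by group] at this
      exact ⟨_, this⟩
    rcases hG.mu_two t2 Rt with h' | h'
    · exact k R h'
    have := hG.mu_cj (hG.mu_mod (h.mul h') 1 (by norm_num)) n⁻¹
    rw [← e2, show n⁻¹ * (n * t * n⁻¹) * n⁻¹⁻¹ = t by group] at this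
    exact k _ this
  have uq : ∀ d, s • d = d → d = R := fun d hd => by
    by_contra ne
    have hc := cent_sup (hW.typ hR' hd) (hW.typ hR' Rs)
    have e : {y | y ∈ (Set.univ : Set Ω) ∧ s • y = y} = {y | ρ y ≤ ρ d ⊔ ρ R} := by
      ext y
      exact ⟨fun hy => hW.sys.fix _ s y (hW.isL ne) hc s1 hy.2,
        fun hy => ⟨trivial, hG.mu_fix (mu_of_cent hc hy)⟩⟩
    rw [e, la_card hG (hW.lt ne) le_sup_left] at o1
    omega
  have nR : n • R = R := by
    have : n⁻¹ • R = R := uq _ (by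
      rw [smul_smul, show s * n⁻¹ = n⁻¹ * (n * s * n⁻¹) by group, e1, mul_smul, Rt])
    rw [inv_smul_eq_iff] at this
    exact this.symm
  have off : ¬ ρ R ≤ K := fun h => la_inv hG hK h hs s2 s1 Rs
  have le : K ⊓ centralizer ({s} : Set G) ≤ K ⊓ MulAction.stabilizer G R := fun g hg =>
    ⟨hg.1, uq _ (by rw [smul_smul, ← mem_centralizer_singleton_iff.1 hg.2, mul_smul, Rs])⟩
  have d660 : Nat.card (K ⊓ MulAction.stabilizer G R : Subgroup G) ∣ 660 :=
    hK.2 ▸ card_dvd_of_le inf_le_left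
  have n11 : ¬ 11 ∣ Nat.card (K ⊓ MulAction.stabilizer G R : Subgroup G) := fun h => by
    obtain ⟨x, hx, ox⟩ := ne_cauchy (by norm_num) h
    obtain ⟨b', hb'⟩ := hG.line_pt (Or.inl hK) ha (zpowers_le.2 hx.1) (by rw [Nat.card_zpowers, ox])
    have := hG.semi (a := b') (b := R) (x := x) (hb' ▸ mem_zpowers x)
      (fun e => off (by rw [e, hb']; exact zpowers_le.2 hx.1)) hx.2
    rw [this, orderOf_one] at ox
    omega
  have n5 : ¬ 5 ∣ Nat.card (K ⊓ MulAction.stabilizer G R : Subgroup G) := fun h => by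
    obtain ⟨x, hx, ox⟩ := ne_cauchy (by norm_num) h
    obtain ⟨a', b', k, ne, ha', hb', mu, fb, hk⟩ := la_five hG hK ha hx.1 ox
    exact off (hW.fix2 mu hk fb hx.2 ne (fun e => off (e ▸ ha')) ▸ hb')
  have d12 : Nat.card (K ⊓ MulAction.stabilizer G R : Subgroup G) ∣ 12 := by
    have c11 := ((Nat.Prime.coprime_iff_not_dvd (by norm_num)).2 n11).symm
    have c5 := ((Nat.Prime.coprime_iff_not_dvd (by norm_num)).2 n5).symm
    exact c5.dvd_of_dvd_mul_right (c11.dvd_of_dvd_mul_right (show _ ∣ 12 * 5 * 11 from d660))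
  have eq := eq_of_le_of_card_ge le ((Nat.le_of_dvd (by norm_num) d12).trans (lb_cs hG hK ha hs s2))
  have : n ∈ K ⊓ centralizer ({s} : Set G) := eq ▸ ⟨hn, nR⟩
  exact st (by rw [← e1, mem_centralizer_singleton_iff.1 this.2, mul_inv_cancel_right])

end H30.E11
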