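import Cfsg.Agent.Lib.E11.JB1

set_option autoImplicit false

namespace H30.E11

open Subgroup H69

variable {G Ω : Type} [Group G] [Finite G] [MulAction G Ω] [Finite Ω] {ρ : Ω → Subgroup G}

theorem rq_cen (hG : Geo ρ) (hg : ⨆ a, ρ a = ⊤) (N : Subgroup G) [N.Normal] (hN : N ≠ ⊤) :
    N ≤ center G := by
  intro n hn
  have h1 : ∀ a, ∀ x ∈ ρ a, x ∈ N → x = 1 := fun a x hx hxN => by
    by_contra x1
    refine hN (top_le_iff.1 (hg ▸ iSup_le fun b => ?_))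
    obtain ⟨g, rfl⟩ := hG.tr a b
    rw [← hG.cj, ← hG.zp hx x1, ← cj_eq_of_normal N g]
    exact cj_mono g (zpowers_le.2 hxN)
  have hc : ∀ x : G, n * x * n⁻¹ * x⁻¹ ∈ N := fun x => by
    rw [mul_assoc, mul_assoc, ← mul_assoc x]
    exact mul_mem hn (‹N.Normal›.conj_mem _ (inv_mem hn) x)
  have h2 : ∀ a : Ω, n • a = a := fun a => by
    by_contra e
    obtain ⟨x, hx, x1⟩ := hG.exne a
    rcases bas_norm (hG.pair a (n • a) (Ne.symm e)) (N := (ρ a ⊔ ρ (n • a)) ⊓ N) inf_le_left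
      (le_normalizer_inf le_normalizer
        (le_top.trans (normal_iff_top_le_normalizer.1 ‹N.Normal›))) with h | h
    · have : n * x * n⁻¹ * x⁻¹ ∈ (ρ a ⊔ ρ (n • a)) ⊓ N :=
        mem_inf.2 ⟨mul_mem (mem_sup_right (hG.cj_mem n hx)) (inv_mem (mem_sup_left hx)), hc x⟩
      rw [h, mem_bot, mul_inv_eq_one] at this
      exact e (hG.eq_of_mem (this ▸ hG.cj_mem n hx) hx x1)
    · exact x1 (h1 a x hx (inf_eq_left.1 h (mem_sup_left hx)))
  have h3 : (⊤ : Subgroup G) ≤ centralizer {n} := hg ▸ iSup_le fun a x hx => by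
    have := hG.cj_mem n hx
    rw [h2] at this
    have := h1 a _ (mul_mem this (inv_mem hx)) (hc x)
    rw [mul_inv_eq_one, mul_inv_eq_iff_eq_mul] at this
    exact mem_centralizer_singleton_iff.2 this.symm
  exact mem_center_iff.2 fun g => mem_centralizer_singleton_iff.1 (h3 (mem_top g))

theorem rq_iso (N K : Subgroup G) [N.Normal] (h : ∀ x ∈ K, x ∈ N → x = 1) :
    Nonempty (K ≃* K.map (QuotientGroup.mk' N)) :=
  ⟨MulEquiv.ofBijective ((QuotientGroup.mk' N).subgroupMap K)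
    ⟨(injective_iff_map_eq_one _).2 fun x e => Subtype.ext (h x x.2
      ((QuotientGroup.eq_one_iff _).1 (congrArg Subtype.val e))),
      MonoidHom.subgroupMap_surjective _ _⟩⟩

theorem rq_main (hG : Geo ρ) (hg : ⨆ a, ρ a = ⊤) (h2 : ∃ a b : Ω, a ≠ b) (hI : IHn (Nat.card G))
    (hs : ¬ IsSimpleGroup G) : LTy G ∨ JTy G := by
  obtain ⟨a0, b0, hab⟩ := h2
  obtain ⟨N, hN, n0, n1⟩ : ∃ N : Subgroup G, N.Normal ∧ N ≠ ⊥ ∧ N ≠ ⊤ := by
    by_contra h
    obtain ⟨x, -, x1⟩ := hG.exne a0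
    haveI : Nontrivial G := ⟨x, 1, x1⟩
    exact hs ⟨fun N hN => by_contra fun e => h ⟨N, hN, fun e' => e (Or.inl e'), fun e' => e (Or.inr e')⟩⟩
  have hz : ∀ (K : Subgroup G), ∀ x ∈ N, x ∈ 𝐂(K) := fun K x hx =>
    center_le_centralizer _ (rq_cen hG hg N n1 hx)
  letI : MulAction (G ⧸ N) Ω := MulAction.compHom Ω
    (QuotientGroup.lift N (MulAction.toPermHom G Ω) fun n hn =>
      Equiv.ext fun a => hG.mu_fix (mu_one_iff.2 (hz _ n hn)))
  have hs' : ∀ (g : G) (a : Ω), (QuotientGroup.mk' N g) • a = g • a := fun _ _ => rfl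
  have hl : ∀ {a b : Ω}, a ≠ b → ∀ x ∈ ρ a ⊔ ρ b, x ∈ N → x = 1 := fun e x hx hn =>
    line_center (hG.pair _ _ e) hx (hz _ x hn)
  have hσ : Geo fun a => (ρ a).map (QuotientGroup.mk' N) := by
    refine ⟨fun a => ?_, fun a b e => ?_, fun g a => ?_, fun a b => ?_, fun a b e => ?_⟩
    · obtain ⟨b, hb⟩ : ∃ b, a ≠ b := by
        by_cases e : a = a0
        exacts [⟨b0, e ▸ hab⟩, ⟨a0, e⟩]
      obtain ⟨f⟩ := rq_iso N (ρ a) fun x hx => hl hb x (mem_sup_left hx)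
      rw [← Nat.card_congr f.toEquiv, hG.card]
    · by_contra e'
      obtain ⟨x, hx, x1⟩ := hG.exne a
      obtain ⟨y, hy, e''⟩ : QuotientGroup.mk' N x ∈ (ρ b).map (QuotientGroup.mk' N) :=
        (show (ρ a).map _ = (ρ b).map _ from e) ▸ mem_map_of_mem _ hx
      have := hl e' _ (mul_mem (inv_mem (mem_sup_right hy)) (mem_sup_left hx))
        (QuotientGroup.eq.1 e'')
      exact e' (hG.eq_of_mem hx (inv_mul_eq_one.1 this ▸ hy) x1)
    · obtain ⟨g, rfl⟩ := QuotientGroup.mk'_surjective N g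
      rw [hs', ← hG.cj, map_cj]
    · obtain ⟨g, e⟩ := hG.tr a b
      exact ⟨_, (hs' g a).trans e⟩
    · obtain ⟨f⟩ := rq_iso N _ (hl e)
      rw [← Subgroup.map_sup]
      exact (hG.pair a b e).imp (·.of_equiv f) (·.of_equiv f)
  have hQ := hI (G ⧸ N) Ω _ (by
      rw [card_eq_card_quotient_mul_card_subgroup N]
      exact lt_mul_of_one_lt_right Nat.card_pos ((one_lt_card_iff_ne_bot N).2 n0)) hσ
    (by rw [← Subgroup.map_iSup, hg, map_top_of_surjective _ (QuotientGroup.mk'_surjective N)]) ⟨a0, b0, hab⟩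
  obtain ⟨a, b, e, ht⟩ : ∃ a b, a ≠ b ∧
      (ρ a).map (QuotientGroup.mk' N) ⊔ (ρ b).map (QuotientGroup.mk' N) = ⊤ := by
    rcases hQ with h | h
    · exact ⟨a0, b0, hab, line_eq_L (hσ.pair a0 b0 hab) (h.of_equiv topEquiv.symm) le_top⟩
    · obtain ⟨x, hx, m⟩ := ja_ex hσ (h.of_equiv topEquiv.symm) (le_top (a := (ρ a0).map _))
      obtain ⟨b, hb, -, e⟩ := jb_opp hσ (h.of_equiv topEquiv.symm) le_top (le_normalizer hx) m
      exact ⟨a0, b, hb.symm, e⟩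
  have hK : ρ a ⊔ ρ b = ⊤ := top_le_iff.1 (hg ▸ iSup_le fun c => by
    obtain ⟨g, rfl⟩ := hG.tr a c
    rw [← Subgroup.map_sup] at ht
    obtain ⟨k, hk, e'⟩ : QuotientGroup.mk' N g ∈ (ρ a ⊔ ρ b).map (QuotientGroup.mk' N) :=
      ht ▸ mem_top _
    rw [← hs', ← e', hs']
    exact hG.le_mem hk le_sup_left)
  have f := (MulEquiv.subgroupCongr hK).trans topEquiv
  exact (hG.pair a b e).imp (·.of_equiv f) (·.of_equiv f)

end H30.E11
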