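import Cfsg.Agent.Lib.E11.Bas

set_option autoImplicit false

namespace H30.E11

open Subgroup H69

variable {G Ω : Type} [Group G] [Finite G] [MulAction G Ω] [Finite Ω] {ρ : Ω → Subgroup G}

theorem rs_ih (hG : Geo ρ) (hI : IHn (Nat.card G)) (H : Subgroup G) (a b : Ω) (hH : H ≠ ⊤)
    (hab : a ≠ b) (ha : ρ a ≤ H) (hb : ρ b ≤ H) :
    ∃ K : Subgroup G, (LTy K ∨ JTy K) ∧ ∀ c, ρ c ≤ H → ρ c ≤ K := by
  obtain ⟨H0, h0⟩ : ∃ H0, H0 = ⨆ c : {c // ρ c ≤ H}, ρ c := ⟨_, rfl⟩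
  have hle : H0 ≤ H := h0 ▸ iSup_le fun c => c.2
  have hc : ∀ c : {c // ρ c ≤ H}, ρ c ≤ H0 := fun c =>
    h0 ▸ le_iSup (fun c : {c // ρ c ≤ H} => ρ c) c
  letI : MulAction H0 {c // ρ c ≤ H} :=
    { smul := fun g c => ⟨(g : G) • c.1, hG.le_mem (hle g.2) c.2⟩
      one_smul := fun c => Subtype.ext (one_smul G c.1)
      mul_smul := fun g h c => Subtype.ext (mul_smul (g : G) (h : G) c.1) }
  have hm : ∀ c : {c // ρ c ≤ H}, ((ρ c).subgroupOf H0).map H0.subtype = ρ c := fun c =>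
    map_subgroupOf_eq_of_le (hc c)
  refine ⟨H0, hI H0 {c // ρ c ≤ H} (fun c => (ρ c).subgroupOf H0)
    (lt_of_le_of_ne (card_le_card_group H0) fun e =>
      hH (top_le_iff.1 (eq_top_of_card_eq H0 e ▸ hle)))
    ⟨fun c => (card_subgroupOf (hc c)).trans (hG.card c), fun c d e => Subtype.ext (hG.inj ?_),
      fun g c => by rw [subgroupOf_cj, hG.cj]; rfl, fun c d => ?_, fun c d e => ?_⟩ ?_
    ⟨⟨a, ha⟩, ⟨b, hb⟩, fun e => hab (congrArg Subtype.val e)⟩, fun c h => hc ⟨c, h⟩⟩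
  · rw [← hm c, ← hm d]
    exact congrArg _ e
  · by_cases e : c = d
    · exact ⟨1, by rw [one_smul, e]⟩
    · obtain ⟨k, hk, e'⟩ := hG.line_tr (hG.pair c d fun e' => e (Subtype.ext e')) le_sup_left
        le_sup_right
      exact ⟨⟨k, sup_le (hc c) (hc d) hk⟩, Subtype.ext e'⟩
  · rw [← subgroupOf_sup (hc c) (hc d)]
    have f := (subgroupOfEquivOfLe (sup_le (hc c) (hc d))).symm
    exact (hG.pair c d fun e' => e (Subtype.ext e')).imp (·.of_equiv f) (·.of_equiv f)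
  · rw [← map_subtype_eq_self_iff, Subgroup.map_iSup]
    simp only [hm]
    exact h0.symm

end H30.E11
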