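import Cfsg.Agent.Lib.E11.LS

set_option autoImplicit false

namespace H30.E11

open Subgroup H69

variable {G Ω : Type} [Group G] [Finite G] [MulAction G Ω] [Finite Ω] {ρ : Ω → Subgroup G}

theorem XW.X4A_mem (hX : XW ρ) {a b : Ω} {u v : G} (hu : Mu ρ u a 10) (hb : u • b = b)
    (hv : Mu ρ v a 10) (hb' : v • b = b) : u * v ∈ 𝐂(ρ a ⊔ ρ b) :=
  have m := hX.toGeo.mu_mod (hu.mul hv) 1 (by norm_num)
  cent_sup m (hX.toLW.typ m (by rw [mul_smul, hb', hb]))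

theorem XW.X4A_pow (hX : XW ρ) {a b : Ω} (hab : a ≠ b) {c : G} (hc : c ∈ 𝐂(ρ a ⊔ ρ b)) :
    c ^ 11 = 1 := by
  have := pow_card_eq_one' (x := (⟨c, hc⟩ : 𝐂(ρ a ⊔ ρ b)))
  rw [hX.c11 a b hab] at this
  exact congrArg Subtype.val this

theorem XW.X4A_one (hX : XW ρ) {a b : Ω} (hab : a ≠ b) {u : G} (hu : Mu ρ u a 10) (hb : u • b = b)
    {c : G} (hc : c ∈ 𝐂(ρ a ⊔ ρ b)) (e : c * u = u * c) : c = 1 := by
  have h1 := hX.inv a b u hab hu hb c hc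
  rw [← e, mul_inv_cancel_right, ← mul_eq_one_iff_eq_inv] at h1
  have h3 := hX.X4A_pow hab hc
  rwa [show 11 = 2 * 5 + 1 from rfl, pow_succ, pow_mul, pow_two, h1, one_pow, one_mul] at h3

theorem XW.sq (hX : XW ρ) {a b : Ω} (hab : a ≠ b) {u : G} (hu : Mu ρ u a 10) (hb : u • b = b) :
    u * u = 1 := by
  have h := hX.X4A_mem hu hb hu hb
  exact hX.X4A_one hab hu hb h (mul_assoc _ _ _)

theorem XW.ten (hX : XW ρ) {c : Ω} {v : G} (h2 : v * v = 1) (h1 : v ≠ 1) (hc : v • c = c) :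
    Mu ρ v c 10 := by
  refine (hX.toGeo.mu_two h2 hc).resolve_left fun h => (hX.oddC c).not_two_dvd_nat ?_
  have := orderOf_dvd_natCard (⟨v, mu_one_iff.1 h⟩ : 𝐂(ρ c))
  rwa [← orderOf_coe, orderOf_eq_prime (p := 2) (by rw [pow_two, h2]) h1] at this

theorem XW.cjT (hX : XW ρ) {a b : Ω} (hab : a ≠ b) {u v : G} (hu : Mu ρ u a 10) (hb : u • b = b)
    (hv : Mu ρ v a 10) (hb' : v • b = b) : ∃ t ∈ 𝐂(ρ a ⊔ ρ b), t * u * t⁻¹ = v := by
  have h := hX.X4A_mem hv hb' hu hb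
  have e := hX.inv a b u hab hu hb _ (inv_mem (pow_mem h 6))
  refine ⟨(v * u) ^ 6, pow_mem h 6, ?_⟩
  calc _ = (v * u) ^ 6 * (u * ((v * u) ^ 6)⁻¹ * u⁻¹) * u := by group
    _ = (v * u) ^ 11 * v * (u * u) := by
      rw [e, inv_inv, ← pow_add, pow_succ (v * u) 11]; simp only [mul_assoc]
    _ = v := by rw [hX.X4A_pow hab h, hX.sq hab hu hb, one_mul, mul_one]

theorem XW.reg (hX : XW ρ) {a b : Ω} (hab : a ≠ b) {u : G} (hu : Mu ρ u a 10) (hb : u • b = b) :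
    Nat.card ↥(𝐂(ρ a) ⊓ centralizer ({u} : Set G)) + 1 = {c : Ω | u • c = c}.ncard := by
  have hG := hX.toGeo
  have h := orb_card (fun (g : G) (y : Ω) => g • y) (one_smul G) mul_smul
    (𝐂(ρ a) ⊓ centralizer ({u} : Set G)) ⊥ b fun e =>
    ⟨fun h => by rw [mem_bot.1 h]; exact ⟨one_mem _, one_smul _ _⟩, fun h =>
      hX.X4A_one hab hu hb (cent_sup (mu_one_iff.2 h.1.1) (hX.toLW.typ (mu_one_iff.2 h.1.1) h.2))
        (mem_centralizer_singleton_iff.1 h.1.2)⟩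
  have e : {y | ∃ e ∈ 𝐂(ρ a) ⊓ centralizer ({u} : Set G), e • b = y} = {c : Ω | u • c = c} \ {a} := by
    ext y
    constructor
    · rintro ⟨e, he, rfl⟩
      refine ⟨?_, LA1_ne (hG.mu_fix (mu_one_iff.2 he.1)) hab.symm⟩
      show u • e • b = e • b
      rw [← mul_smul, ← mem_centralizer_singleton_iff.1 he.2, mul_smul, hb]
    · rintro ⟨h1, h2⟩
      obtain ⟨c, hc, rfl⟩ := hX.toLW.tr1 hab.symm h2
      have m := hG.mu_cj hu c
      rw [hG.mu_fix hc] at m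
      obtain ⟨t, ht, e⟩ := hX.cjT (Ne.symm h2) m (by rw [mul_smul, mul_smul, inv_smul_smul, hb]) hu h1
      refine ⟨t * c, ⟨mul_mem (mu_one_iff.1 (mu_of_cent ht le_sup_left)) (mu_one_iff.1 hc),
        mem_centralizer_singleton_iff.2 (mul_inv_eq_iff_eq_mul.1 ?_)⟩, ?_⟩
      · conv_rhs => rw [← e]
        group
      · rw [mul_smul, hG.mu_fix (mu_of_cent ht le_sup_right)]
  rw [h, e, card_bot, mul_one, Set.ncard_sdiff_singleton_add_one (show a ∈ {c : Ω | u • c = c} from hG.mu_fix hu)]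

theorem XW.cjI (hX : XW ρ) {a b : Ω} (hab : a ≠ b) {u : G} (hu : Mu ρ u a 10) (hb : u • b = b)
    {v : G} (h2 : v * v = 1) (h1 : v ≠ 1) {c : Ω} (hc : v • c = c) : ∃ g : G, g * u * g⁻¹ = v := by
  have hG := hX.toGeo
  have p := fix_par Set.univ (Set.toFinite _) (fun y : Ω => v • y) (fun _ _ => trivial)
    fun y _ => by rw [← mul_smul, h2, one_smul]
  rw [Set.ncard_univ, Nat.even_iff.1 hX.even] at p
  obtain ⟨d, hd, hdc⟩ : ∃ d, v • d = d ∧ d ≠ c := by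
    by_contra! n
    rw [show {y | y ∈ Set.univ ∧ v • y = y} = {c} from
      Set.ext fun y => ⟨fun h => n y h.2, fun h => ⟨trivial, h ▸ hc⟩⟩, Set.ncard_singleton] at p
    omega
  obtain ⟨g, rfl, rfl⟩ := hX.toLW.tr2 hab hdc.symm
  obtain ⟨t, -, e⟩ := hX.cjT hdc.symm (hG.mu_cj hu g) (by rw [mul_smul, mul_smul, inv_smul_smul, hb])
    (hX.ten h2 h1 hc) hd
  exact ⟨t * g, by rw [← e]; group⟩

end H30.E11
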