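import Cfsg.Agent.Lib.E11.X4A
import Cfsg.Agent.Lib.E11.EXA

set_option autoImplicit false

namespace H30.E11

open Subgroup H69

variable {G Ω : Type} [Group G] [Finite G] [MulAction G Ω] [Finite Ω] {ρ : Ω → Subgroup G}

theorem x4_y0 (hX : XW ρ) {a : Ω} {K K' : Subgroup G} {a0 p : G} (h : Exc ρ (IsL ρ) a K K' a0 p) :
    ∃ y : G, Mu ρ y a 1 ∧ y * a0 * y⁻¹ = a0 * p ^ 9 := by
  have hG := hX.toGeo
  have hS := hX.toLW.sys
  obtain ⟨k, hk, m⟩ := hS.exh a K h.hK h.ha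
  obtain ⟨k', hk', m'⟩ := hS.exh a K' h.hK' h.ha'
  refine ⟨k' * k⁻¹, hG.mu_mod (m'.mul (hG.mu_inv m 4 (by norm_num))) 1 (by norm_num), ?_⟩
  have e1 : k⁻¹ * a0 = a0 * k⁻¹ := mem_centralizer_iff_commute.1 h.mem _ (inv_mem hk)
  have e2 : k' * (a0 * p) = a0 * p * k' := mem_centralizer_iff_commute.1 h.mem' _ hk'
  have e3 : p ^ 9 = p * (p ^ 3)⁻¹ := by
    rw [eq_mul_inv_iff_mul_eq, ← pow_add, show 9 + 3 = 11 + 1 from rfl, pow_succ, hG.pow11 h.hp,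
      one_mul]
  calc k' * k⁻¹ * a0 * (k' * k⁻¹)⁻¹ = k' * (k⁻¹ * a0) * k * k'⁻¹ := by group
    _ = k' * (a0 * p) * k'⁻¹ * (k' * p * k'⁻¹)⁻¹ := by rw [e1]; group
    _ = _ := by rw [e2, m' p h.hp, e3]; group

theorem x4_pow {a : Ω} {a0 p y : G} (hp : p ∈ ρ a) (m : Mu ρ y a 1)
    (e : y * a0 * y⁻¹ = a0 * p ^ 9) (n : ℕ) : y ^ n * a0 * (y ^ n)⁻¹ = a0 * p ^ (9 * n) := by
  induction n with
  | zero => simp
  | succ n ih =>
    calc y ^ (n + 1) * a0 * (y ^ (n + 1))⁻¹ = y * (y ^ n * a0 * (y ^ n)⁻¹) * y⁻¹ := by group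
      _ = y * a0 * y⁻¹ * (y * p ^ (9 * n) * y⁻¹) := by rw [ih]; group
      _ = _ := by rw [e, m _ (pow_mem hp _), pow_one, mul_assoc, ← pow_add]; congr 2; ring

theorem x4_ten (hG : Geo ρ) {a : Ω} {u x : G} (hu : Mu ρ u a 10) (hx : x ∈ ρ a) :
    u * x * u⁻¹ = x⁻¹ := by
  rw [hu x hx]
  exact eq_inv_of_mul_eq_one_left (by rw [← pow_succ, hG.pow11 hx])

theorem x4_c11 (hX : XW ρ) {a b : Ω} (hab : a ≠ b) {c : G} (hc : c ∈ 𝐂(ρ a ⊔ ρ b)) : c ^ 11 = 1 := by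
  rw [← hX.c11 a b hab]
  exact congrArg Subtype.val (pow_card_eq_one' (x := (⟨c, hc⟩ : 𝐂(ρ a ⊔ ρ b))))

theorem x4_11 (hX : XW ρ) {a b : Ω} {K K' : Subgroup G} {a0 p : G}
    (h : Exc ρ (IsL ρ) a K K' a0 p) (hab : a ≠ b) (hbK : ρ b ≤ K) {u : G} (hu : Mu ρ u a 10)
    (hb : u • b = b) : 11 ∣ Nat.card ↥(𝐂(ρ a) ⊓ centralizer ({u} : Set G)) := by
  have hG := hX.toGeo
  have hS := hX.toLW.sys
  obtain rfl := la_sup hG h.hK.1 h.ha hbK hab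
  obtain ⟨y, m, e⟩ := x4_y0 hX h
  obtain ⟨p1, -, pc⟩ := h.pne hG hS
  have hi := hX.inv a b u hab hu hb
  have u2 : u⁻¹ = u := inv_eq_of_mul_eq_one_right (hX.sq hab hu hb)
  obtain ⟨w, hw⟩ : ∃ w, w = y⁻¹ * (u * y * u⁻¹) := ⟨_, rfl⟩
  have mw : Mu ρ w a 1 := by
    have := hG.mu_cj m u
    rw [hG.mu_fix hu] at this
    exact hw ▸ (hG.mu_inv m 1 (by norm_num)).mul this
  have wa : w * a0 = a0 * w := by
    have e1 : u⁻¹ * a0 * u = a0⁻¹ := by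
      have := hi a0 h.mem
      rw [u2] at this ⊢
      exact this
    have e2 : u * (a0 * p ^ 9) * u⁻¹ = (a0 * p ^ 9)⁻¹ := by
      rw [← conj_mul, hi a0 h.mem, x4_ten hG hu (pow_mem h.hp 9), ← mul_inv_rev,
        ((show Commute a0 p from pc).pow_right 9).eq]
    rw [← mul_inv_eq_iff_eq_mul]
    calc w * a0 * w⁻¹ = y⁻¹ * (u * (y * (u⁻¹ * a0 * u)⁻¹ * y⁻¹) * u⁻¹)⁻¹ * y := by rw [hw]; group
      _ = a0 := by rw [e1, inv_inv, e, e2, inv_inv, ← e]; group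
  obtain ⟨x, hx, c, hc, ew, xc⟩ := hS.dec h.hK h.ha (hS.norm hG h.hK h.mem h.ne1 wa) mw
  have uw : u * w * u⁻¹ = w⁻¹ := by
    rw [ew, ← conj_mul, x4_ten hG hu hx, hi c hc, ← mul_inv_rev, xc]
  have w11 : w ^ 11 = 1 := by
    rw [ew, (show Commute x c from xc).mul_pow, hG.pow11 hx, x4_c11 hX hab hc, one_mul]
  have m' : Mu ρ (y * w ^ 6) a 1 := m.mul (mw.pow 6)
  have e' : y * w ^ 6 * a0 * (y * w ^ 6)⁻¹ = a0 * p ^ 9 := by
    rw [mul_assoc y, ((show Commute w a0 from wa).pow_left 6).eq, ← e]; group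
  have hy : y * w ^ 6 ∈ 𝐂(ρ a) ⊓ centralizer ({u} : Set G) := by
    refine ⟨mu_one_iff.1 m', mem_centralizer_singleton_iff.2 (mul_inv_eq_iff_eq_mul.1 ?_).symm⟩
    rw [← conj_mul, ← conj_pow, uw, show u * y * u⁻¹ = y * w by rw [hw]; group, mul_assoc,
      mul_left_cancel_iff, inv_pow, mul_inv_eq_iff_eq_mul, ← pow_add,
      show 6 + 6 = 11 + 1 from rfl, pow_succ, w11, one_mul]
  have := x4_pow h.hp m' e' (orderOf (y * w ^ 6))
  rw [pow_orderOf_eq_one, one_mul, inv_one, mul_one, left_eq_mul, ← orderOf_dvd_iff_pow_eq_one,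
    hG.ord h.hp p1] at this
  exact (Nat.Coprime.dvd_of_dvd_mul_left (by norm_num) this).trans (orderOf_dvd_natCard _ hy)

theorem x4_121 (hX : XW ρ) {a : Ω} {K K' : Subgroup G} {a0 p : G}
    (h : Exc ρ (IsL ρ) a K K' a0 p) {u : G} (hu : Mu ρ u a 10) :
    121 * Nat.card ↥(𝐂(ρ a) ⊓ centralizer ({u} : Set G)) ∣ Nat.card 𝐂(ρ a) := by
  have hG := hX.toGeo
  have hS := hX.toLW.sys
  haveI : Fact (Nat.Prime 11) := ⟨by norm_num⟩
  obtain ⟨y, m, e⟩ := x4_y0 hX h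
  obtain ⟨p1, -, pc⟩ := h.pne hG hS
  have o := h.ord hG hS
  have ma := mu_of_cent h.mem h.ha
  have hn : zpowers a0 ≤ 𝐍(ρ a) := zpowers_le.2 (hG.fix_iff.1 (hG.mu_fix ma))
  have a1 : ∀ x : G, 1 * x * 1⁻¹ = x := fun x => by group
  have am : ∀ g k x : G, g * k * x * (g * k)⁻¹ = g * (k * x * k⁻¹) * g⁻¹ := fun g k x => by group
  rw [orb_card (fun g x : G => g * x * g⁻¹) a1 am 𝐂(ρ a) (𝐂(ρ a) ⊓ centralizer ({u} : Set G)) u
    fun e => and_congr_right fun _ => mem_centralizer_singleton_iff.trans mul_inv_eq_iff_eq_mul.symm]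
  refine Nat.mul_dvd_mul_right (Dvd.dvd.trans ?_ (semi_dvd (fun g x : G => g * x * g⁻¹) a1 am
    (zpowers a0 ⊔ ρ a) _ (Set.toFinite _) ?_ ?_)) _
  · obtain ⟨k, hk⟩ := (isPGroup_sup_of_le_normalizer_right
      (IsPGroup.of_card (n := 1) (by rw [Nat.card_zpowers, o, pow_one]))
      (IsPGroup.of_card (n := 1) (by rw [hG.card, pow_one])) hn).exists_card_eq
    have h1 : ρ a ≠ zpowers a0 ⊔ ρ a := fun e =>
      h.ne1 (hS.disj hG h.hK (a := a) (e ▸ mem_sup_left (mem_zpowers a0)) h.mem)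
    have h2 : 11 < Nat.card ↥(zpowers a0 ⊔ ρ a) := by
      by_contra h2
      exact h1 (eq_of_le_of_card_ge le_sup_right (by rw [hG.card]; omega))
    rw [hk] at h2 ⊢
    exact pow_dvd_pow 11 (show 1 < k from (Nat.pow_lt_pow_iff_right (by norm_num)).1
      (show 11 ^ 1 < 11 ^ k from h2))
  · rintro g hg _ ⟨c, hc, rfl⟩
    exact ⟨g * c, mul_mem (sup_le (zpowers_le.2 (mu_one_iff.1 ma))
      (fun x hx => mu_one_iff.1 (hG.mu_mem hx)) hg) hc, am g c u⟩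
  · rintro g hg _ ⟨c, hc, rfl⟩ hgu
    have mu := hG.mu_cj hu c
    rw [hG.mu_fix (mu_one_iff.2 hc)] at mu
    have gu : c * u * c⁻¹ * g = g * (c * u * c⁻¹) := (mul_inv_eq_iff_eq_mul.1 hgu).symm
    obtain ⟨z, hz, q, hq, rfl⟩ := (mem_sup_of_le_normalizer_right hn).1 hg
    obtain ⟨i, rfl⟩ := mem_powers_iff_mem_zpowers.2 hz
    by_cases z1 : a0 ^ i = 1
    · simp only [z1, one_mul] at gu ⊢
      exact hG.eq_one mu (by norm_num) hq gu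
    by_contra g1
    obtain ⟨n, rfl⟩ := hG.gen1 (pow_mem h.hp (9 * i)) (fun e => z1 (by
      rw [← orderOf_dvd_iff_pow_eq_one, hG.ord h.hp p1] at e
      rw [← orderOf_dvd_iff_pow_eq_one, o]
      exact Nat.Coprime.dvd_of_dvd_mul_left (by norm_num) e)) hq
    have hc' : a0 ^ i * (p ^ (9 * i)) ^ n ∈ 𝐂(K ^ᶜ (y ^ n)) := by
      have := cj_mem (y ^ n) (pow_mem h.mem i)
      rwa [cj_centralizer, ← conj_pow, x4_pow h.hp m e,
        ((show Commute a0 p from pc).pow_right _).mul_pow, ← pow_mul, mul_right_comm, pow_mul] at this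
    have hK := hS.cjM (y ^ n) K h.hK
    have ha := (hG.le_cj (y ^ n)).2 h.ha
    rw [hG.mu_fix (m.pow n)] at ha
    obtain ⟨b, ⟨hb, ba, ub⟩, -⟩ := la_fix hG hK.1 ha (hS.norm hG hK hc' g1 gu) mu (by norm_num)
    rw [← la_sup hG hK.1 ha hb ba.symm] at hc'
    have h1 := hX.inv a b _ ba.symm mu ub _ hc'
    have h2 := x4_c11 hX ba.symm hc'
    rw [gu, mul_inv_cancel_right, eq_inv_iff_mul_eq_one, ← pow_two] at h1
    rw [show 11 = 2 * 5 + 1 from rfl, pow_succ, pow_mul, h1, one_pow, one_mul] at h2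
    exact g1 h2

end H30.E11
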