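import Cfsg.Agent.Lib.E11.X4A
import Cfsg.Agent.Lib.E11.LB1

set_option autoImplicit false

namespace H30.E11

open Subgroup H69

variable {G Ω : Type} [Group G] [Finite G] [MulAction G Ω] [Finite Ω] {ρ : Ω → Subgroup G}

theorem x4_in (hX : XW ρ) {a b : Ω} (hab : a ≠ b) {u : G} (hu : Mu ρ u a 10) (hb : u • b = b)
    (hd : {c : Ω | u • c = c}.ncard % 11 = 1) {K : Subgroup G} (hK : IsL ρ K) {s : G} (hs : s ∈ K)
    (h2 : s * s = 1) (h1 : s ≠ 1) (c : Ω) : s • c ≠ c := by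
  intro hc
  have hG := hX.toGeo
  obtain ⟨g, rfl⟩ := hX.cjI hab hu hb h2 h1 hc
  obtain ⟨a', ha'⟩ := hK.2
  obtain ⟨b', hb', hb''⟩ := hG.line_two (Or.inl hK.1) ha'
  have h11 := hX.c11 a' b' hb'.symm
  rw [la_sup hG hK.1 ha' hb'' hb'.symm] at h11
  have hcard : {c : Ω | (g * u * g⁻¹) • c = c}.ncard = {c : Ω | u • c = c}.ncard := by
    rw [← Set.ncard_image_of_injective {c : Ω | u • c = c} (MulAction.injective g)]
    congr 1
    ext y
    constructor
    · intro hy
      refine ⟨g⁻¹ • y, ?_, smul_inv_smul g y⟩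
      rw [Set.mem_setOf_eq, mul_smul, mul_smul, smul_eq_iff_eq_inv_smul] at hy
      exact hy
    · rintro ⟨y, hy, rfl⟩
      rw [Set.mem_setOf_eq] at hy ⊢
      rw [mul_smul, inv_smul_smul, mul_smul, hy]
  have := semi_dvd (fun (e : G) (y : Ω) => e • y) (one_smul G) mul_smul 𝐂(K)
    {c : Ω | (g * u * g⁻¹) • c = c} (Set.toFinite _)
    (fun e he y hy => by
      rw [Set.mem_setOf_eq] at hy ⊢
      rw [← mul_smul, mem_centralizer_iff_commute.1 he _ hs, mul_smul, hy])
    (fun e he y hy ey => by_contra fun e1 =>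
      la_inv hG hK.1 (hX.toLW.sys.fix K e y hK he e1 ey) hs h2 h1 hy)
  rw [h11, hcard] at this
  omega

theorem x4_two (hX : XW ρ) {u : G} (h2 : u * u = 1) (h1 : u ≠ 1) {K : Subgroup G} (hK : LTy K)
    (hu : u ∈ 𝐍(K)) {d d' : Ω} (hd : ρ d ≤ K) (hd' : ρ d' ≤ K) (ud : u • d = d) (ud' : u • d' = d')
    (hne : d ≠ d') {e : Ω} (he : ρ e ≤ K) (ue : u • e = e) : e = d ∨ e = d' :=
  or_iff_not_imp_left.2 fun ed =>
    (la_fix hX.toGeo hK hd hu (hX.ten h2 h1 ud) (by norm_num)).unique ⟨he, ed, ue⟩ ⟨hd', hne.symm, ud'⟩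

theorem x4_n (hX : XW ρ) {a b : Ω} (hab : a ≠ b) {u : G} (hu : Mu ρ u a 10) (hb : u • b = b)
    (hd : {c : Ω | u • c = c}.ncard % 11 = 1) :
    Nat.card Ω = {c : Ω | u • c = c}.ncard +
      5 * ({c : Ω | u • c = c}.ncard * ({c : Ω | u • c = c}.ncard - 1)) := by
  classical
  have hG := hX.toGeo
  have hW := hX.toLW
  haveI := Fintype.ofFinite Ω
  have u2 := hX.sq hab hu hb
  have u1 : u ≠ 1 := fun e => absurd (hG.mu_uniq hu (e ▸ mu_one a)) (by norm_num)
  obtain ⟨D, hD⟩ : ∃ D : Finset Ω, ∀ c, c ∈ D ↔ u • c = c :=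
    ⟨Finset.univ.filter fun c => u • c = c, fun c => by simp⟩
  have hc : {c : Ω | u • c = c}.ncard = D.card := by
    rw [← Set.ncard_coe_finset]
    exact congrArg _ (Set.ext fun c => (hD c).symm)
  have key := Finset.card_mul_eq_card_mul (s := D.offDiag) (t := Dᶜ) (m := 10) (n := 2)
    (fun (p : Ω × Ω) (c : Ω) => ρ c ≤ ρ p.1 ⊔ ρ p.2) (fun p hp => by
      obtain ⟨p1, p2, p3⟩ := Finset.mem_offDiag.1 hp
      have hL := hW.lt p3
      have h12 := la_card hG hL le_sup_left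
      have e : ((Dᶜ.bipartiteAbove (fun (p : Ω × Ω) (c : Ω) => ρ c ≤ ρ p.1 ⊔ ρ p.2) p : Finset Ω) :
          Set Ω) = {c | ρ c ≤ ρ p.1 ⊔ ρ p.2} \ {p.1, p.2} := by
        ext c
        rw [Finset.mem_coe, Finset.mem_bipartiteAbove, Finset.mem_compl, and_comm]
        refine and_congr_right fun h => not_congr ⟨fun h' => x4_two hX u2 u1 hL
          (hG.norm_fix ((hD _).1 p1) ((hD _).1 p2)) le_sup_left le_sup_right ((hD _).1 p1)
          ((hD _).1 p2) p3 h ((hD _).1 h'), ?_⟩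
        rintro (rfl | rfl)
        exacts [p1, p2]
      rw [← Set.ncard_coe_finset, e, Set.ncard_diff (by
        rintro _ (rfl | rfl)
        exacts [le_sup_left (a := ρ p.1), le_sup_right (b := ρ p.2)]), h12, Set.ncard_pair p3])
    (fun c hc' => by
      have uc : c ≠ u • c := fun e => Finset.mem_compl.1 hc' ((hD c).2 e.symm)
      have hL := hW.lt uc
      have hn := hG.norm_swap (a := c) rfl (by rw [← mul_smul, u2, one_smul])
      obtain ⟨d, hd1, m⟩ : ∃ d, ρ d ≤ ρ c ⊔ ρ (u • c) ∧ Mu ρ u d 10 := by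
        refine (lb_out hG hL le_sup_left hn u2).resolve_left ?_
        rintro ⟨k, hk, ht⟩
        obtain ⟨t, rfl⟩ : ∃ t, u = k * t := ⟨k⁻¹ * u, by group⟩
        rw [inv_mul_cancel_left] at ht
        have kt := mem_centralizer_iff_commute.1 ht k hk
        have t2 : t ^ 2 = 1 := line_center (Or.inl hL) (by
          rw [← pow_two, (show Commute k t from kt).mul_pow] at u2
          rw [eq_inv_of_mul_eq_one_right u2]
          exact inv_mem (pow_mem hk 2)) (pow_mem ht 2)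
        have t11 : t ^ (2 * 5 + 1) = 1 := by
          rw [show 2 * 5 + 1 = _ from (hX.c11 _ _ uc).symm]
          exact congrArg Subtype.val (pow_card_eq_one' (x := (⟨t, ht⟩ : 𝐂(_))))
        rw [pow_succ, pow_mul, t2, one_pow, one_mul] at t11
        exact x4_in hX hab hu hb hd (hW.isL uc) (mul_mem hk (t11 ▸ one_mem _)) u2 u1 a
          (hG.mu_fix hu)
      obtain ⟨d', ⟨hd2, dd, ud'⟩, -⟩ := la_fix hG hL hd1 hn m (by norm_num)
      have ud := hG.mu_fix m
      have e : D.offDiag.bipartiteBelow (fun (p : Ω × Ω) (c : Ω) => ρ c ≤ ρ p.1 ⊔ ρ p.2) c =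
          {(d, d'), (d', d)} := by
        ext ⟨x, y⟩
        rw [Finset.mem_bipartiteBelow, Finset.mem_offDiag, Finset.mem_insert, Finset.mem_singleton,
          hD, hD]
        constructor
        · rintro ⟨⟨p1, p2, p3⟩, h⟩
          have e := la_sup hG (hW.lt p3) h (hG.le_norm (hG.norm_fix p1 p2) h) uc
          rcases x4_two hX u2 u1 hL hn hd1 hd2 ud ud' dd.symm (e ▸ le_sup_left) p1 with h1 | h1 <;>
            rcases x4_two hX u2 u1 hL hn hd1 hd2 ud ud' dd.symm (e ▸ le_sup_right) p2 with h2 | h2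
          · exact absurd (h1.trans h2.symm) p3
          · exact Or.inl (Prod.ext h1 h2)
          · exact Or.inr (Prod.ext h1 h2)
          · exact absurd (h1.trans h2.symm) p3
        · rintro (h | h) <;> obtain ⟨rfl, rfl⟩ := Prod.ext_iff.1 h
          · exact ⟨⟨ud, ud', dd.symm⟩, (la_sup hG hL hd1 hd2 dd.symm).symm ▸ le_sup_left⟩
          · exact ⟨⟨ud', ud, dd⟩, (la_sup hG hL hd2 hd1 dd).symm ▸ le_sup_left⟩
      rw [e, Finset.card_pair fun h => dd (Prod.ext_iff.1 h).2])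
  rw [Finset.offDiag_card, Finset.card_compl] at key
  have := D.card_le_univ
  rw [hc, Nat.card_eq_fintype_card, Nat.mul_sub_one]
  omega

end H30.E11
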